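import Cfsg.Agent.ReeSThree.Local
import Cfsg.Agent.CAGroups.AbelianInvolutionSplit
import Mathlib.GroupTheory.FixedPointFree

/-!
# Groups of Ree type: the Sylow `3`-subgroup and centralisers of elements of order `3`
-/

set_option autoImplicit false
set_option maxHeartbeats 400000

namespace CfsgLib.ReeSThree

open scoped Pointwise

universe u

variable {G : Type u} [Group G]

theorem card_centralizer_conjugate (c s : G) :
    Nat.card (Subgroup.centralizer ({c * s * c⁻¹} : Set G)) =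
      Nat.card (Subgroup.centralizer ({s} : Set G)) := by
  refine (Nat.card_congr ((MulAut.conj c).toEquiv.subtypeEquiv fun x => ?_)).symm
  rw [Subgroup.mem_centralizer_singleton_iff, Subgroup.mem_centralizer_singleton_iff]
  show x * s = s * x ↔ c * x * c⁻¹ * (c * s * c⁻¹) = c * s * c⁻¹ * (c * x * c⁻¹)
  rw [← conj_mul', ← conj_mul', mul_left_inj, mul_right_inj]

namespace Setup

variable {t : G} {K : Subgroup G} {q : ℕ} (h : Setup G t K q)
include h

theorem noInv_pow {s x : G} (hs : s * s = 1) {j : ℕ} (hx : x ^ (3 ^ j) = 1)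
    (hinv : s * x * s⁻¹ = x⁻¹) : x = 1 := by
  induction j generalizing x with
  | zero => simpa using hx
  | succ j ih =>
    refine h.noInv s x hs (ih ?_ ?_) hinv
    · rw [← pow_mul, ← pow_succ', hx]
    · rw [← conj_pow, hinv, inv_pow]

/-- An involution normalising a `3`-group centralises it. -/
theorem le_cent_of_normalize {s : G} (hs : s * s = 1) {Q : Subgroup G} (hQ : IsPGroup 3 Q)
    (hn : s ∈ Subgroup.normalizer (Q : Set G)) {x : G} (hx : x ∈ Q) : Commute x s := by
  have hsi : s⁻¹ = s := inv_eq_of_mul_eq_one_right hs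
  set y : G := x⁻¹ * (s * x * s⁻¹) with hy
  have hyQ : y ∈ Q := Q.mul_mem (Q.inv_mem hx) ((Subgroup.mem_normalizer_iff.1 hn x).1 hx)
  obtain ⟨j, hj⟩ := hQ ⟨y, hyQ⟩
  have hj' : y ^ (3 ^ j) = 1 := congrArg Subtype.val hj
  have hinv : s * y * s⁻¹ = y⁻¹ := by
    rw [hy]
    calc s * (x⁻¹ * (s * x * s⁻¹)) * s⁻¹ = s * x⁻¹ * (s * x * (s⁻¹ * s⁻¹)) := by group
      _ = (x⁻¹ * (s * x * s⁻¹))⁻¹ := by
        rw [hsi, hs, mul_one]
        simp [mul_assoc, hsi]
  have h1 := h.noInv_pow hs hj' hinv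
  rw [hy, inv_mul_eq_one] at h1
  exact eq_mul_inv_iff_mul_eq.1 h1

/-- A group with a single involution in a centraliser of an involution is `2`-nilpotent. -/
theorem two_complement [Finite G] (H : Subgroup G) {z : G} (hzH : z ∈ H) (hz : orderOf z = 2)
    (hc : ∀ x ∈ H, Commute x z → x * x = 1 → x = 1 ∨ x = z) :
    ∃ M : Subgroup G, M ≤ H ∧ Odd (Nat.card M) ∧ z ∉ M ∧ (M.subgroupOf H).Normal ∧
      (∀ m ∈ M, z * m * z⁻¹ ∈ M) ∧ (∀ x ∈ H, x * x ∈ M) ∧
      ∀ x ∈ H, ∀ j : ℕ, x ^ (2 * j + 1) = 1 → x ∈ M := by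
  have : Fact (Nat.Prime 2) := ⟨Nat.prime_two⟩
  obtain ⟨k, r, F⟩ := h.exists_frame
  set z' : H := ⟨z, hzH⟩ with hz'
  obtain ⟨P, hP⟩ := (IsPGroup.of_card (n := 1) (G := Subgroup.zpowers z')
    (by rw [Nat.card_zpowers, hz', Subgroup.orderOf_mk, hz, pow_one])).exists_le_sylow
  have hzP : z' ∈ (P : Subgroup H) := hP (Subgroup.mem_zpowers z')
  have hsq : ∀ x ∈ (P : Subgroup H), x * x = 1 := by
    intro x hx
    obtain ⟨j, hj⟩ := P.2 ⟨x, hx⟩
    refine Subtype.ext (h.sq_of_two_pow F (a := j) ?_)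
    have := congrArg (fun y : (P : Subgroup H) => ((y : H) : G)) hj
    simpa using this
  have hcases : ∀ x ∈ (P : Subgroup H), x = 1 ∨ x = z' := by
    intro x hx
    have h3 := hsq _ (mul_mem hx hzP)
    have hcomm : Commute x z' := by
      have e1 : x⁻¹ = x := inv_eq_of_mul_eq_one_right (hsq x hx)
      have e2 : z'⁻¹ = z' := inv_eq_of_mul_eq_one_right (hsq z' hzP)
      have e3 := inv_eq_of_mul_eq_one_right h3
      rw [mul_inv_rev, e1, e2] at e3
      exact e3.symm
    rcases hc x x.2 (congrArg Subtype.val hcomm.eq) (congrArg Subtype.val (hsq x hx)) with e | e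
    · exact Or.inl (Subtype.ext e)
    · exact Or.inr (Subtype.ext e)
  have hNC : Subgroup.normalizer ((P : Subgroup H) : Set H) ≤
      Subgroup.centralizer ((P : Subgroup H) : Set H) := by
    intro n hn
    rw [Subgroup.mem_centralizer_iff]
    intro x hx
    rcases hcases x hx with rfl | rfl
    · simp
    · rcases hcases _ ((Subgroup.mem_normalizer_iff.1 hn z').1 hzP) with e | e
      · exfalso
        have : (z' : G) = 1 := congrArg Subtype.val (conj_eq_one_iff.1 e)
        exact ne_one_of_orderOf hz this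
      · exact (mul_inv_eq_iff_eq_mul.1 e).symm
  set φ := MonoidHom.transferSylow P hNC with hφ
  have hodd : Odd (Nat.card φ.ker) :=
    Nat.not_even_iff_odd.1 fun e =>
      MonoidHom.not_dvd_card_ker_transferSylow P hNC (even_iff_two_dvd.1 e)
  have hPcard : Nat.card (P : Subgroup H) = 2 := by
    have hPz : (P : Subgroup H) = Subgroup.zpowers z' := by
      refine le_antisymm (fun x hx => ?_) hP
      rcases hcases x hx with rfl | rfl
      · exact one_mem _
      · exact Subgroup.mem_zpowers _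
    rw [hPz, Nat.card_zpowers, hz', Subgroup.orderOf_mk, hz]
  have hidx : φ.ker.index = 2 :=
    (MonoidHom.ker_transferSylow_isComplement' P hNC).symm.index_eq_card.trans hPcard
  obtain ⟨N, hN, hodd, hidx⟩ : ∃ N : Subgroup H, N.Normal ∧ Odd (Nat.card N) ∧ N.index = 2 :=
    ⟨φ.ker, inferInstance, hodd, hidx⟩
  refine ⟨N.map H.subtype, Subgroup.map_subtype_le _, ?_, ?_, ?_, ?_, ?_, ?_⟩
  · rwa [Nat.card_congr (N.equivMapOfInjective H.subtype H.subtype_injective).toEquiv.symm]
  · rintro ⟨y, hy, hyz⟩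
    obtain rfl : y = z' := Subtype.ext hyz
    have h1 := orderOf_dvd_natCard (⟨z', hy⟩ : N)
    rw [Subgroup.orderOf_mk, hz', Subgroup.orderOf_mk, hz] at h1
    exact Nat.not_even_iff_odd.2 hodd (even_iff_two_dvd.2 h1)
  · rw [show (N.map H.subtype).subgroupOf H = N from
      Subgroup.comap_map_eq_self_of_injective H.subtype_injective _]
    exact hN
  · rintro _ ⟨y, hy, rfl⟩
    exact ⟨z' * y * z'⁻¹, hN.conj_mem y hy z', rfl⟩
  · intro x hx
    exact ⟨⟨x, hx⟩ * ⟨x, hx⟩, (Subgroup.mul_mem_iff_of_index_two hidx).2 Iff.rfl, rfl⟩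
  · intro x hx j hj
    set y : H := ⟨x, hx⟩ with hy
    have h2 : y * y ∈ N := (Subgroup.mul_mem_iff_of_index_two hidx).2 Iff.rfl
    refine ⟨y, ?_, rfl⟩
    have h3 : y ^ (2 * j + 1) = 1 := Subtype.ext hj
    rw [pow_succ, pow_mul, pow_two] at h3
    have : y = ((y * y) ^ j)⁻¹ := eq_inv_of_mul_eq_one_right h3
    rw [this]
    exact inv_mem (pow_mem h2 j)

theorem mem_K_of_odd {x : G} (hx : Commute x t) {j : ℕ} (hj : x ^ (2 * j + 1) = 1) : x ∈ K := by
  refine (h.decomp x hx).resolve_right fun e => h.tK ?_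
  have := K.pow_mem e (2 * j + 1)
  rwa [hx.symm.mul_pow, hj, mul_one, pow_succ, pow_mul, pow_two, h.t_mul, one_pow, one_mul] at this

theorem exists_three : ∃ x ∈ K, orderOf x = 3 := by
  have h3 : 3 ∣ Nat.card K := by
    have hc := h.facts.card
    have : 3 ∣ 2 * Nat.card K := hc ▸ Dvd.dvd.mul_right h.three_dvd_q _
    omega
  have : Fact (Nat.Prime 3) := ⟨Nat.prime_three⟩
  have hpos : 0 < Nat.card K := by
    have hc := h.facts.card
    have h27 := h.facts.big
    have : 0 < q ^ 2 - 1 := by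
      have : 1 < q ^ 2 := Nat.one_lt_pow (by norm_num) (by omega)
      omega
    have := Nat.mul_pos (show 0 < q by omega) this
    omega
  have : Finite K := Nat.finite_of_card_ne_zero hpos.ne'
  obtain ⟨⟨x, hx⟩, hxo⟩ := exists_prime_orderOf_dvd_card' 3 h3
  exact ⟨x, hx, by rwa [Subgroup.orderOf_mk] at hxo⟩

theorem three_coprime : Nat.Coprime 3 (q ^ 2 - 1) := by
  rw [Nat.prime_three.coprime_iff_not_dvd]
  intro e
  have h1 : 3 ∣ q ^ 2 := Dvd.dvd.pow h.three_dvd_q two_ne_zero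
  have : 0 < q ^ 2 := pow_pos (by have := h.facts.big; omega) 2
  omega

/-- A `3`-subgroup of the centraliser of an involution has order dividing `q`. -/
theorem card_dvd_q [Finite G] {s : G} (hs : IsConj t s) {Q : Subgroup G} (hQ : IsPGroup 3 Q)
    (hle : Q ≤ Subgroup.centralizer ({s} : Set G)) : Nat.card Q ∣ q := by
  have : Fact (Nat.Prime 3) := ⟨Nat.prime_three⟩
  obtain ⟨a, ha⟩ := IsPGroup.iff_card.1 hQ
  have hd := Subgroup.card_dvd_of_le hle
  obtain ⟨c, rfl⟩ := isConj_iff.1 hs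
  rw [card_centralizer_conjugate, h.card_C, ha] at hd
  rw [ha]
  exact (Nat.Coprime.pow_left a h.three_coprime).dvd_of_dvd_mul_right hd

variable {f₀ : G} (hf : f₀ ∈ K) (hf3 : orderOf f₀ = 3)
include hf hf3

theorem U_cube {x : G} (hx : x ∈ K ⊓ Subgroup.centralizer ({f₀} : Set G)) : x ^ 3 = 1 :=
  h.cubeK hf hx.1 hf3 (Subgroup.mem_centralizer_singleton_iff.1 hx.2)

theorem U_comm {x y : G} (hx : x ∈ K ⊓ Subgroup.centralizer ({f₀} : Set G))
    (hy : y ∈ K ⊓ Subgroup.centralizer ({f₀} : Set G)) : Commute x y := by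
  refine h.caK hf hx.1 hy.1 (fun e => ?_)
    (Commute.symm (Subgroup.mem_centralizer_singleton_iff.1 hx.2))
    (Commute.symm (Subgroup.mem_centralizer_singleton_iff.1 hy.2))
  have := orderOf_dvd_of_pow_eq_one (x := f₀) (n := 2) (by rw [pow_two, e])
  rw [hf3] at this
  omega

theorem U_isPGroup : IsPGroup 3 (K ⊓ Subgroup.centralizer ({f₀} : Set G) : Subgroup G) :=
  fun x => ⟨1, Subtype.ext (by rw [pow_one]; exact h.U_cube hf hf3 x.2)⟩

theorem card_U [Finite G] :
    Nat.card (K ⊓ Subgroup.centralizer ({f₀} : Set G) : Subgroup G) = q := by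
  have : Fact (Nat.Prime 3) := ⟨Nat.prime_three⟩
  obtain ⟨m, hm⟩ := h.facts.three_pow
  refine Nat.dvd_antisymm (h.card_dvd_q (IsConj.refl t) (h.U_isPGroup hf hf3)
    (fun x hx => Subgroup.mem_centralizer_singleton_iff.2 (h.comm x hx.1).eq)) ?_
  obtain ⟨P, hP⟩ := (IsPGroup.of_card (n := 1) (G := Subgroup.zpowers (⟨f₀, hf⟩ : K))
    (by rw [Nat.card_zpowers, Subgroup.orderOf_mk, hf3, pow_one])).exists_le_sylow
  have hfP : (⟨f₀, hf⟩ : K) ∈ (P : Subgroup K) := hP (Subgroup.mem_zpowers _)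
  have hq : q ∣ Nat.card (P : Subgroup K) := by
    rw [hm]
    refine P.pow_dvd_card_of_pow_dvd_card ?_
    have h2 : 3 ^ m ∣ 2 * Nat.card K := by rw [h.facts.card, ← hm]; exact dvd_mul_right _ _
    exact (Nat.Coprime.pow_left m (by norm_num : Nat.Coprime 3 2)).dvd_of_dvd_mul_left h2
  have hne : Nontrivial (P : Subgroup K) := by
    refine (Subgroup.nontrivial_iff_ne_bot _).2 fun e => ?_
    have := congrArg Subtype.val (Subgroup.mem_bot.1 (show (⟨f₀, hf⟩ : K) ∈ (⊥ : Subgroup K) from e ▸ hfP))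
    rw [show f₀ = 1 from this, orderOf_one] at hf3
    omega
  have hnc : Nontrivial (Subgroup.center (P : Subgroup K)) := P.2.center_nontrivial
  obtain ⟨c, hc1⟩ := exists_ne (1 : Subgroup.center (P : Subgroup K))
  set w : G := (((c : (P : Subgroup K)) : K) : G) with hw
  have hwK : w ∈ K := ((c : (P : Subgroup K)) : K).2
  have hwc : ∀ y ∈ (P : Subgroup K), Commute w (y : G) := fun y hy =>
    congrArg (fun u : (P : Subgroup K) => ((u : K) : G))
      (Subgroup.mem_center_iff.1 c.2 ⟨y, hy⟩).symm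
  have hw2 : w * w ≠ 1 := by
    intro e
    obtain ⟨j, hj⟩ := P.2 (c : (P : Subgroup K))
    have hj' : w ^ (3 ^ j) = 1 := by
      have := congrArg (fun u : (P : Subgroup K) => ((u : K) : G)) hj
      simpa [hw] using this
    obtain ⟨i, hi⟩ : Odd (3 ^ j) := Odd.pow (by decide)
    rw [hi, pow_succ, pow_mul, pow_two, e, one_pow, one_mul] at hj'
    exact hc1 (Subtype.ext (Subtype.ext (Subtype.ext hj')))
  refine hq.trans ?_
  rw [Nat.card_congr ((P : Subgroup K).equivMapOfInjective K.subtype K.subtype_injective).toEquiv]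
  refine Subgroup.card_dvd_of_le ?_
  rintro _ ⟨y, hy, rfl⟩
  exact ⟨y.2, Subgroup.mem_centralizer_singleton_iff.2
    (h.caK hwK y.2 hf hw2 (hwc y hy) (hwc _ hfP)).eq⟩

omit hf hf3 in
/-- The `3`-part of `|G|` is `q`. -/
theorem not_three_dvd_index [Finite G] :
    ¬ 3 ∣ (Subgroup.centralizer ({t} : Set G)).index := by
  intro hd
  have : Fact (Nat.Prime 3) := ⟨Nat.prime_three⟩
  obtain ⟨f₀, hf, hf3⟩ := h.exists_three
  obtain ⟨m, hm⟩ := h.facts.three_pow
  set U : Subgroup G := K ⊓ Subgroup.centralizer ({f₀} : Set G) with hU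
  have hUcard : Nat.card U = q := h.card_U hf hf3
  have hUt : ∀ x ∈ U, Commute x t := fun x hx => h.comm x hx.1
  obtain ⟨P, hP⟩ := (h.U_isPGroup hf hf3).exists_le_sylow
  have hbig : 3 * q ∣ Nat.card (P : Subgroup G) := by
    rw [hm, ← pow_succ']
    refine P.pow_dvd_card_of_pow_dvd_card ?_
    rw [← (Subgroup.centralizer ({t} : Set G)).card_mul_index, h.card_C, pow_succ, hm]
    exact Nat.mul_dvd_mul (dvd_mul_right _ _) hd
  have hlt : U.subgroupOf (P : Subgroup G) < ⊤ := by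
    rw [lt_top_iff_ne_top]
    intro e
    rw [Subgroup.subgroupOf_eq_top] at e
    have := Nat.le_of_dvd (by rw [hUcard]; have := h.facts.big; omega)
      (hbig.trans (Subgroup.card_dvd_of_le e))
    rw [hUcard] at this
    have := h.facts.big
    omega
  have : Group.IsNilpotent (P : Subgroup G) := P.2.isNilpotent
  obtain ⟨y, hyN, hyU⟩ := SetLike.exists_of_lt (Group.normalizerCondition_of_isNilpotent _ hlt)
  have hyN' : (y : G) ∈ Subgroup.normalizer (U : Set G) := by
    refine Subgroup.mem_normalizer_iff.2 fun w => ⟨fun hw => ?_, fun hw => ?_⟩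
    · exact (Subgroup.mem_normalizer_iff.1 hyN ⟨w, hP hw⟩).1 hw
    · have hwP : w ∈ (P : Subgroup G) := by
        have := mul_mem (mul_mem (inv_mem y.2) (hP hw)) y.2
        rwa [show (y : G)⁻¹ * (y * w * (y : G)⁻¹) * y = w by group] at this
      exact (Subgroup.mem_normalizer_iff.1 hyN ⟨w, hwP⟩).2 hw
  set H := Subgroup.normalizer (U : Set G) with hH
  have htH : t ∈ H := Subgroup.mem_normalizer_iff.2 fun w => by
    constructor
    · intro hw; rwa [← (hUt w hw).eq, mul_inv_cancel_right]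
    · intro hw
      have e := (hUt _ hw).eq
      have : t * w * t⁻¹ = w := by
        calc t * w * t⁻¹ = t⁻¹ * (t * (t * w * t⁻¹)) := by group
          _ = t⁻¹ * (t * w * t⁻¹ * t) := by rw [← e]
          _ = w := by group
      rwa [this] at hw
  have hKinv : ∀ w ∈ K, w * w = 1 → w ∈ H → w = 1 := by
    intro w hwK hw2 hwH
    have hc := h.le_cent_of_normalize hw2 (h.U_isPGroup hf hf3) hwH
      (⟨hf, Subgroup.mem_centralizer_singleton_iff.2 rfl⟩ :
        f₀ ∈ K ⊓ Subgroup.centralizer ({f₀} : Set G))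
    have h3 := h.cubeK hf hwK hf3 hc.symm
    rwa [pow_three, hw2, mul_one] at h3
  obtain ⟨M, hMH, hModd, htM, hMn, -, hMsq, hModdmem⟩ := h.two_complement H htH h.ht (by
    intro x hx hxt hx2
    rcases h.decomp x hxt with hK | hK
    · exact Or.inl (hKinv x hK hx2 hx)
    · refine Or.inr ?_
      have := hKinv _ hK (by rw [← pow_two, hxt.symm.mul_pow, pow_two, pow_two, h.t_mul, hx2,
        one_mul]) (mul_mem htH hx)
      rw [← h.t_inv]
      exact (inv_eq_of_mul_eq_one_right this).symm)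
  set Q₀ : Subgroup G := U ⊔ Subgroup.zpowers (y : G) with hQ₀
  have hQ₀P : Q₀ ≤ (P : Subgroup G) := sup_le hP (Subgroup.zpowers_le.2 y.2)
  have hQ₀H : Q₀ ≤ H := sup_le Subgroup.le_normalizer (Subgroup.zpowers_le.2 hyN')
  have hQ₀M : Q₀ ≤ M := by
    intro w hw
    obtain ⟨j, hj⟩ := P.2 ⟨w, hQ₀P hw⟩
    obtain ⟨i, hi⟩ : Odd (3 ^ j) := Odd.pow (by decide)
    refine hModdmem w (hQ₀H hw) i ?_
    rw [← hi]
    exact congrArg Subtype.val hj
  set M' : Subgroup H := M.subgroupOf H with hM'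
  have hQ : IsPGroup 3 ((Q₀.subgroupOf H).subgroupOf M') := by
    intro w
    obtain ⟨j, hj⟩ := P.2 ⟨((w : M') : H), hQ₀P w.2⟩
    exact ⟨j, Subtype.ext (Subtype.ext (Subtype.ext (by simpa using congrArg Subtype.val hj)))⟩
  obtain ⟨Q, hQle⟩ := hQ.exists_le_sylow
  set P₂ : Subgroup G := ((Q : Subgroup M').map M'.subtype).map H.subtype with hP₂
  have hfr : Subgroup.normalizer (((Q : Subgroup M').map M'.subtype : Subgroup H) : Set H) ⊔ M' = ⊤ :=
    Sylow.normalizer_sup_eq_top Q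
  have htmem : (⟨t, htH⟩ : H) ∈
      ((Subgroup.normalizer (((Q : Subgroup M').map M'.subtype : Subgroup H) : Set H) : Set H) *
        (M' : Set H)) := by
    rw [← Subgroup.mul_normal, hfr]; trivial
  obtain ⟨n, hn, m', hm', hnm⟩ := htmem
  obtain ⟨c, hc, i, hi⟩ := Cfsg.Agent.S2758.exists_two_part (n : G)
  obtain ⟨j, hj⟩ : ∃ j, c = 2 * j + 1 := ⟨c / 2, by omega⟩
  set s := (n : G) ^ c with hs
  have hsM : s ∉ M := by
    intro e
    rw [hs, hj, pow_succ, pow_mul, pow_two] at e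
    have hnM : (n : G) ∈ M := (M.mul_mem_cancel_left (pow_mem (hMsq _ n.2) j)).1 e
    apply htM
    have : ((n * m' : H) : G) = t := congrArg Subtype.val hnm
    rw [← this]
    exact M.mul_mem hnM hm'
  obtain ⟨k, r, F⟩ := h.exists_frame
  have hs2 : s * s = 1 := h.sq_of_two_pow F (a := i) (by rw [← hi, pow_orderOf_eq_one])
  have hso : orderOf s = 2 :=
    orderOf_eq_prime (by rw [pow_two, hs2]) (fun e => hsM (e ▸ M.one_mem))
  have hsn : s ∈ Subgroup.normalizer (P₂ : Set G) :=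
    pow_mem (Subgroup.le_normalizer_map H.subtype ⟨n, hn, rfl⟩) c
  have hP₂p : IsPGroup 3 P₂ := (Q.2.map M'.subtype).map H.subtype
  have hP₂c : P₂ ≤ Subgroup.centralizer ({s} : Set G) := fun w hw =>
    Subgroup.mem_centralizer_singleton_iff.2 (h.le_cent_of_normalize hs2 hP₂p hsn hw).eq
  have hd2 := h.card_dvd_q (h.isConj_involution hso) hP₂p hP₂c
  have hle : Q₀ ≤ P₂ := fun w hw =>
    ⟨⟨w, hQ₀H hw⟩, ⟨⟨⟨w, hQ₀H hw⟩, hQ₀M hw⟩, hQle hw, rfl⟩, rfl⟩
  have hlt2 : Nat.card U < Nat.card Q₀ := by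
    refine lt_of_le_of_ne (Subgroup.card_le_of_le le_sup_left) fun e => hyU ?_
    rw [Subgroup.mem_subgroupOf, Subgroup.eq_of_le_of_card_ge le_sup_left e.ge]
    exact Subgroup.mem_sup_right (Subgroup.mem_zpowers _)
  have := Nat.le_of_dvd (by have := h.facts.big; omega) hd2
  have := Subgroup.card_le_of_le hle
  omega

/-- Elements of `C(f₀)` inverted by `t` commute, also with their `C(t) ∩ C(f₀)`-conjugates. -/
theorem commute_inverted [Finite G] {u b b' : G}
    (hu : u ∈ K ⊓ Subgroup.centralizer ({f₀} : Set G)) {n : ℕ} (hn : Odd n) (hn3 : ¬ 3 ∣ n)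
    (hb : Commute b f₀) (_hbt : t * b * t⁻¹ = b⁻¹) (hbn : b ^ n = 1)
    (hb' : Commute b' f₀) (_hbt' : t * b' * t⁻¹ = b'⁻¹) (hbn' : b' ^ n = 1) :
    Commute (u * b * u⁻¹) b' := by
  have : Fact (Nat.Prime 3) := ⟨Nat.prime_three⟩
  set U : Subgroup G := K ⊓ Subgroup.centralizer ({f₀} : Set G) with hU
  set H : Subgroup G := Subgroup.centralizer ({f₀} : Set G) with hH
  have hmemH : ∀ {x}, x ∈ H ↔ Commute x f₀ := fun {x} => Subgroup.mem_centralizer_singleton_iff
  have htH : t ∈ H := hmemH.2 (h.comm f₀ hf).symm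
  have hUcard : Nat.card U = q := h.card_U hf hf3
  obtain ⟨M, hMH, hModd, htM, -, hMt, -, hModdmem⟩ := h.two_complement H htH h.ht (by
    intro x hx hxt hx2
    have key : ∀ w ∈ K, Commute w f₀ → w * w = 1 → w = 1 := fun w hw hc h2 => by
      have h3 := h.cubeK hf hw hf3 hc
      rwa [pow_three, h2, mul_one] at h3
    rcases h.decomp x hxt with hK | hK
    · exact Or.inl (key x hK (hmemH.1 hx) hx2)
    · refine Or.inr ?_
      have := key _ hK (hmemH.1 (mul_mem htH hx)) (by
        rw [← pow_two, hxt.symm.mul_pow, pow_two, pow_two, h.t_mul, hx2, one_mul])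
      rw [← h.t_inv]
      exact (inv_eq_of_mul_eq_one_right this).symm)
  obtain ⟨jM, hjM⟩ := hModd
  have hUM : U ≤ M := fun x hx => hModdmem x hx.2 1 (h.U_cube hf hf3 hx)
  have hMK : ∀ x ∈ M, Commute x t → x ∈ U := fun x hx hc =>
    ⟨h.mem_K_of_odd hc (j := jM) (by
      rw [← hjM]
      exact congrArg Subtype.val (pow_card_eq_one' (x := (⟨x, hx⟩ : M)))), hMH hx⟩
  have hUidx : ¬ 3 ∣ U.index := by
    intro hd
    have h1 := U.card_mul_index
    have h2 := (Subgroup.centralizer ({t} : Set G)).card_mul_index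
    rw [hUcard] at h1
    rw [h.card_C, mul_assoc, ← h1] at h2
    rw [← Nat.eq_of_mul_eq_mul_left (by have := h.facts.big; omega) h2] at hd
    exact h.not_three_dvd_index
      ((Nat.Coprime.dvd_of_dvd_mul_left h.three_coprime hd))
  let P : Sylow 3 G := (h.U_isPGroup hf hf3).toSylow hUidx
  have hPU : (P : Subgroup G) = U := rfl
  set PM : Sylow 3 M := P.subtype (hPU ▸ hUM) with hPM
  have hmemPM : ∀ x : M, x ∈ (PM : Subgroup M) ↔ (x : G) ∈ U := by
    intro x
    rw [hPM, Sylow.coe_subtype, Subgroup.mem_subgroupOf, hPU]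
  have hNC : Subgroup.normalizer ((PM : Subgroup M) : Set M) ≤
      Subgroup.centralizer ((PM : Subgroup M) : Set M) := by
    intro n' hn'
    set x : G := (n' : G) with hx
    set c : G := x⁻¹ * (t * x * t⁻¹) with hc
    have hcM : c ∈ M := M.mul_mem (M.inv_mem n'.2) (hMt x n'.2)
    set d : G := c ^ (jM + 1) with hd
    have hdd : d * d = c := by
      rw [hd, ← pow_add, show jM + 1 + (jM + 1) = 2 * jM + 1 + 1 by ring, pow_succ, ← hjM]
      rw [show c ^ Nat.card M = 1 from congrArg Subtype.val (pow_card_eq_one' (x := (⟨c, hcM⟩ : M))),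
        one_mul]
    have hct : t * c * t⁻¹ = c⁻¹ := by
      rw [hc]
      calc t * (x⁻¹ * (t * x * t⁻¹)) * t⁻¹ = t * x⁻¹ * t * x * (t⁻¹ * t⁻¹) := by group
        _ = (x⁻¹ * (t * x * t⁻¹))⁻¹ := by
          rw [h.t_inv, h.t_mul, mul_one]
          simp [mul_assoc, h.t_inv]
    have hdt : t * d * t⁻¹ = d⁻¹ := by rw [hd, ← conj_pow, hct, inv_pow]
    have hxd : Commute (x * d) t := by
      refine mul_inv_eq_iff_eq_mul.1 ?_ |> fun e => Commute.symm e
      calc t * (x * d) * t⁻¹ = (x * (x⁻¹ * (t * x * t⁻¹))) * (t * d * t⁻¹) := by group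
        _ = x * d := by rw [← hc, hdt, ← hdd]; group
    have hxdU : x * d ∈ U := hMK _ (M.mul_mem n'.2 (pow_mem hcM _)) hxd
    rw [Subgroup.mem_centralizer_iff]
    intro y hy
    apply Subtype.ext
    have hyU : (y : G) ∈ U := (hmemPM y).1 hy
    have hyt : Commute (y : G) t := h.comm _ hyU.1
    have hxy : x * y * x⁻¹ ∈ U := (hmemPM (n' * y * n'⁻¹)).1 ((Subgroup.mem_normalizer_iff.1 hn' y).1 hy)
    have hcy : Commute c (y : G) := by
      refine mul_inv_eq_iff_eq_mul.1 ?_
      rw [hc]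
      calc x⁻¹ * (t * x * t⁻¹) * y * (x⁻¹ * (t * x * t⁻¹))⁻¹
          = x⁻¹ * (t * (x * (t⁻¹ * y * t) * x⁻¹) * t⁻¹) * x := by group
        _ = y := by
          rw [mul_assoc t⁻¹, hyt.eq, inv_mul_cancel_left, ← (h.comm _ hxy.1).eq, mul_inv_cancel_right]
          group
    have h1 : Commute (x * d) (y : G) := h.U_comm hf hf3 hxdU hyU
    have h2 : Commute d (y : G) := hcy.pow_left _
    have h3 : Commute x (y : G) := by
      simpa using h1.mul_left h2.inv_left
    exact h3.eq.symm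
  set φ := MonoidHom.transferSylow PM hNC with hφ
  have hW : ∀ x : M, ∀ i : ℕ, ¬ 3 ∣ i → (x : G) ^ i = 1 → φ x = 1 := by
    intro x i hi hxi
    obtain ⟨j, hj⟩ := PM.2 (φ x)
    refine orderOf_eq_one_iff.1 (Nat.eq_one_of_dvd_coprimes
      (Nat.Coprime.pow_left j ((Nat.prime_three.coprime_iff_not_dvd).2 hi))
      (orderOf_dvd_of_pow_eq_one hj) (orderOf_dvd_of_pow_eq_one ?_))
    rw [← map_pow, show x ^ i = 1 from Subtype.ext hxi, map_one]
  have hWcard : ¬ 3 ∣ Nat.card φ.ker := MonoidHom.not_dvd_card_ker_transferSylow PM hNC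
  have hWt : ∀ w : φ.ker, (⟨t * ((w : M) : G) * t⁻¹, hMt _ (w : M).2⟩ : M) ∈ φ.ker := by
    intro w
    refine MonoidHom.mem_ker.2 (hW _ (Nat.card φ.ker) hWcard ?_)
    have : ((w : M) : G) ^ Nat.card φ.ker = 1 := by
      simpa using congrArg (fun y : φ.ker => ((y : M) : G)) (pow_card_eq_one' (x := w))
    rw [show ((⟨t * ((w : M) : G) * t⁻¹, hMt _ (w : M).2⟩ : M) : G) = t * ((w : M) : G) * t⁻¹ from rfl,
      conj_pow, this, mul_one, mul_inv_cancel]
  let ψ : φ.ker →* φ.ker := MonoidHom.mk' (fun w => ⟨⟨_, hMt _ (w : M).2⟩, hWt w⟩)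
    (fun a b => Subtype.ext (Subtype.ext (conj_mul' t _ _)))
  have hψ : MonoidHom.FixedPointFree ψ := by
    intro w hw
    have e : t * ((w : M) : G) * t⁻¹ = ((w : M) : G) :=
      congrArg (fun y : φ.ker => ((y : M) : G)) hw
    have hwU : (w : M) ∈ (PM : Subgroup M) :=
      (hmemPM _).2 (hMK _ (w : M).2 (mul_inv_eq_iff_eq_mul.1 e).symm)
    have := (MonoidHom.ker_transferSylow_disjoint PM hNC _ PM.2).le_bot ⟨w.2, hwU⟩
    exact Subtype.ext (Subgroup.mem_bot.1 this)
  have hψ2 : Function.Involutive ψ := fun w => Subtype.ext (Subtype.ext (by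
    show t * (t * ((w : M) : G) * t⁻¹) * t⁻¹ = _
    rw [h.t_inv, ← mul_assoc, ← mul_assoc, h.t_mul, one_mul, mul_assoc, h.t_mul, mul_one]))
  obtain ⟨jn, rfl⟩ := hn
  have hbM : b ∈ M := hModdmem b (hmemH.2 hb) jn hbn
  have hbM' : b' ∈ M := hModdmem b' (hmemH.2 hb') jn hbn'
  have hxM : u * b * u⁻¹ ∈ M := M.mul_mem (M.mul_mem (hUM hu) hbM) (M.inv_mem (hUM hu))
  have hx : φ ⟨_, hxM⟩ = 1 := hW _ _ hn3 (by rw [conj_pow, hbn, mul_one, mul_inv_cancel])
  have hy : φ ⟨_, hbM'⟩ = 1 := hW _ _ hn3 hbn'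
  have := hψ.commute_all_of_involutive hψ2 ⟨_, MonoidHom.mem_ker.2 hx⟩ ⟨_, MonoidHom.mem_ker.2 hy⟩
  exact congrArg (fun y : φ.ker => ((y : M) : G)) this.eq

end Setup

namespace Loc

variable {t : G} {K : Subgroup G} {q : ℕ} {R A : Subgroup G} {v z f : G}
  (L : Loc t K q R A v z f)
include L

/-- The four group. -/
def four : Subgroup G := SL2.vFour t v L.setup.t_mul L.v2 L.tv

theorem mem_four {x : G} : x ∈ L.four ↔ x = 1 ∨ x = t ∨ x = v ∨ x = t * v := Iff.rfl

theorem card_four : Nat.card L.four = 4 :=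
  (SL2.isKleinFour_vFour L.setup.ht (orderOf_eq_prime (by rw [pow_two, L.v2]) L.v1) L.tv
    L.vt.symm).card_four

theorem mem_R_of_odd [Finite G] {x : G} (hx : x ∈ A) {n : ℕ} (hn : Odd n) (hxn : x ^ n = 1) :
    x ∈ R := by
  obtain ⟨b, hb, e⟩ := (L.mem_A x).1 hx
  obtain ⟨g1, g2⟩ := L.R_cent b hb
  have key : ∀ w, w * w = 1 → Commute w b → x = w * b → w ∈ R := by
    intro w hw hc e'
    obtain ⟨j, hj⟩ := hn
    rw [e', hc.mul_pow, hj, pow_succ, pow_mul, pow_two, hw, one_pow, one_mul] at hxn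
    rw [eq_inv_of_mul_eq_one_left hxn]
    exact R.inv_mem (R.pow_mem hb _)
  rcases e with e | e | e | e <;> rw [e]
  · exact hb
  · exact R.mul_mem (key t L.setup.t_mul g1.symm e) hb
  · exact R.mul_mem (key v L.v2 g2.symm e) hb
  · exact R.mul_mem (key _ L.tv_sq (g1.symm.mul_left g2.symm) e) hb

theorem four_inf_R [Finite G] {x : G} (h1 : x ∈ L.four) (h2 : x ∈ R) : x = 1 := by
  refine L.eq_one_of_sq h2 ?_
  rcases L.mem_four.1 h1 with rfl | rfl | rfl | rfl
  · exact one_mul 1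
  · exact L.setup.t_mul
  · exact L.v2
  · exact L.tv_sq

theorem four_le_A : L.four ≤ A := by
  intro x hx
  rcases L.mem_four.1 hx with rfl | rfl | rfl | rfl
  · exact A.one_mem
  · exact L.t_mem_A
  · exact L.v_mem_A
  · exact A.mul_mem L.t_mem_A L.v_mem_A

theorem card_A [Finite G] : Nat.card A = q + 1 := by
  rw [← L.card_R, ← L.card_four, ← Nat.card_prod]
  refine (Nat.card_eq_of_bijective (fun p : L.four × R => (⟨(p.1 : G) * (p.2 : G),
    A.mul_mem (L.four_le_A p.1.2) (L.R_le_A p.2.2)⟩ : A)) ⟨?_, ?_⟩).symm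
  · rintro ⟨⟨a, ha⟩, ⟨b, hb⟩⟩ ⟨⟨a', ha'⟩, ⟨b', hb'⟩⟩ e
    have e' : a * b = a' * b' := congrArg Subtype.val e
    have h1 : a'⁻¹ * a = b' * b⁻¹ := by
      calc a'⁻¹ * a = a'⁻¹ * (a * b) * b⁻¹ := by group
        _ = b' * b⁻¹ := by rw [e', inv_mul_cancel_left]
    have h2 := L.four_inf_R (L.four.mul_mem (L.four.inv_mem ha') ha)
      (h1 ▸ R.mul_mem hb' (R.inv_mem hb))
    obtain rfl : a' = a := inv_mul_eq_one.1 h2
    obtain rfl : b = b' := mul_left_cancel e'
    rfl
  · rintro ⟨x, hx⟩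
    obtain ⟨b, hb, e⟩ := (L.mem_A x).1 hx
    rcases e with e | e | e | e
    · exact ⟨(⟨1, one_mem _⟩, ⟨b, hb⟩), Subtype.ext (by simp [e])⟩
    · exact ⟨(⟨t, Or.inr (Or.inl rfl)⟩, ⟨b, hb⟩), Subtype.ext e.symm⟩
    · exact ⟨(⟨v, Or.inr (Or.inr (Or.inl rfl))⟩, ⟨b, hb⟩), Subtype.ext e.symm⟩
    · exact ⟨(⟨t * v, Or.inr (Or.inr (Or.inr rfl))⟩, ⟨b, hb⟩), Subtype.ext e.symm⟩

theorem mem_N' [Finite G] {x : G} (hx : x ∈ Subgroup.normalizer (L.four : Set G)) :
    ∃ i < 3, ∃ a ∈ A, x = f ^ i * a ∨ x = f ^ i * (z * a) := by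
  refine L.mem_N ?_ ?_
  · exact (L.mem_four.1 ((Subgroup.mem_normalizer_iff.1 hx t).1 (Or.inr (Or.inl rfl)))).resolve_left
      fun e => L.setup.t_ne (conj_eq_one_iff.1 e)
  · exact (L.mem_four.1
      ((Subgroup.mem_normalizer_iff.1 hx v).1 (Or.inr (Or.inr (Or.inl rfl))))).resolve_left
      fun e => L.v1 (conj_eq_one_iff.1 e)

theorem mem_normalizer_four [Finite G] {x : G} (ht : x * t * x⁻¹ ∈ L.four)
    (hv : x * v * x⁻¹ ∈ L.four) : x ∈ Subgroup.normalizer (L.four : Set G) := by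
  rw [Subgroup.mem_normalizer_iff_map_conj_eq]
  refine Subgroup.eq_of_le_of_card_ge ?_ (le_of_eq ?_)
  · rintro _ ⟨w, hw, rfl⟩
    show x * w * x⁻¹ ∈ L.four
    rcases L.mem_four.1 hw with rfl | rfl | rfl | rfl
    · simp [one_mem]
    · exact ht
    · exact hv
    · rw [conj_mul']; exact mul_mem ht hv
  · exact Nat.card_congr (Subgroup.equivMapOfInjective L.four _ (MulAut.conj x).injective).toEquiv

theorem eq_one_of_cube [Finite G] {x : G} (hxt : Commute x t) (hxv : Commute x v)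
    (h3 : x ^ 3 = 1) : x = 1 := by
  rcases L.centV x hxt hxv with hx | hx
  · have hR := L.mem_R_of_odd hx (by decide : Odd 3) h3
    refine orderOf_eq_one_iff.1 (Nat.eq_one_of_dvd_coprimes
      ((Nat.prime_three.coprime_iff_not_dvd).2 L.coprime_R) (orderOf_dvd_of_pow_eq_one h3)
      (orderOf_dvd_of_pow_eq_one (L.R_pow hR)))
  · exfalso
    apply L.zA
    have e := L.z_inv hx
    have hzi : z⁻¹ = z := inv_eq_of_mul_eq_one_right L.z2
    have h2 : x * x = 1 := by
      rw [hzi, ← mul_assoc z z, L.z2, one_mul, mul_inv_rev, hzi] at e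
      have e' : x = x⁻¹ := mul_right_cancel e
      nth_rw 2 [e']
      exact mul_inv_cancel x
    rw [pow_three, h2, mul_one] at h3
    rwa [h3, mul_one] at hx

/-- `f` does not centralise `R`. -/
theorem exists_moved [Finite G] : ∃ b ∈ R, f * b * f⁻¹ ≠ b := by
  by_contra hc
  push Not at hc
  have h := L.setup
  have hfR : ∀ b ∈ R, Commute f b := fun b hb => mul_inv_eq_iff_eq_mul.1 (hc b hb)
  have : Fact (Nat.Prime 2) := ⟨Nat.prime_two⟩
  have : Fact (Nat.Prime 3) := ⟨Nat.prime_three⟩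
  obtain ⟨b₀, hb₀, hb₀1⟩ : ∃ b ∈ R, b ≠ 1 := by
    by_contra hn
    push Not at hn
    have hle : R ≤ ⊥ := fun b hb => Subgroup.mem_bot.2 (hn b hb)
    have := Subgroup.card_le_of_le hle
    rw [Subgroup.card_bot] at this
    have := L.seven_le_R
    omega
  have hf1 : f ≠ 1 := fun e => L.vt (by
    have := L.ft
    rw [e] at this
    simpa using this.symm)
  set X : Subgroup G := Subgroup.centralizer (R : Set G) with hX
  have hmemX : ∀ {x}, x ∈ X ↔ ∀ b ∈ R, Commute x b := fun {x} => by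
    rw [hX, Subgroup.mem_centralizer_iff]
    exact ⟨fun hh b hb => (hh b hb).symm, fun hh b hb => (hh b hb).eq.symm⟩
  have hAX : A ≤ X := fun a ha => hmemX.2 fun b hb => L.A_comm ha (L.R_le_A hb)
  have hfX : f ∈ X := hmemX.2 hfR
  have hXA : ∀ x ∈ X, ∀ e, (e = t ∨ e = v ∨ e = t * v) → Commute x e → x ∈ A := fun x hx e he hxe =>
    L.cent x b₀ hb₀ hb₀1 e he hxe (hmemX.1 hx b₀ hb₀)
  have hfour : L.four ≤ X := L.four_le_A.trans hAX
  set V' : Subgroup X := L.four.subgroupOf X with hV'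
  have hV'p : IsPGroup 2 V' := IsPGroup.of_card (n := 2) (by
    rw [Nat.card_congr (Subgroup.subgroupOfEquivOfLe hfour).toEquiv, L.card_four]; rfl)
  obtain ⟨T, hT⟩ := hV'p.exists_le_sylow
  have hTV : ∀ x ∈ (T : Subgroup X), (x : G) ∈ L.four := by
    intro x hx
    obtain ⟨k, r, F⟩ := h.exists_frame
    have hsq : ∀ y ∈ (T : Subgroup X), (y : G) * y = 1 := by
      intro y hy
      obtain ⟨j, hj⟩ := T.2 ⟨y, hy⟩
      refine h.sq_of_two_pow F (a := j) ?_
      simpa using congrArg (fun w : (T : Subgroup X) => ((w : X) : G)) hj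
    have htT : (⟨t, hfour (Or.inr (Or.inl rfl))⟩ : X) ∈ (T : Subgroup X) :=
      hT (show t ∈ L.four from Or.inr (Or.inl rfl))
    have hxt : Commute (x : G) t := by
      have e1 : (x : G)⁻¹ = x := inv_eq_of_mul_eq_one_right (hsq x hx)
      have e3 := inv_eq_of_mul_eq_one_right (hsq _ (mul_mem hx htT))
      rw [Subgroup.coe_mul, mul_inv_rev, e1, h.t_inv] at e3
      exact e3.symm
    exact L.eq_of_sq (hXA x x.2 t (Or.inl rfl) hxt) (hsq x hx)
  have hconjV : ∀ s ∈ X, orderOf s = 2 → ∃ c ∈ X, c * s * c⁻¹ ∈ L.four := by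
    intro s hs hs2
    obtain ⟨P, hP⟩ := (IsPGroup.of_card (n := 1) (G := Subgroup.zpowers (⟨s, hs⟩ : X))
      (by rw [Nat.card_zpowers, Subgroup.orderOf_mk, hs2, pow_one])).exists_le_sylow
    obtain ⟨c, hc'⟩ := MulAction.exists_smul_eq X P T
    refine ⟨c, c.2, hTV (c * ⟨s, hs⟩ * c⁻¹) ?_⟩
    rw [← hc']
    exact Subgroup.mem_map.2 ⟨⟨s, hs⟩, hP (Subgroup.mem_zpowers _), by simp⟩
  set NX : Subgroup X := (Subgroup.normalizer (L.four : Set G)).subgroupOf X with hNX
  have hNXmem : ∀ x : X, x ∈ NX → ∃ i < 3, ∃ a ∈ A, (x : G) = f ^ i * a := by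
    intro x hx
    obtain ⟨i, hi, a, ha, e | e⟩ := L.mem_N' (x := (x : G)) hx
    · exact ⟨i, hi, a, ha, e⟩
    · exfalso
      apply hb₀1
      refine L.eq_one_of_sq hb₀ ?_
      have hza : z * a ∈ X := by
        have := X.mul_mem (X.pow_mem (X.inv_mem hfX) i) x.2
        rwa [e, inv_pow, inv_mul_cancel_left] at this
      have hz' : z ∈ X := by
        have := X.mul_mem hza (X.inv_mem (hAX ha))
        rwa [mul_inv_cancel_right] at this
      have e1 := L.zR b₀ hb₀
      rw [(hmemX.1 hz' b₀ hb₀).eq, mul_inv_cancel_right] at e1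
      nth_rw 2 [e1]
      exact mul_inv_cancel b₀
  obtain ⟨key1, key2⟩ : (∀ x ∈ X, Commute x f → x ^ Nat.card R = 1 → x ∈ R) ∧ NX.index ≤ 5 := by
    by_cases hn : NX = ⊤
    · refine ⟨fun x hx hxf hxm => ?_, by rw [hn, Subgroup.index_top]; norm_num⟩
      obtain ⟨i, hi, a, ha, e⟩ := hNXmem ⟨x, hx⟩ (hn ▸ Subgroup.mem_top _)
      change x = f ^ i * a at e
      have hfa : Commute f a := by
        rw [show a = (f ^ i)⁻¹ * x by rw [e, inv_mul_cancel_left]]
        exact ((Commute.refl f).pow_right i).inv_right.mul_right hxf.symm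
      have haR : a ∈ R := by
        obtain ⟨b, hb, e'⟩ := (L.mem_A a).1 ha
        have hfb := hfR b hb
        have key : ∀ w, a = w * b → f * w * f⁻¹ = w := fun w ew => by
          refine mul_right_cancel (b := b) ?_
          calc f * w * f⁻¹ * b = f * (w * b) * f⁻¹ := by
                rw [mul_assoc (f * w), hfb.inv_left.eq]; group
            _ = w * b := by rw [← ew, hfa.eq, mul_inv_cancel_right]
        rcases e' with e' | e' | e' | e'
        · exact e' ▸ hb
        · exact absurd (L.ft.symm.trans (key t e')) L.vt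
        · exact absurd (L.fv.symm.trans (key v e')) L.tv_ne.2.2
        · exact absurd (L.f_tv.symm.trans (key _ e')) (Ne.symm L.tv_ne.2.1)
      rw [e, (hfR a haR).pow_left i |>.mul_pow, L.R_pow haR, mul_one, ← pow_mul] at hxm
      have hd := orderOf_dvd_of_pow_eq_one hxm
      rw [orderOf_eq_prime L.f3 hf1] at hd
      obtain rfl : i = 0 := by
        rcases Nat.prime_three.dvd_mul.1 hd with d | d
        · omega
        · exact absurd d L.coprime_R
      rwa [e, pow_zero, one_mul]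
    · have hH : CfsgLib.CAGroups.AbelianCent.Hyp T := by
        refine ⟨fun hcy => ?_, fun hnorm => hn (eq_top_iff.2 fun x _ => ?_), fun s hs => ?_⟩
        · obtain ⟨g, hg⟩ := hcy.exists_generator
          have h4 : Nat.card (T : Subgroup X) = orderOf g :=
            (orderOf_eq_card_of_forall_mem_zpowers hg).symm
          have h2 : g ^ 2 = 1 := by
            refine Subtype.ext (Subtype.ext ?_)
            simp only [SubmonoidClass.coe_pow, Subgroup.coe_mul, OneMemClass.coe_one, pow_two]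
            rcases L.mem_four.1 (hTV g g.2) with e | e | e | e <;> rw [e]
            · exact one_mul 1
            · exact h.t_mul
            · exact L.v2
            · exact L.tv_sq
          have hle := Subgroup.card_le_of_le hT
          rw [Nat.card_congr (Subgroup.subgroupOfEquivOfLe hfour).toEquiv, L.card_four, h4] at hle
          have := Nat.le_of_dvd (by norm_num) (orderOf_dvd_of_pow_eq_one h2)
          omega
        · refine L.mem_normalizer_four ?_ ?_
          · exact hTV _ (hnorm.conj_mem ⟨t, hfour (Or.inr (Or.inl rfl))⟩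
              (hT (show t ∈ L.four from Or.inr (Or.inl rfl))) x)
          · exact hTV _ (hnorm.conj_mem ⟨v, hfour (Or.inr (Or.inr (Or.inl rfl)))⟩
              (hT (show v ∈ L.four from Or.inr (Or.inr (Or.inl rfl)))) x)
        · refine ⟨⟨fun a b => Subtype.ext (Subtype.ext ?_)⟩⟩
          have hs' : orderOf (s : G) = 2 := by rw [Subgroup.orderOf_coe, hs]
          obtain ⟨c, hcX, hcs⟩ := hconjV s s.2 hs'
          have hne : c * s * c⁻¹ ≠ 1 := fun e => ne_one_of_orderOf ((orderOf_conj' c _).trans hs') e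
          have he := (L.mem_four.1 hcs).resolve_left hne
          have hmem : ∀ y : Subgroup.centralizer ({s} : Set X), c * ((y : X) : G) * c⁻¹ ∈ A :=
            fun y => hXA _ (X.mul_mem (X.mul_mem hcX y.1.2) (X.inv_mem hcX)) _ he
              (commute_conj' (congrArg Subtype.val
                (Subgroup.mem_centralizer_singleton_iff.1 y.2)) c)
          have := commute_conj' (L.A_comm (hmem a) (hmem b)) c⁻¹
          simpa [mul_assoc] using this.eq
      obtain ⟨Ac, hAc⟩ := CfsgLib.CAGroups.AbelianCent.exists_split hH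
      obtain ⟨F, _, _, φ, hchar, -, hFT, hsurj, hker⟩ := hAc.sl2 hH
      have hTcard : Nat.card T = 4 := by
        rw [← L.card_four]
        refine le_antisymm ?_ ?_
        · exact Nat.card_le_card_of_injective (fun x => (⟨((x : X) : G), hTV x x.2⟩ : L.four))
            (fun a b e => Subtype.ext (Subtype.ext (congrArg (fun y : L.four => (y : G)) e)))
        · rw [← Nat.card_congr (Subgroup.subgroupOfEquivOfLe hfour).toEquiv]
          exact Subgroup.card_le_of_le hT
      rw [hTcard] at hFT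
      have hAcR : ∀ x ∈ Ac, (x : G) ∈ R := by
        intro x hx
        have hxt : Commute (x : G) t := congrArg Subtype.val
          (Subgroup.mem_center_iff.1 (hAc.le_center hx) ⟨t, hfour (Or.inr (Or.inl rfl))⟩).symm
        refine L.mem_R_of_odd (hXA x x.2 t (Or.inl rfl) hxt) hAc.odd ?_
        rw [← SubmonoidClass.coe_pow, show x ^ Nat.card Ac = 1 from
          congrArg Subtype.val (pow_card_eq_one' (x := (⟨x, hx⟩ : Ac)))]
        rfl
      refine ⟨fun x hx hxf hxm => ?_, ?_⟩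
      · by_cases hx1 : φ ⟨x, hx⟩ = 1
        · exact hAcR ⟨x, hx⟩ (hker ▸ MonoidHom.mem_ker.2 hx1)
        exfalso
        set g' := φ ⟨f, hfX⟩ with hg'
        have hg3 : orderOf g' = 3 := by
          refine orderOf_eq_prime ?_ ?_
          · rw [hg', ← map_pow, show (⟨f, hfX⟩ : X) ^ 3 = 1 from Subtype.ext L.f3, map_one]
          · intro e
            refine hf1 (orderOf_eq_one_iff.1 (Nat.eq_one_of_dvd_coprimes
              ((Nat.prime_three.coprime_iff_not_dvd).2 L.coprime_R) (orderOf_dvd_of_pow_eq_one L.f3)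
              (orderOf_dvd_of_pow_eq_one (L.R_pow (hAcR ⟨f, hfX⟩ (hker ▸ MonoidHom.mem_ker.2 e))))))
        set w := φ ⟨x, hx⟩ with hw
        have hwm : w ^ Nat.card R = 1 := by
          rw [hw, ← map_pow, show (⟨x, hx⟩ : X) ^ Nat.card R = 1 from Subtype.ext hxm, map_one]
        have hwd := orderOf_dvd_of_pow_eq_one hwm
        have hcop : Nat.Coprime (orderOf w) (orderOf g') := by
          rw [hg3]
          exact ((Nat.prime_three.coprime_iff_not_dvd).2 fun e => L.coprime_R (e.trans hwd)).symm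
        have hprod : orderOf (w * g') = orderOf w * 3 := by
          rw [(show Commute w g' from ((show Commute (⟨x, hx⟩ : X) ⟨f, hfX⟩ from
            Subtype.ext hxf.eq).map φ)).orderOf_mul_eq_mul_orderOf_of_coprime hcop, hg3]
        have hwodd : Odd (orderOf w) := L.odd_R.of_dvd_nat hwd
        have hwne : orderOf w ≠ 1 := fun e => hx1 (orderOf_eq_one_iff.1 e)
        have := hprod
        rcases SL2.orderOf_dvd_cases (p := 2) (w * g') with d | d | d <;>
          rw [hprod] at d <;>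
          [rw [← Nat.card_eq_fintype_card, Nat.card_eq_fintype_card, hFT] at d;
           rw [hFT] at d; skip] <;>
          · have := Nat.le_of_dvd (by norm_num) d
            rw [Nat.odd_iff] at hwodd
            omega
      · have hcardX : Nat.card X = Nat.card Ac * 60 := by
          have h1 := φ.ker.card_mul_index
          rw [Subgroup.index_ker, MonoidHom.range_eq_top.2 hsurj, Subgroup.card_top, SL2.card_SL,
            hFT, hker] at h1
          exact h1.symm
        have hAcle : Nat.card Ac ≤ Nat.card R :=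
          Nat.card_le_card_of_injective (fun x => (⟨((x : X) : G), hAcR x x.2⟩ : R))
            (fun a b e => Subtype.ext (Subtype.ext (congrArg (fun y : R => (y : G)) e)))
        have hfN : f ∈ Subgroup.normalizer (L.four : Set G) := by
          refine L.mem_normalizer_four ?_ ?_
          · rw [L.ft]; exact Or.inr (Or.inr (Or.inl rfl))
          · rw [L.fv]; exact Or.inr (Or.inr (Or.inr rfl))
        have hAN : A ≤ Subgroup.normalizer (L.four : Set G) := fun a ha =>
          L.mem_normalizer_four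
            (by rw [(L.A_cent ha).1.eq, mul_inv_cancel_right]; exact Or.inr (Or.inl rfl))
            (by rw [(L.A_cent ha).2.eq, mul_inv_cancel_right]; exact Or.inr (Or.inr (Or.inl rfl)))
        have hbig : Nat.card (Fin 3 × A) ≤ Nat.card NX := by
          refine Nat.card_le_card_of_injective (fun p =>
            (⟨⟨f ^ (p.1 : ℕ) * (p.2 : G), X.mul_mem (X.pow_mem hfX _) (hAX p.2.2)⟩,
              mul_mem (pow_mem hfN _) (hAN p.2.2)⟩ : NX)) ?_
          rintro ⟨i, a⟩ ⟨j, a'⟩ e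
          have e' : f ^ (i : ℕ) * (a : G) = f ^ (j : ℕ) * (a' : G) :=
            congrArg (fun y : NX => ((y : X) : G)) e
          have h1 : f ^ (i : ℕ) * t * (f ^ (i : ℕ))⁻¹ = f ^ (j : ℕ) * t * (f ^ (j : ℕ))⁻¹ := by
            have hfix : ∀ w ∈ A, w * t * w⁻¹ = t := fun w hw => by
              rw [(L.A_cent hw).1.eq, mul_inv_cancel_right]
            calc f ^ (i : ℕ) * t * (f ^ (i : ℕ))⁻¹
                = f ^ (i : ℕ) * (a : G) * t * (f ^ (i : ℕ) * (a : G))⁻¹ := by
                  rw [mul_inv_rev]; nth_rw 1 [← hfix a a.2]; simp [mul_assoc]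
              _ = f ^ (j : ℕ) * t * (f ^ (j : ℕ))⁻¹ := by
                  rw [e', mul_inv_rev]; nth_rw 2 [← hfix a' a'.2]; simp [mul_assoc]
          have h2 : f ^ 2 * t * (f ^ 2)⁻¹ = t * v := by
            rw [pow_two]
            calc f * f * t * (f * f)⁻¹ = f * (f * t * f⁻¹) * f⁻¹ := by group
              _ = t * v := by rw [L.ft, L.fv]
          have hij : i = j := by
            fin_cases i <;> fin_cases j <;> simp [L.ft, h2] at h1 ⊢ <;>
              first
              | exact L.vt h1.symm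
              | exact L.vt h1
              | exact L.tv_ne.2.1 h1.symm
              | exact L.tv_ne.2.1 h1
              | exact L.tv_ne.2.2 h1.symm
              | exact L.v1 h1
              | exact L.v1 h1.symm
              | exact h.t_ne h1
              | exact h.t_ne h1.symm
              | exact L.tv_ne.2.2 h1
          subst hij
          exact Prod.ext rfl (Subtype.ext (mul_left_cancel e'))
        rw [Nat.card_prod, Nat.card_eq_fintype_card (α := Fin 3), Fintype.card_fin,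
          L.card_A, ← L.card_R] at hbig
        have h1 := NX.card_mul_index
        rw [hcardX] at h1
        by_contra h6
        have := Nat.mul_le_mul hbig (show 6 ≤ NX.index by omega)
        have hpos : 0 < Nat.card Ac := Nat.card_pos
        omega
  -- the Sylow `3`-subgroup of `C(f)` centralised by `z`
  have hzo : orderOf z = 2 :=
    orderOf_eq_prime (by rw [pow_two, L.z2]) (fun e => L.zA (e ▸ A.one_mem))
  obtain ⟨g, hg⟩ := isConj_iff.1 (h.isConj_involution hzo)
  set f₀ : G := g⁻¹ * f * g with hf₀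
  have hback : ∀ x, g⁻¹ * x * g = g⁻¹ * x * g⁻¹⁻¹ := fun x => by rw [inv_inv]
  have hgz : g⁻¹ * z * g = t := by rw [← hg]; group
  have hf₀t : Commute f₀ t := by
    have := commute_conj' (mul_inv_eq_iff_eq_mul.1 L.fz) g⁻¹
    rwa [← hback, ← hback, hgz] at this
  have hf₀3 : f₀ ^ 3 = 1 := by rw [hf₀, hback, conj_pow, L.f3, mul_one, mul_inv_cancel]
  have hf₀K : f₀ ∈ K := h.mem_K_of_odd hf₀t (j := 1) hf₀3
  have hf₀o : orderOf f₀ = 3 := by
    refine orderOf_eq_prime hf₀3 fun e => hf1 ?_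
    rwa [hf₀, hback, conj_eq_one_iff] at e
  set U : Subgroup G := K ⊓ Subgroup.centralizer ({f₀} : Set G) with hU
  have hUR : ∀ u ∈ U, ∀ b ∈ R, g * u * g⁻¹ * b * (g * u * g⁻¹)⁻¹ ∈ R := by
    intro u hu b hb
    have hto : ∀ b ∈ R, Commute (g⁻¹ * b * g) f₀ ∧ t * (g⁻¹ * b * g) * t⁻¹ = (g⁻¹ * b * g)⁻¹ ∧
        (g⁻¹ * b * g) ^ Nat.card R = 1 := by
      intro b hb
      refine ⟨?_, ?_, ?_⟩
      · have := commute_conj' (hfR b hb).symm g⁻¹
        rwa [← hback, ← hback] at this
      · calc t * (g⁻¹ * b * g) * t⁻¹ = g⁻¹ * (z * b * z⁻¹) * g := by rw [← hgz]; group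
          _ = (g⁻¹ * b * g)⁻¹ := by rw [L.zR b hb]; group
      · rw [hback, conj_pow, L.R_pow hb, mul_one, mul_inv_cancel]
    obtain ⟨hb1, hb2, hb3⟩ := hto b hb
    set x := g * u * g⁻¹ * b * (g * u * g⁻¹)⁻¹ with hx
    have hxX : x ∈ X := hmemX.2 fun b' hb' => by
      obtain ⟨hc1, hc2, hc3⟩ := hto b' hb'
      have := commute_conj' (h.commute_inverted hf₀K hf₀o hu L.odd_R L.coprime_R hb1 hb2 hb3
        hc1 hc2 hc3) g
      rwa [show g * (u * (g⁻¹ * b * g) * u⁻¹) * g⁻¹ = x by rw [hx]; group,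
        show g * (g⁻¹ * b' * g) * g⁻¹ = b' by group] at this
    refine key1 x hxX ?_ ?_
    · have huf : Commute (g * u * g⁻¹) f := by
        have := commute_conj' (Subgroup.mem_centralizer_singleton_iff.1 hu.2) g
        rwa [show g * f₀ * g⁻¹ = f by rw [hf₀]; group] at this
      exact (huf.mul_left (hfR b hb).symm).mul_left huf.inv_left
    · rw [hx, conj_pow, L.R_pow hb, mul_one, mul_inv_cancel]
  set Uz : Subgroup G := U.map (MulAut.conj g).toMonoidHom with hUz
  have hUzX : ∀ u ∈ Uz, ∀ x ∈ X, u * x * u⁻¹ ∈ X := by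
    intro u hu x hx
    refine hmemX.2 fun b hb => ?_
    have hu' := Uz.inv_mem hu
    obtain ⟨u₀, hu₀, e⟩ := hu'
    have hmem : u⁻¹ * b * u ∈ R := by
      have := hUR u₀ hu₀ b hb
      rw [show g * u₀ * g⁻¹ = u⁻¹ from e, inv_inv] at this
      exact this
    have := commute_conj' (hmemX.1 hx _ hmem) u
    rwa [show u * (u⁻¹ * b * u) * u⁻¹ = b by group] at this
  set SU : Subgroup G := Subgroup.normalizer (L.four : Set G) ⊓ Uz with hSU
  have hUzcard : Nat.card Uz = q := by
    rw [hUz, ← Nat.card_congr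
      (U.equivMapOfInjective _ (MulAut.conj g).injective).toEquiv, h.card_U hf₀K hf₀o]
  have hrel : SU.relIndex Uz ≤ NX.index := by
    have hex : ∀ u : Uz, ∃ c : X, ((c : G))⁻¹ * u ∈ Subgroup.normalizer (L.four : Set G) := by
      intro u
      set e : X →* X := MonoidHom.mk' (fun x => ⟨_, hUzX u u.2 x x.2⟩)
        (fun a b => Subtype.ext (conj_mul' (u : G) a b))
      obtain ⟨P, hP⟩ := ((T.2).map e).exists_le_sylow
      obtain ⟨c, hc'⟩ := MulAction.exists_smul_eq X P T
      refine ⟨c⁻¹, ?_⟩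
      rw [Subgroup.coe_inv, inv_inv]
      have key : ∀ w : X, (w : G) ∈ L.four →
          ((c : G) * u) * (w : G) * ((c : G) * u)⁻¹ ∈ L.four := by
        intro w hw
        have h1 : c * e w * c⁻¹ ∈ (T : Subgroup X) := by
          rw [← hc']
          exact Subgroup.mem_map.2 ⟨e w, hP (Subgroup.mem_map.2 ⟨w, hT hw, rfl⟩), by simp⟩
        have h2 := hTV _ h1
        rwa [show ((c * e w * c⁻¹ : X) : G) = (c : G) * u * (w : G) * ((c : G) * u)⁻¹ by
          simp [e, mul_assoc]] at h2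
      exact L.mem_normalizer_four (key ⟨t, hfour (Or.inr (Or.inl rfl))⟩ (Or.inr (Or.inl rfl)))
        (key ⟨v, hfour (Or.inr (Or.inr (Or.inl rfl)))⟩ (Or.inr (Or.inr (Or.inl rfl))))
    choose c hc' using hex
    rw [Subgroup.relIndex, Subgroup.index, Subgroup.index]
    refine Nat.card_le_card_of_injective (fun o => (QuotientGroup.mk (c o.out) : X ⧸ NX)) ?_
    intro o o' e
    have e' : ((c o.out : X) : G)⁻¹ * ((c o'.out : X) : G) ∈
        Subgroup.normalizer (L.four : Set G) := by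
      have e2 : (c o.out)⁻¹ * c o'.out ∈ NX := QuotientGroup.eq.1 e
      exact e2
    have hm : ((o.out : Uz) : G)⁻¹ * ((o'.out : Uz) : G) ∈
        Subgroup.normalizer (L.four : Set G) := by
      have := mul_mem (mul_mem (inv_mem (hc' o.out)) e') (hc' o'.out)
      simpa [mul_assoc] using this
    rw [← QuotientGroup.out_eq' o, ← QuotientGroup.out_eq' o']
    exact QuotientGroup.eq.2 ⟨hm, (o.out⁻¹ * o'.out).2⟩
  have hSU3 : Nat.card SU ≤ 3 := by
    have hform : ∀ u : SU, ∃ i : Fin 3, ∃ a ∈ A,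
        (u : G) = f ^ (i : ℕ) * a ∨ (u : G) = f ^ (i : ℕ) * (z * a) := fun u => by
      obtain ⟨i, hi, rest⟩ := L.mem_N' u.2.1
      exact ⟨⟨i, hi⟩, rest⟩
    choose idx hidx using hform
    refine le_trans (Nat.card_le_card_of_injective idx ?_) (le_of_eq (Nat.card_fin 3))
    intro u u' e
    obtain ⟨a, ha, hua⟩ := hidx u
    obtain ⟨a', ha', hua'⟩ := hidx u'
    rw [e] at hua
    have hw : ((f ^ ((idx u' : Fin 3) : ℕ))⁻¹ * (u : G))⁻¹ *
        ((f ^ ((idx u' : Fin 3) : ℕ))⁻¹ * (u' : G)) = (u : G)⁻¹ * u' := by group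
    have hcomm : ∀ (w b : G), b ∈ A →
        (w = f ^ ((idx u' : Fin 3) : ℕ) * b ∨ w = f ^ ((idx u' : Fin 3) : ℕ) * (z * b)) →
        Commute ((f ^ ((idx u' : Fin 3) : ℕ))⁻¹ * w) t ∧
          Commute ((f ^ ((idx u' : Fin 3) : ℕ))⁻¹ * w) v := by
      intro w b hb hwb
      obtain ⟨g1, g2⟩ := L.A_cent hb
      rcases hwb with rfl | rfl <;> rw [inv_mul_cancel_left]
      · exact ⟨g1, g2⟩
      · exact ⟨L.zt.mul_left g1, L.zv.mul_left g2⟩
    obtain ⟨c1, c2⟩ := hcomm _ a ha hua
    obtain ⟨c3, c4⟩ := hcomm _ a' ha' hua'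
    have h1 := c1.inv_left.mul_left c3
    have h2 := c2.inv_left.mul_left c4
    rw [hw] at h1 h2
    obtain ⟨u₁, hu₁, e₁⟩ := Uz.mul_mem (Uz.inv_mem u.2.2) u'.2.2
    have h3 : ((u : G)⁻¹ * u') ^ 3 = 1 := by
      rw [← e₁, ← map_pow, h.U_cube hf₀K hf₀o hu₁, map_one]
    exact Subtype.ext (inv_mul_eq_one.1 (L.eq_one_of_cube h1 h2 h3))
  have hle : SU ≤ Uz := inf_le_right
  have h1 : SU.relIndex Uz * Nat.card SU = Nat.card Uz := by
    rw [Subgroup.relIndex, mul_comm, ← Nat.card_congr (Subgroup.subgroupOfEquivOfLe hle).toEquiv,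
      Subgroup.card_mul_index]
  have := Nat.mul_le_mul (hrel.trans key2) hSU3
  have := h.facts.big
  omega

end Loc

end CfsgLib.ReeSThree
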