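import Cfsg.Agent.Chars.Exceptional.NormTwo
import Cfsg.Agent.CentralizerFour.Characters
import Cfsg.Agent.S4746

/-!
# Induced functions: inner products and class sums
-/

set_option autoImplicit false
set_option maxHeartbeats 400000

namespace CfsgLib.ReeSThree

open Cfsg CfsgLib.Chars CfsgLib.Chars.Exceptional
open scoped ComplexConjugate

universe u

variable {G : Type u} [Group G]

/-- A linear character is a generalised character. -/
theorem gen_hom {H : Type u} [Group H] (l : H →* ℂˣ) :
    IsGeneralizedCharacter H (fun x => (l x : ℂ)) :=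
  gen_of_irr (isIrrCharacter_monoidHom l)

theorem gen_one {H : Type u} [Group H] : IsGeneralizedCharacter H (fun _ => (1 : ℂ)) :=
  gen_of_irr isIrrCharacter_one

/-- A linear character takes conjugate values at inverses. -/
theorem conj_hom {H : Type u} [Group H] [Finite H] (l : H →* ℂˣ) (x : H) :
    conj (l x : ℂ) = (l x⁻¹ : ℂ) :=
  (map_inv_eq_conj (isCharacter_of_isIrrCharacter (isIrrCharacter_monoidHom l)) x).symm

/-- The sum of a non-trivial linear character is zero. -/
theorem sum_hom_eq_zero {H : Type u} [Group H] [Fintype H] (l : H →* ℂˣ) {a : H} (ha : l a ≠ 1) :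
    ∑ x : H, (l x : ℂ) = 0 := by
  refine sum_hom_units_eq_zero ((Units.coeHom ℂ).comp l) fun e => ha (Units.ext ?_)
  exact DFunLike.congr_fun e a

variable [Fintype G]

theorem gen_ind {H : Subgroup G} {θ : H → ℂ} (hθ : IsGeneralizedCharacter H θ) :
    IsGeneralizedCharacter G (indFun H θ) := by
  obtain ⟨a, b, ha, hb, rfl⟩ := hθ
  exact ⟨indFun H a, indFun H b, Induced.isCharacter_indFun H ha, Induced.isCharacter_indFun H hb,
    Induced.indFun_sub H a b⟩

/-- The inner product of two induced functions. -/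
theorem inner_ind (H L : Subgroup G) [Fintype H] (θ : H → ℂ) (η : L → ℂ) :
    classInner (indFun H θ) (indFun L η) = ((Nat.card H : ℂ) * Nat.card L)⁻¹ *
      ∑ h : H, θ h * conj (∑ x : G, extendByZero L η (x * h * x⁻¹)) := by
  rw [Induced.classInner_indFun H θ (Induced.indFun_isClassFunction L η)]
  rw [classInner, Finset.mul_sum, Finset.mul_sum]
  refine Finset.sum_congr rfl fun h _ => ?_
  rw [indFun, map_mul, map_inv₀, Complex.conj_natCast, mul_inv, show ∑ x : G, extendByZero L η (x⁻¹ * (h : G) * x) =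
    ∑ x : G, extendByZero L η (x * (h : G) * x⁻¹) from
    Fintype.sum_equiv (Equiv.inv G) _ _ fun x => by simp]
  ring

/-- The class sum of a class function at the product of two conjugates of `s`. -/
noncomputable def pairSum (s : G) (φ : G → ℂ) : ℂ := ∑ a : G, φ (s * (a * s * a⁻¹))

theorem pairSum_sub (s : G) (a b : G → ℂ) : pairSum s (a - b) = pairSum s a - pairSum s b :=
  Finset.sum_sub_distrib _ _

theorem pairSum_smul (s : G) (c : ℂ) (a : G → ℂ) : pairSum s (c • a) = c * pairSum s a :=
  (Finset.mul_sum _ _ _).symm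

/-- The class sum of an induced function. -/
theorem pairSum_ind (s : G) (H : Subgroup G) [Fintype H] (θ : H → ℂ) :
    pairSum s (indFun H θ) = (Nat.card H : ℂ)⁻¹ *
      ((Nat.card (Subgroup.centralizer ({s} : Set G)) : ℂ) ^ 2 *
        ∑ h : H, θ h * (Nat.card {y : G // IsConj s y ∧ IsConj s (y⁻¹ * h)} : ℂ)) := by
  classical
  set C := Nat.card (Subgroup.centralizer ({s} : Set G)) with hC
  have hinner : ∀ g : G, ∑ x : G, extendByZero H θ (x⁻¹ * g * x) =
      ∑ h : H, θ h * (Nat.card {x : G // x * g * x⁻¹ = h} : ℂ) := by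
    intro g
    rw [show ∑ x : G, extendByZero H θ (x⁻¹ * g * x) = ∑ x : G, extendByZero H θ (x * g * x⁻¹) from
      Fintype.sum_equiv (Equiv.inv G) _ _ fun x => by simp]
    have e : ∀ x : G, extendByZero H θ (x * g * x⁻¹) =
        ∑ h : H, if x * g * x⁻¹ = h then θ h else 0 := by
      intro x
      by_cases hx : x * g * x⁻¹ ∈ H
      · rw [Induced.extendByZero_mem θ hx, Finset.sum_eq_single ⟨_, hx⟩
          (fun b _ hb => if_neg fun e' => hb (Subtype.ext e'.symm))
          (fun h => absurd (Finset.mem_univ _) h), if_pos rfl]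
      · rw [Induced.extendByZero_notMem θ hx, Finset.sum_eq_zero]
        exact fun b _ => if_neg fun e' : x * g * x⁻¹ = b => hx (e' ▸ b.2)
    simp only [e]
    rw [Finset.sum_comm]
    refine Finset.sum_congr rfl fun h _ => ?_
    rw [Finset.sum_ite, Finset.sum_const_zero, add_zero, Finset.sum_const, nsmul_eq_mul, mul_comm,
      Nat.card_eq_fintype_card, Fintype.card_subtype]
  have hpair : ∀ h : G, ∑ a : G, Nat.card {x : G // x * (s * (a * s * a⁻¹)) * x⁻¹ = h} =
      C ^ 2 * Nat.card {y : G // IsConj s y ∧ IsConj s (y⁻¹ * h)} := by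
    intro h
    have hfib : ∀ w : G, Nat.card {b : G // b * s * b⁻¹ = w} = if IsConj s w then C else 0 := by
      intro w
      split_ifs with hw
      · exact CentralizerFour.card_conjugators_eq hw
      · haveI : IsEmpty {b : G // b * s * b⁻¹ = w} := ⟨fun b => hw (isConj_iff.2 ⟨b.1, b.2⟩)⟩
        exact Nat.card_of_isEmpty
    have key : ∀ x : G, Nat.card {a : G // x * (s * (a * s * a⁻¹)) * x⁻¹ = h} =
        if IsConj s (x * s⁻¹ * x⁻¹ * h) then C else 0 := by
      intro x
      rw [← hfib]
      refine Nat.card_congr ((Equiv.mulLeft x).subtypeEquiv fun a => ?_)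
      simp only [Equiv.coe_mulLeft, mul_inv_rev]
      constructor
      · intro e; rw [← e]; group
      · intro e
        rw [show x * (s * (a * s * a⁻¹)) * x⁻¹ = x * s * x⁻¹ * (x * a * s * (a⁻¹ * x⁻¹)) by group,
          e]
        group
    rw [show ∑ a : G, Nat.card {x : G // x * (s * (a * s * a⁻¹)) * x⁻¹ = h} =
      ∑ x : G, Nat.card {a : G // x * (s * (a * s * a⁻¹)) * x⁻¹ = h} by
        rw [← Nat.card_sigma, ← Nat.card_sigma]
        exact Nat.card_congr
          { toFun := fun p => ⟨p.2.1, p.1, p.2.2⟩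
            invFun := fun p => ⟨p.2.1, p.1, p.2.2⟩
            left_inv := fun p => rfl
            right_inv := fun p => rfl }]
    simp only [key]
    have hinv : ∀ x : G, IsConj s (x * s⁻¹ * x⁻¹ * h) ↔ IsConj s ((x * s * x⁻¹)⁻¹ * h) := fun x => by
      rw [mul_inv_rev, mul_inv_rev, inv_inv, mul_assoc x]
    have hcount : (Finset.univ.filter fun x : G => IsConj s (x * s⁻¹ * x⁻¹ * h)).card =
        C * Nat.card {y : G // IsConj s y ∧ IsConj s (y⁻¹ * h)} := by
      set P := Finset.univ.filter fun y : G => IsConj s y ∧ IsConj s (y⁻¹ * h) with hP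
      rw [Finset.card_eq_sum_card_fiberwise (f := fun x => x * s * x⁻¹) (t := P) (fun x hx => by
        rw [Finset.mem_coe, Finset.mem_filter] at hx ⊢
        exact ⟨Finset.mem_univ _, isConj_iff.2 ⟨x, rfl⟩, (hinv x).1 hx.2⟩)]
      rw [Finset.sum_congr rfl (g := fun _ => C) fun y hy => ?_, Finset.sum_const, smul_eq_mul,
        mul_comm, Nat.card_eq_fintype_card, Fintype.card_subtype]
      rw [hP, Finset.mem_filter] at hy
      rw [hC, ← CentralizerFour.card_conjugators_eq hy.2.1, Nat.card_eq_fintype_card,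
        Fintype.card_subtype, Finset.filter_filter]
      congr 1
      ext x
      simp only [Finset.mem_filter, Finset.mem_univ, true_and]
      exact ⟨fun hh => hh.2, fun hh => ⟨(hinv x).2 (hh ▸ hy.2.2), hh⟩⟩
    rw [Finset.sum_ite, Finset.sum_const_zero, add_zero, Finset.sum_const, smul_eq_mul, hcount]
    rw [mul_comm (C * _) C, ← mul_assoc, ← pow_two]
  simp only [pairSum, indFun, hinner, ← Finset.mul_sum]
  congr 1
  rw [Finset.sum_comm, Finset.mul_sum]
  refine Finset.sum_congr rfl fun h _ => ?_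
  rw [← Finset.mul_sum, ← Nat.cast_sum, hpair]
  push_cast
  ring

/-- The class sum of an irreducible character. -/
theorem pairSum_irr (s : G) (χ : IrrCharacter G) :
    pairSum s (χ : G → ℂ) = (Nat.card G : ℂ) * ((χ : G → ℂ) s * (χ : G → ℂ) s) / (χ : G → ℂ) 1 :=
  sum_map_mul_conjugate χ s s

/-- A norm-two virtual character of degree zero: the arithmetic it yields at an involution. -/
theorem norm_two_arith {s : G} (hs : s * s = 1) {Φ : G → ℂ} (hg : IsGeneralizedCharacter G Φ)
    (h2 : classInner Φ Φ = 2) (h1 : Φ 1 = 0) :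
    ∃ (a b : ℤ) (n : ℕ), 0 < n ∧ ((a : ℂ) - b = Φ s) ∧
      pairSum s Φ = (Nat.card G : ℂ) * ((a : ℂ) ^ 2 - (b : ℂ) ^ 2) / n ∧
      a ^ 2 + b ^ 2 ≤ (Nat.card (Subgroup.centralizer ({s} : Set G)) : ℤ) := by
  classical
  obtain ⟨μ, ν, hμ, hν, hne, rfl⟩ := gen_norm_two hg h2 h1
  set μ' : IrrCharacter G := ⟨μ, hμ⟩ with hμ'
  set ν' : IrrCharacter G := ⟨ν, hν⟩ with hν'
  obtain ⟨n, hn0, hn⟩ := irr_degree hμ
  have hνn : ν 1 = n := by
    have : μ 1 - ν 1 = 0 := h1
    rw [← hn, ← sub_eq_zero.1 this]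
  have hint : ∀ χ : IrrCharacter G, ∃ k : ℤ, (χ : G → ℂ) s = k := fun χ => by
    obtain ⟨k, hk⟩ := Cfsg.Agent.S4746.exists_int_involution χ hs
    obtain ⟨m, hm⟩ := exists_natCast_map_one (isCharacter_coe χ)
    exact ⟨m - 2 * k, by rw [hk, hm]; push_cast; ring⟩
  choose k hk using hint
  refine ⟨k μ', k ν', n, hn0, ?_, ?_, ?_⟩
  · rw [← hk, ← hk]; rfl
  · have eμ := pairSum_irr s μ'
    have eν := pairSum_irr s ν'
    rw [hk] at eμ eν
    change pairSum s μ = _ at eμ
    change pairSum s ν = _ at eν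
    rw [pairSum_sub, eμ, eν, show (μ' : G → ℂ) 1 = n from hn, show (ν' : G → ℂ) 1 = n from hνn]
    ring
  · have hsum : ((∑ χ : IrrCharacter G, k χ ^ 2 : ℤ) : ℂ) =
        ((Nat.card (Subgroup.centralizer ({s} : Set G)) : ℤ) : ℂ) := by
      have h := sum_irr_mul_conj s s
      rw [if_pos (IsConj.refl s)] at h
      push_cast
      rw [← h]
      refine Finset.sum_congr rfl fun χ _ => ?_
      rw [hk, map_intCast, pow_two]
    rw [← Int.cast_injective hsum]
    have hne' : μ' ≠ ν' := fun e => hne (congrArg Subtype.val e)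
    rw [← Finset.sum_pair (f := fun χ => k χ ^ 2) hne']
    exact Finset.sum_le_sum_of_subset_of_nonneg (Finset.subset_univ _) fun χ _ _ => sq_nonneg _

end CfsgLib.ReeSThree
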