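import Cfsg.Agent.ReeSThree.Sections
import Cfsg.Agent.AbPSL44.Facts
import Cfsg.Agent.S0276

/-!
# `PSL₂(q)`: abelian Sylow `2`-subgroups and sections `S₃`
-/

set_option autoImplicit false
set_option maxHeartbeats 400000

namespace CfsgLib.ReeSThree

open CfsgLib CfsgLib.SL2

variable {F : Type*} [Field F] [Fintype F]

local notation "SLF" => Matrix.SpecialLinearGroup (Fin 2) F
local notation "PF" => Matrix.ProjectiveSpecialLinearGroup (Fin 2) F

theorem twoSubgroupsComm_psl_two (h2 : (2 : F) = 0) : TwoSubgroupsComm PF := by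
  intro Q hQ u hu v hv
  have : Fact (Nat.Prime 2) := ⟨Nat.prime_two⟩
  rcases subsingleton_or_nontrivial Q with hs | hn
  · have h : (⟨u, hu⟩ : Q) = ⟨v, hv⟩ := Subsingleton.elim _ _
    rw [show u = v from congrArg Subtype.val h]
  · have := hQ.center_nontrivial
    obtain ⟨k, hk, hk'⟩ := (IsPGroup.to_subgroup hQ (Subgroup.center Q)).nontrivial_iff_card.1 this
    obtain ⟨z, hz⟩ := exists_prime_orderOf_dvd_card' (G := Subgroup.center Q) 2
      (by rw [hk']; exact dvd_pow_self 2 hk.ne')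
    have hzo : orderOf ((z : Q) : PF) = 2 := by rw [Subgroup.orderOf_coe, Subgroup.orderOf_coe, hz]
    have hc : ∀ w (hw : w ∈ Q), Commute ((z : Q) : PF) w := fun w hw =>
      (congrArg Subtype.val (Subgroup.mem_center_iff.1 z.2 ⟨w, hw⟩)).symm
    exact AbPSL44.commute_of_two_eq_zero h2 hzo (hc u hu) (hc v hv)

theorem mul_self_of_two_pow {q : ℕ} (hF : Fintype.card F = q) (hq : q % 8 = 3 ∨ q % 8 = 5)
    {Q : Subgroup PF} (hQ : IsPGroup 2 Q) :
    (∀ u ∈ Q, u * u = 1) ∧ ∀ u ∈ Q, ∀ v ∈ Q, Commute u v := by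
  have : Fact (Nat.Prime 2) := ⟨Nat.prime_two⟩
  obtain ⟨P, hP⟩ := hQ.exists_le_sylow
  have hk := Cfsg.Agent.S0276.result hF hq P
  have h1 : ∀ u ∈ Q, u * u = 1 := fun u hu =>
    congrArg Subtype.val (IsKleinFour.mul_self (⟨u, hP hu⟩ : (P : Subgroup PF)))
  refine ⟨h1, fun u hu v hv => ?_⟩
  have hi : ∀ u ∈ Q, u⁻¹ = u := fun u hu => inv_eq_of_mul_eq_one_right (h1 u hu)
  show u * v = v * u
  conv_lhs => rw [← hi _ (Q.mul_mem hu hv), mul_inv_rev, hi u hu, hi v hv]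

theorem twoSubgroupsComm_psl_odd {q : ℕ} (hF : Fintype.card F = q) (hq : q % 8 = 3 ∨ q % 8 = 5) :
    TwoSubgroupsComm PF := fun _ hQ => (mul_self_of_two_pow hF hq hQ).2

/-- Outside characteristic `3`, `PSL₂` contains an `S₃`. -/
theorem involves_three_psl (h3 : (3 : F) ≠ 0) :
    Cfsg.Involves (Equiv.Perm (Fin 3)) PF := by
  set g : SLF := comp (-1) with hg
  have ht : tr g = -1 := tr_comp _
  have ht4 : tr g ^ 2 ≠ 4 := fun h => h3 (by rw [ht] at h; linear_combination -h)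
  obtain ⟨c, hc, hcc, -⟩ := exists_inverting ht4
  have h2 : (g : Matrix (Fin 2) (Fin 2) F) * g = -(g : Matrix (Fin 2) (Fin 2) F) - 1 := by
    rw [coe_sq, ht, neg_one_smul]
  have hcube : g ^ 3 = 1 := by
    apply Subtype.ext
    show ((g ^ 3 : SLF) : Matrix (Fin 2) (Fin 2) F) = 1
    rw [Matrix.SpecialLinearGroup.coe_pow, pow_succ, pow_two, h2, sub_mul, neg_mul, h2, one_mul]
    abel
  refine involves_three_of_inverted (x := (pmk c : PF)) (y := pmk g) ?_ ?_ ?_ ?_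
  · rw [← map_mul, hcc, pmk_eq_one_iff]; exact Or.inr rfl
  · rw [← map_pow, hcube, map_one]
  · intro h
    exact not_mem_center_of_tr_sq_ne ht4 (mem_center_iff'.2 (pmk_eq_one_iff.1 h))
  · rw [← map_inv, ← map_mul, ← map_mul, hc, map_inv]

/-- `PSL₂(3^(2n+1))` has no section `S₃`. -/
theorem not_involves_three_psl {n : ℕ} (hq : Fintype.card F = 3 ^ (2 * n + 1)) :
    ¬ Cfsg.Involves (Equiv.Perm (Fin 3)) PF := by
  intro hi
  obtain ⟨x, y, ⟨i, hxi⟩, ⟨k, hyk⟩, hy1, hxy⟩ := involves_three_iff.1 hi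
  have hm8 : Fintype.card F % 8 = 3 := by
    rw [hq, pow_succ, pow_mul, Nat.mul_mod, Nat.pow_mod]
    norm_num
  obtain ⟨k, rfl⟩ := Nat.exists_eq_succ_of_ne_zero (n := k) (by
    rintro rfl
    rw [pow_zero, orderOf_eq_one_iff] at hyk
    exact hy1 hyk)
  set z : PF := y ^ 3 ^ k with hz
  have hz3 : orderOf z = 3 := by
    rw [hz, orderOf_pow_of_dvd (by positivity) (by rw [hyk]; exact pow_dvd_pow 3 (Nat.le_succ k)),
      hyk, pow_succ', Nat.mul_div_cancel _ (by positivity)]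
  have hxz : x * z * x⁻¹ = z⁻¹ := by rw [hz, ← conj_pow, hxy, inv_pow]
  have hx2 : x * x = 1 := by
    refine (mul_self_of_two_pow rfl (Or.inl hm8) (Q := Subgroup.zpowers x) ?_).1 x
      (Subgroup.mem_zpowers x)
    exact IsPGroup.of_card (p := 2) (n := i) (by rw [Nat.card_zpowers, hxi])
  obtain ⟨Z, hZ, s, hs, hZs⟩ := exists_lift_tr_two hq hz3
  obtain ⟨X, rfl⟩ := pmk_surjective x
  rw [← hZ, ← map_inv, ← map_inv, ← map_mul, ← map_mul, pmk_eq_iff] at hxz
  have hodd : Odd (Fintype.card F) := Nat.odd_iff.2 (by omega)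
  have h2 : (2 : F) ≠ 0 := two_ne_zero_iff_odd.2 hodd
  have htZ : tr Z = 2 := by rw [tr_eq_of_isConj hZs, tr_u]
  have hconj : IsConj Z Z⁻¹ := by
    rcases hxz with h | h
    · exact isConj_iff.2 ⟨X, h⟩
    · exfalso
      have := congrArg tr h
      rw [tr_conj, tr_neg, tr_inv, htZ] at this
      exact mul_ne_zero h2 h2 (by linear_combination this)
  have hinv : IsConj Z⁻¹ (u (-s)) := by
    obtain ⟨c, hc⟩ := isConj_iff.1 hZs
    exact isConj_iff.2 ⟨c, by rw [u_neg, ← hc]; group⟩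
  have hu : IsConj (u s : SLF) (u (-s)) := hZs.symm.trans (hconj.trans hinv)
  rw [u_eq_upperU, u_eq_upperU,
    CfsgLib.Psl2Unipotent.isConj_upperU_iff hs (neg_ne_zero.2 hs)] at hu
  obtain ⟨r, hr⟩ := hu
  have h4 : IsSquare (-1 : F) := ⟨r / s, by field_simp; linear_combination hr⟩
  exact (FiniteField.isSquare_neg_one_iff.1 h4) (by omega)

/-- For `q ≡ 3, 5 (mod 8)`, either there is an `S₃` or `q` is an odd power of `3`. -/
theorem involves_three_or_card {q : ℕ} (hF : Fintype.card F = q) (hq : q % 8 = 3 ∨ q % 8 = 5) :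
    Cfsg.Involves (Equiv.Perm (Fin 3)) PF ∨ ∃ n, Fintype.card F = 3 ^ (2 * n + 1) := by
  by_cases h3 : (3 : F) = 0
  · right
    obtain ⟨p, hp⟩ := CharP.exists F
    obtain ⟨f, hpp, hcard⟩ := FiniteField.card F p
    have hp3 : p = 3 := (Nat.prime_dvd_prime_iff_eq hpp Nat.prime_three).1
      ((CharP.cast_eq_zero_iff F p 3).1 (by exact_mod_cast h3))
    subst hp3
    rcases Nat.even_or_odd' (f : ℕ) with ⟨n, hn | hn⟩
    · exfalso
      rw [hF, hn, pow_mul] at hcard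
      have : q % 8 = 1 := by rw [hcard, Nat.pow_mod]; norm_num
      omega
    · exact ⟨n, by rw [hcard, hn]⟩
  · exact Or.inl (involves_three_psl h3)

end CfsgLib.ReeSThree
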