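import Cfsg.Agent.ReeSThree.Setup
import Cfsg.Agent.SL2.Klein
import Mathlib.GroupTheory.Transfer

/-!
# Groups of Ree type: the Sylow `2`-subgroup and its fusion
-/

set_option autoImplicit false

namespace CfsgLib.ReeSThree

universe u

variable {G : Type u} [Group G]

/-- Two commuting involutions of `K`. -/
structure Frame (K : Subgroup G) (k r : G) : Prop where
  kK : k ∈ K
  k2 : orderOf k = 2
  rK : r ∈ K
  r2 : orderOf r = 2
  kr : Commute k r
  ne : r ≠ k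

/-- The Sylow `2`-subgroup attached to a frame. -/
def fourS (t k r : G) : Subgroup G := Subgroup.centralizer ({t, k, r} : Set G)

theorem mem_fourS {t k r x : G} :
    x ∈ fourS t k r ↔ Commute x t ∧ Commute x k ∧ Commute x r := by
  simp only [fourS, Subgroup.mem_centralizer_iff, Set.mem_insert_iff, Set.mem_singleton_iff,
    forall_eq_or_imp, forall_eq]
  exact ⟨fun ⟨a, b, c⟩ => ⟨a.symm, b.symm, c.symm⟩,
    fun ⟨a, b, c⟩ => ⟨a.eq.symm, b.eq.symm, c.eq.symm⟩⟩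

theorem mul_self_of_orderOf {x : G} (hx : orderOf x = 2) : x * x = 1 := by
  rw [← pow_two, ← hx, pow_orderOf_eq_one]

theorem ne_one_of_orderOf {x : G} (hx : orderOf x = 2) : x ≠ 1 := fun e => by
  rw [e, orderOf_one] at hx; omega

theorem conj_mul' (g a b : G) : g * (a * b) * g⁻¹ = g * a * g⁻¹ * (g * b * g⁻¹) := by group

theorem commute_conj' {a b : G} (h : Commute a b) (g : G) :
    Commute (g * a * g⁻¹) (g * b * g⁻¹) := by
  show _ = _
  rw [← conj_mul', ← conj_mul', h.eq]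

theorem orderOf_conj' (g a : G) : orderOf (g * a * g⁻¹) = orderOf a :=
  orderOf_injective (MulAut.conj g).toMonoidHom (MulAut.conj g).injective a

namespace Setup

variable {t : G} {K : Subgroup G} {q : ℕ} (h : Setup G t K q)
include h

theorem exists_frame [Finite G] : ∃ k r, Frame K k r := by
  have h8 : 2 ∣ Nat.card K := by
    have hc := h.facts.card
    have : 8 ∣ q ^ 2 - 1 := Nat.eight_dvd_sq_sub_one_of_odd h.q_odd
    have h' : 8 ∣ 2 * Nat.card K := hc ▸ Dvd.dvd.mul_left this q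
    omega
  have : Fact (Nat.Prime 2) := ⟨Nat.prime_two⟩
  obtain ⟨⟨k, hk⟩, hk2⟩ := exists_prime_orderOf_dvd_card' 2 h8
  rw [Subgroup.orderOf_mk] at hk2
  obtain ⟨hC, T, hTK, hkT, hT, hTc, -, hout⟩ := h.dihK hk hk2
  obtain ⟨r, hrC, hrT⟩ : ∃ r ∈ K ⊓ Subgroup.centralizer ({k} : Set G), r ∉ T := by
    by_contra hc
    push Not at hc
    have := Subgroup.card_le_of_le (fun x hx => hc x hx : K ⊓ Subgroup.centralizer ({k} : Set G) ≤ T)
    have := h.facts.big
    omega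
  have hrk : Commute r k := Subgroup.mem_centralizer_singleton_iff.1 hrC.2
  obtain ⟨hr1, -⟩ := hout r hrC.1 hrk hrT
  refine ⟨k, r, hk, hk2, hrC.1, orderOf_eq_prime (by rw [pow_two, hr1]) ?_, hrk.symm, ?_⟩
  · rintro rfl; exact hrT T.one_mem
  · rintro rfl; exact hrT hkT

variable {k r : G} (F : Frame K k r)
include F

theorem tk : Commute t k := (h.comm k F.kK).symm
theorem tr' : Commute t r := (h.comm r F.rK).symm

theorem klein_K [Finite G] {x : G} (hx : x ∈ K) (hxk : Commute x k) (hxr : Commute x r) :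
    x = 1 ∨ x = k ∨ x = r ∨ x = k * r := by
  obtain ⟨hC, T, hTK, hkT, hT, hTc, -, hout⟩ := h.dihK F.kK F.k2
  have huniq : ∀ y ∈ T, y * y = 1 → y = 1 ∨ y = k := by
    intro y hy hy2
    by_contra hc
    push Not at hc
    have hy' : orderOf y = 2 := orderOf_eq_prime (by rw [pow_two, hy2]) hc.1
    let W := SL2.vFour k y (mul_self_of_orderOf F.k2) hy2 (hTc y hy).symm
    have hW := SL2.isKleinFour_vFour F.k2 hy' (hTc y hy).symm (Ne.symm hc.2)
    have hle : W ≤ T := by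
      rintro z (rfl | rfl | rfl | rfl)
      · exact T.one_mem
      · exact hkT
      · exact hy
      · exact T.mul_mem hkT hy
    have := Subgroup.card_dvd_of_le hle
    rw [show Nat.card W = 4 from hW.card_four] at this
    have := h.facts.mod_eight
    omega
  have hrT : r ∉ T := fun e => by
    rcases huniq r e (mul_self_of_orderOf F.r2) with e' | e'
    · exact ne_one_of_orderOf F.r2 e'
    · exact F.ne e'
  obtain ⟨hr2, hinv⟩ := hout r F.rK F.kr.symm hrT
  have key : ∀ y ∈ T, Commute y r → y = 1 ∨ y = k := by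
    intro y hy hc
    refine huniq y hy ?_
    have e := hinv y hy
    rw [← hc.eq, mul_inv_cancel_right] at e
    nth_rw 2 [e]
    exact mul_inv_cancel y
  have hrinv : r⁻¹ = r := inv_eq_of_mul_eq_one_right hr2
  by_cases hxT : x ∈ T
  · rcases key x hxT hxr with e | e
    · exact Or.inl e
    · exact Or.inr (Or.inl e)
  · obtain ⟨hx2, hxi⟩ := hout x hx hxk hxT
    have hmem : x * r ∈ T := by
      by_contra hc
      obtain ⟨-, hi⟩ := hout (x * r) (K.mul_mem hx F.rK) (hxk.mul_left F.kr.symm) hc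
      -- the product of two inverting elements centralises `T`; compare on `T`
      have hall : ∀ y ∈ T, y * y = 1 := by
        intro y hy
        have e1 := hi y hy
        have e2 : x * r * y * (x * r)⁻¹ = y := by
          calc x * r * y * (x * r)⁻¹ = x * (r * y * r⁻¹) * x⁻¹ := by group
            _ = x * y⁻¹ * x⁻¹ := by rw [hinv y hy]
            _ = (x * y * x⁻¹)⁻¹ := by group
            _ = y := by rw [hxi y hy, inv_inv]
        rw [e2] at e1
        nth_rw 2 [e1]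
        exact mul_inv_cancel y
      have hle : T ≤ Subgroup.zpowers k := fun y hy => by
        rcases huniq y hy (hall y hy) with rfl | rfl
        · exact one_mem _
        · exact Subgroup.mem_zpowers _
      have := Subgroup.card_le_of_le hle
      rw [Nat.card_zpowers, F.k2] at this
      have := h.facts.big
      omega
    have hx' : x = x * r * r := by rw [mul_assoc, hr2, mul_one]
    rcases key _ hmem (hxr.mul_left (Commute.refl r)) with e | e
    · exact Or.inr (Or.inr (Or.inl (by rw [hx', e, one_mul])))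
    · exact Or.inr (Or.inr (Or.inr (by rw [hx', e])))

theorem mem_S_cases [Finite G] {x : G} (hx : x ∈ fourS t k r) :
    x = 1 ∨ x = k ∨ x = r ∨ x = k * r ∨ x = t ∨ x = t * k ∨ x = t * r ∨ x = t * (k * r) := by
  obtain ⟨hxt, hxk, hxr⟩ := mem_fourS.1 hx
  rcases h.decomp x hxt with hK | hK
  · rcases h.klein_K F hK hxk hxr with e | e | e | e <;> simp [e]
  · have e0 : x = t * (t * x) := by rw [← mul_assoc, h.t_mul, one_mul]
    rcases h.klein_K F hK ((h.tk F).mul_left hxk) ((h.tr' F).mul_left hxr) with e | e | e | e <;>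
      rw [e0, e] <;> simp

theorem S_sq [Finite G] {x : G} (hx : x ∈ fourS t k r) : x * x = 1 := by
  have hk := mul_self_of_orderOf F.k2
  have hr := mul_self_of_orderOf F.r2
  have hkr : (k * r) * (k * r) = 1 := by
    rw [← pow_two, F.kr.mul_pow, pow_two, pow_two, hk, hr, one_mul]
  have htm : ∀ y ∈ K, y * y = 1 → t * y * (t * y) = 1 := fun y hy h2 => by
    rw [← pow_two, (h.comm y hy).symm.mul_pow, pow_two, pow_two, h.t_mul, h2, one_mul]
  rcases h.mem_S_cases F hx with e | e | e | e | e | e | e | e <;> subst e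
  · simp
  · exact hk
  · exact hr
  · exact hkr
  · exact h.t_mul
  · exact htm k F.kK hk
  · exact htm r F.rK hr
  · exact htm _ (K.mul_mem F.kK F.rK) hkr

theorem S_comm [Finite G] {x y : G} (hx : x ∈ fourS t k r) (hy : y ∈ fourS t k r) :
    Commute x y := by
  have e1 : x⁻¹ = x := inv_eq_of_mul_eq_one_right (h.S_sq F hx)
  have e2 : y⁻¹ = y := inv_eq_of_mul_eq_one_right (h.S_sq F hy)
  have e3 : (x * y)⁻¹ = x * y := inv_eq_of_mul_eq_one_right (h.S_sq F (mul_mem hx hy))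
  rw [mul_inv_rev, e1, e2] at e3
  exact e3.symm

theorem t_mem_S : t ∈ fourS t k r := mem_fourS.2 ⟨Commute.refl t, h.tk F, h.tr' F⟩

theorem k_mem_S : k ∈ fourS t k r := mem_fourS.2 ⟨(h.tk F).symm, Commute.refl k, F.kr⟩

theorem r_mem_S : r ∈ fourS t k r := mem_fourS.2 ⟨(h.tr' F).symm, F.kr.symm, Commute.refl r⟩

theorem S_isPGroup [Finite G] : IsPGroup 2 (fourS t k r) := fun x =>
  ⟨1, Subtype.ext (by rw [pow_one, pow_two]; exact h.S_sq F x.2)⟩

theorem card_C_odd_part : ∃ j, q * (q ^ 2 - 1) = 8 * j ∧ Odd j := by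
  obtain ⟨i, hi⟩ : ∃ i, q = 8 * i + 3 := ⟨q / 8, by have := h.facts.mod_eight; omega⟩
  refine ⟨q * (8 * i ^ 2 + 6 * i + 1), ?_, h.q_odd.mul ⟨4 * i ^ 2 + 3 * i, by ring⟩⟩
  have h1 : q ^ 2 = 8 * (8 * i ^ 2 + 6 * i + 1) + 1 := by rw [hi]; ring
  rw [h1, Nat.add_sub_cancel]
  ring

theorem card_S [Finite G] : Nat.card (fourS t k r) = 8 := by
  have : Fact (Nat.Prime 2) := ⟨Nat.prime_two⟩
  obtain ⟨j, hj, hjodd⟩ := h.card_C_odd_part F
  obtain ⟨a, ha⟩ := IsPGroup.iff_card.1 (h.S_isPGroup F)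
  have hle : fourS t k r ≤ Subgroup.centralizer ({t} : Set G) := fun x hx =>
    Subgroup.mem_centralizer_singleton_iff.2 (mem_fourS.1 hx).1.eq
  have hd := Subgroup.card_dvd_of_le hle
  rw [h.card_C, hj, ha] at hd
  have hcop : Nat.Coprime (2 ^ a) j := Nat.Coprime.pow_left a (Nat.coprime_two_left.2 hjodd)
  have h8 : 2 ^ a ∣ 2 ^ 3 := hcop.dvd_of_dvd_mul_right hd
  let W := SL2.vFour k r (mul_self_of_orderOf F.k2) (mul_self_of_orderOf F.r2) F.kr
  have hW : Nat.card W = 4 := (SL2.isKleinFour_vFour F.k2 F.r2 F.kr F.ne.symm).card_four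
  have hWS : W ≤ fourS t k r := by
    rintro z (rfl | rfl | rfl | rfl)
    · exact one_mem _
    · exact h.k_mem_S F
    · exact h.r_mem_S F
    · exact mul_mem (h.k_mem_S F) (h.r_mem_S F)
  have hWK : W ≤ K := by
    rintro z (rfl | rfl | rfl | rfl)
    · exact one_mem _
    · exact F.kK
    · exact F.rK
    · exact K.mul_mem F.kK F.rK
  have hlt : Nat.card W < Nat.card (fourS t k r) := by
    refine lt_of_le_of_ne (Subgroup.card_le_of_le hWS) fun e => h.tK (hWK ?_)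
    rw [Subgroup.eq_of_le_of_card_ge hWS e.ge]
    exact h.t_mem_S F
  rw [hW, ha] at hlt
  rw [ha]
  have h3 := (Nat.pow_dvd_pow_iff_le_right (by norm_num : 1 < 2)).1 h8
  interval_cases a <;> simp_all

theorem odd_index_S [Finite G] : ¬ 2 ∣ (fourS t k r).index := by
  obtain ⟨j, hj, hjodd⟩ := h.card_C_odd_part F
  have h1 := (fourS t k r).card_mul_index
  have h2 := (Subgroup.centralizer ({t} : Set G)).card_mul_index
  rw [h.card_S F] at h1
  rw [h.card_C, hj, ← h1, mul_assoc] at h2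
  rw [← Nat.eq_of_mul_eq_mul_left (by norm_num) h2]
  exact fun e => Nat.not_even_iff_odd.2 (hjodd.mul h.odd_index) (even_iff_two_dvd.2 e)

theorem exists_sylow [Finite G] : ∃ P : Sylow 2 G, (P : Subgroup G) = fourS t k r := by
  have : Fact (Nat.Prime 2) := ⟨Nat.prime_two⟩
  exact ⟨(h.S_isPGroup F).toSylow (h.odd_index_S F), rfl⟩

theorem exists_conj_mem_S [Finite G] {x : G} (hx : IsPGroup 2 (Subgroup.zpowers x)) :
    ∃ g : G, g * x * g⁻¹ ∈ fourS t k r := by
  have : Fact (Nat.Prime 2) := ⟨Nat.prime_two⟩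
  obtain ⟨P, hP⟩ := h.exists_sylow F
  obtain ⟨Q, hQ⟩ := hx.exists_le_sylow
  obtain ⟨g, hg⟩ := MulAction.exists_smul_eq G Q P
  refine ⟨g, ?_⟩
  rw [← hP, ← hg]
  exact Subgroup.mem_map.2 ⟨x, hQ (Subgroup.mem_zpowers x), by simp⟩

theorem sq_of_two_pow [Finite G] {x : G} {a : ℕ} (hx : x ^ (2 ^ a) = 1) : x * x = 1 := by
  obtain ⟨g, hg⟩ := h.exists_conj_mem_S F (x := x) (fun y => by
    obtain ⟨i, hi⟩ := Subgroup.mem_zpowers_iff.1 y.2
    refine ⟨a, Subtype.ext ?_⟩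
    rw [SubmonoidClass.coe_pow, ← hi, ← zpow_natCast, ← zpow_mul, mul_comm, zpow_mul,
      zpow_natCast, hx, one_zpow]
    rfl)
  have := h.S_sq F hg
  rw [← conj_mul'] at this
  calc x * x = g⁻¹ * (g * (x * x) * g⁻¹) * g := by group
    _ = 1 := by rw [this]; group

theorem mem_S_of_pow [Finite G] {n : G} (hn : n ∈ Subgroup.normalizer (fourS t k r : Set G))
    {a : ℕ} (ha : n ^ (2 ^ a) = 1) : n ∈ fourS t k r := by
  have : Fact (Nat.Prime 2) := ⟨Nat.prime_two⟩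
  obtain ⟨P, hP⟩ := h.exists_sylow F
  have hp : IsPGroup 2 (Subgroup.zpowers n) := fun y => by
    obtain ⟨i, hi⟩ := Subgroup.mem_zpowers_iff.1 y.2
    refine ⟨a, Subtype.ext ?_⟩
    rw [SubmonoidClass.coe_pow, ← hi, ← zpow_natCast, ← zpow_mul, mul_comm, zpow_mul,
      zpow_natCast, ha, one_zpow]
    rfl
  have hsup := hp.to_sup_of_normal_right' (h.S_isPGroup F) (Subgroup.zpowers_le.2 hn)
  have := P.is_maximal' hsup (hP ▸ le_sup_right)
  rw [hP] at this
  rw [← this]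
  exact Subgroup.mem_sup_left (Subgroup.mem_zpowers n)

/-- An element of `N(S)` fixing `t` and cycling the involutions `k, r, kr` of `S ∩ K`. -/
theorem exists_cycle [Finite G] : ∃ n ∈ Subgroup.normalizer (fourS t k r : Set G),
    n * t * n⁻¹ = t ∧ n * k * n⁻¹ = r ∧ n * r * n⁻¹ = k * r ∧ n * (k * r) * n⁻¹ = k := by
  have : Fact (Nat.Prime 2) := ⟨Nat.prime_two⟩
  obtain ⟨g, hgK, hg⟩ := h.conjK2 F.kK F.rK F.k2 F.r2
  set C := Subgroup.centralizer ({t} : Set G) with hC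
  have hmemC : ∀ {x}, x ∈ C ↔ Commute x t := fun {x} => Subgroup.mem_centralizer_singleton_iff
  have hle : fourS t k r ≤ C := fun x hx => hmemC.2 (mem_fourS.1 hx).1
  obtain ⟨P, hP⟩ := h.exists_sylow F
  have hPle : (P : Subgroup G) ≤ C := hP ▸ hle
  have hmemP : ∀ y : C, y ∈ (P.subtype hPle : Subgroup C) ↔ (y : G) ∈ fourS t k r := by
    intro y
    rw [Sylow.coe_subtype, Subgroup.mem_subgroupOf, hP]
  have hcent : ∀ y : C, (y : G) ∈ fourS t k r →
      y ∈ Subgroup.centralizer ((P.subtype hPle : Subgroup C) : Set C) := fun y hy => by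
    rw [Subgroup.mem_centralizer_iff]
    exact fun z hz => Subtype.ext (h.S_comm F ((hmemP z).1 hz) hy).eq
  obtain ⟨n, hn, hne⟩ := (P.subtype hPle).conj_eq_normalizer_conj_of_mem_centralizer
    (⟨k, hle (h.k_mem_S F)⟩ : C) (⟨g, hmemC.2 (h.comm g hgK)⟩ : C)⁻¹
    (hcent _ (h.k_mem_S F)) (hcent _ (by simpa [hg] using h.r_mem_S F))
  have hnN : (n : G) ∈ Subgroup.normalizer (fourS t k r : Set G) := by
    refine Subgroup.mem_normalizer_iff.2 fun y => ⟨fun hy => ?_, fun hy => ?_⟩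
    · exact (hmemP (n * ⟨y, hle hy⟩ * n⁻¹)).1
        ((Subgroup.mem_normalizer_iff.1 hn ⟨y, hle hy⟩).1 ((hmemP _).2 hy))
    · have hyC : y ∈ C := by
        have := C.mul_mem (C.mul_mem (C.inv_mem n.2) (hle hy)) n.2
        rwa [show (n : G)⁻¹ * (n * y * (n : G)⁻¹) * n = y by group] at this
      exact (hmemP ⟨y, hyC⟩).1 ((Subgroup.mem_normalizer_iff.1 hn ⟨y, hyC⟩).2 ((hmemP _).2 hy))
  set m : G := (n : G)⁻¹ with hm
  have hmN : m ∈ Subgroup.normalizer (fourS t k r : Set G) := inv_mem hnN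
  have hmC : Commute m t := (hmemC.1 n.2).inv_left
  have hmk : m * k * m⁻¹ = r := by
    have e := congrArg Subtype.val hne
    simp [hg] at e
    rw [hm, inv_inv]
    exact e.symm
  have hmt : m * t * m⁻¹ = t := by rw [hmC.eq, mul_inv_cancel_right]
  have hmr : m * r * m⁻¹ ∈ K := h.conj_mem hmC F.rK
  have hmrS : m * r * m⁻¹ ∈ fourS t k r :=
    (Subgroup.mem_normalizer_iff.1 hmN r).1 (h.r_mem_S F)
  obtain ⟨-, h1, h2⟩ := mem_fourS.1 hmrS
  have hmr' : m * r * m⁻¹ = k * r := by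
    rcases h.klein_K F hmr h1 h2 with e | e | e | e
    · exact absurd ((orderOf_conj' m r).trans F.r2) (by rw [e, orderOf_one]; decide)
    · exfalso
      have hmm : m * m ∈ fourS t k r := by
        refine mem_fourS.2 ⟨hmC.mul_left hmC, mul_inv_eq_iff_eq_mul.1 ?_,
          mul_inv_eq_iff_eq_mul.1 ?_⟩
        · calc m * m * k * (m * m)⁻¹ = m * (m * k * m⁻¹) * m⁻¹ := by group
            _ = k := by rw [hmk, e]
        · calc m * m * r * (m * m)⁻¹ = m * (m * r * m⁻¹) * m⁻¹ := by group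
            _ = r := by rw [e, hmk]
      have h4 := h.S_sq F hmm
      have hmS := h.mem_S_of_pow F hmN (a := 2) (by rw [← h4, show (2:ℕ)^2 = 2 + 2 from rfl, pow_add, pow_two])
      have hcomm := (mem_fourS.1 hmS).2.1
      rw [hcomm.eq, mul_inv_cancel_right] at hmk
      exact F.ne hmk.symm
    · exfalso
      exact F.ne (mul_left_cancel (mul_right_cancel (e.trans hmk.symm)))
    · exact e
  refine ⟨m, hmN, hmt, hmk, hmr', ?_⟩
  rw [conj_mul', hmk, hmr', F.kr.eq, ← mul_assoc, mul_self_of_orderOf F.r2, one_mul]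

theorem not_fixed [Finite G] :
    ∃ n ∈ Subgroup.normalizer (fourS t k r : Set G), n * t * n⁻¹ ≠ t := by
  by_contra hc
  push Not at hc
  have : Fact (Nat.Prime 2) := ⟨Nat.prime_two⟩
  obtain ⟨P, hP⟩ := h.exists_sylow F
  letI : CommGroup (fourS t k r) :=
    { mul_comm := fun a b => Subtype.ext (h.S_comm F a.2 b.2).eq }
  set φ : G →* fourS t k r := MonoidHom.transfer (MonoidHom.id _) with hφ
  have hkey : ∀ (i : ℕ) (g₀ : G), g₀⁻¹ * t ^ i * g₀ ∈ fourS t k r →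
      g₀⁻¹ * t ^ i * g₀ = t ^ i := by
    intro i g₀ hm
    rcases Nat.even_or_odd' i with ⟨j, rfl | rfl⟩
    · rw [pow_mul, pow_two, h.t_mul, one_pow, mul_one, inv_mul_cancel]
    · rw [pow_succ, pow_mul, pow_two, h.t_mul, one_pow, one_mul] at hm ⊢
      have hcent : ∀ y ∈ fourS t k r, y ∈ Subgroup.centralizer ((P : Subgroup G) : Set G) := by
        intro y hy
        rw [hP, Subgroup.mem_centralizer_iff]
        exact fun z hz => (h.S_comm F hz hy).eq
      obtain ⟨n, hn, e⟩ := P.conj_eq_normalizer_conj_of_mem_centralizer t g₀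
        (hcent _ (h.t_mem_S F)) (hcent _ hm)
      have hn' : n ∈ Subgroup.normalizer (fourS t k r : Set G) := by
        rw [← hP]; exact hn
      have := hc n⁻¹ (inv_mem hn')
      rw [inv_inv] at this
      rw [e, this]
  have hval : φ t = ⟨t, h.t_mem_S F⟩ := by
    rw [hφ, MonoidHom.transfer_eq_pow (MonoidHom.id _) t hkey]
    refine Subtype.ext ?_
    obtain ⟨j, hj⟩ := Nat.not_even_iff_odd.1 fun e => h.odd_index_S F (even_iff_two_dvd.1 e)
    show t ^ (fourS t k r).index = t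
    rw [hj, pow_succ, pow_mul, pow_two, h.t_mul, one_pow, one_mul]
  rcases h.simple.eq_bot_or_eq_top_of_normal φ.ker inferInstance with hb | hb
  · have hinj : Function.Injective φ := φ.ker_eq_bot_iff.1 hb
    exact h.nonab ⟨⟨fun a b => hinj (by rw [map_mul, map_mul, mul_comm])⟩⟩
  · have ht1 : φ t = 1 := MonoidHom.mem_ker.1 (hb ▸ Subgroup.mem_top t)
    exact h.t_ne (congrArg Subtype.val (hval.symm.trans ht1))

/-- `N(S)` is transitive on the involutions of `S`. -/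
theorem exists_conj_t [Finite G] {x : G} (hx : x ∈ fourS t k r) (hx1 : x ≠ 1) :
    ∃ n ∈ Subgroup.normalizer (fourS t k r : Set G), n * t * n⁻¹ = x := by
  classical
  set N := Subgroup.normalizer (fourS t k r : Set G) with hN
  letI : MulAction N G := MulAction.compHom G
    ((ConjAct.toConjAct (G := G)).toMonoidHom.comp N.subtype)
  have hsmul : ∀ (n : N) (y : G), n • y = (n : G) * y * (n : G)⁻¹ := fun n y => rfl
  set X : Set G := MulAction.orbit N t with hX
  have hXmem : ∀ y, y ∈ X ↔ ∃ n ∈ N, n * t * n⁻¹ = y := fun y =>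
    ⟨fun ⟨n, hn⟩ => ⟨n, n.2, hn⟩, fun ⟨n, hn, e⟩ => ⟨⟨n, hn⟩, e⟩⟩
  have hodd : ¬ 2 ∣ X.ncard := by
    rw [hX, ← MulAction.index_stabilizer]
    intro e
    have hle : (fourS t k r).subgroupOf N ≤ MulAction.stabilizer N t := fun n hn => by
      rw [MulAction.mem_stabilizer_iff, hsmul]
      rw [(mem_fourS.1 (Subgroup.mem_subgroupOf.1 hn)).1.eq, mul_inv_cancel_right]
    have hd : (MulAction.stabilizer N t).index ∣ (fourS t k r).index :=
      (Subgroup.index_dvd_of_le hle).trans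
        ⟨N.index, (Subgroup.relIndex_mul_index Subgroup.le_normalizer).symm⟩
    exact h.odd_index_S F (e.trans hd)
  obtain ⟨m, hmN, hmt, hmk, hmr, hmkr⟩ := h.exists_cycle F
  have hstep : ∀ {y}, y ∈ X → m * y * m⁻¹ ∈ X := by
    intro y hy
    obtain ⟨n, hn, rfl⟩ := (hXmem y).1 hy
    exact (hXmem _).2 ⟨m * n, mul_mem hmN hn, by group⟩
  have ht : t ∈ X := MulAction.mem_orbit_self t
  have hXS : ∀ y ∈ X, y ∈ fourS t k r ∧ y ≠ 1 := by
    intro y hy
    obtain ⟨n, hn, rfl⟩ := (hXmem y).1 hy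
    exact ⟨(Subgroup.mem_normalizer_iff.1 hn t).1 (h.t_mem_S F),
      fun e => h.t_ne (by simpa using e)⟩
  have hA1 : k ∈ X → r ∈ X := fun e => hmk ▸ hstep e
  have hA2 : r ∈ X → k * r ∈ X := fun e => hmr ▸ hstep e
  have hA3 : k * r ∈ X → k ∈ X := fun e => hmkr ▸ hstep e
  have hB : ∀ y, m * (t * y) * m⁻¹ = t * (m * y * m⁻¹) := fun y => by
    rw [conj_mul', hmt]
  have hB1 : t * k ∈ X → t * r ∈ X := fun e => by
    have := hstep e; rwa [hB, hmk] at this
  have hB2 : t * r ∈ X → t * (k * r) ∈ X := fun e => by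
    have := hstep e; rwa [hB, hmr] at this
  have hB3 : t * (k * r) ∈ X → t * k ∈ X := fun e => by
    have := hstep e; rwa [hB, hmkr] at this
  have hkr1 : k * r ≠ 1 := fun e => F.ne
    ((inv_eq_of_mul_eq_one_right e).symm.trans (inv_eq_of_mul_eq_one_right (mul_self_of_orderOf F.k2)))
  have hkk : k ≠ k * r := fun e => ne_one_of_orderOf F.r2 (mul_left_cancel (a := k) (by rw [mul_one, ← e]))
  have hrk : r ≠ k * r := fun e => ne_one_of_orderOf F.k2 (mul_right_cancel (b := r) (by rw [one_mul, ← e]))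
  have htK : ∀ y ∈ K, t ≠ y := fun y hy e => h.tK (e ▸ hy)
  have htt : ∀ y, y ≠ 1 → t ≠ t * y := fun y hy e => hy (mul_left_cancel (a := t) (by rw [mul_one, ← e]))
  have h4A : X ≠ {t, k, r, k * r} := by
    intro e
    apply hodd
    rw [e, Set.ncard_insert_of_notMem, Set.ncard_insert_of_notMem, Set.ncard_pair hrk]
    · norm_num
    · simp [F.ne.symm, hkk]
    · simp [htK k F.kK, htK r F.rK, htK _ (K.mul_mem F.kK F.rK)]
  have h4B : X ≠ {t, t * k, t * r, t * (k * r)} := by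
    intro e
    apply hodd
    rw [e, Set.ncard_insert_of_notMem, Set.ncard_insert_of_notMem,
      Set.ncard_pair (fun e' => hrk (mul_left_cancel e'))]
    · norm_num
    · simp [F.ne.symm, hkk]
    · simp [htt k (ne_one_of_orderOf F.k2), htt r (ne_one_of_orderOf F.r2), htt _ hkr1]
  obtain ⟨n₁, hn₁, hne⟩ := h.not_fixed F
  have hy : n₁ * t * n₁⁻¹ ∈ X := (hXmem _).2 ⟨n₁, hn₁, rfl⟩
  rw [← hXmem]
  by_cases hkX : k ∈ X
  · by_cases htkX : t * k ∈ X
    · rcases h.mem_S_cases F hx with e | e | e | e | e | e | e | e <;> subst e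
      · exact absurd rfl hx1
      · exact hkX
      · exact hA1 hkX
      · exact hA2 (hA1 hkX)
      · exact ht
      · exact htkX
      · exact hB1 htkX
      · exact hB2 (hB1 htkX)
    · refine absurd ?_ h4A
      refine Set.ext fun y => ⟨fun hyX => ?_, ?_⟩
      · obtain ⟨hyS, hy1⟩ := hXS y hyX
        rcases h.mem_S_cases F hyS with e | e | e | e | e | e | e | e <;> subst e <;>
          first
          | (simp; done)
          | exact absurd rfl hy1
          | exact absurd hyX htkX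
          | exact absurd (hB3 (hB2 hyX)) htkX
          | exact absurd (hB3 hyX) htkX
      · rintro (rfl | rfl | rfl | rfl)
        exacts [ht, hkX, hA1 hkX, hA2 (hA1 hkX)]
  · have htkX : t * k ∈ X := by
      obtain ⟨hyS, hy1⟩ := hXS _ hy
      rcases h.mem_S_cases F hyS with e | e | e | e | e | e | e | e <;> rw [e] at hy hne hy1
      · exact absurd rfl hy1
      · exact absurd hy hkX
      · exact absurd (hA3 (hA2 hy)) hkX
      · exact absurd (hA3 hy) hkX
      · exact absurd rfl hne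
      · exact hy
      · exact hB3 (hB2 hy)
      · exact hB3 hy
    refine absurd ?_ h4B
    refine Set.ext fun y => ⟨fun hyX => ?_, ?_⟩
    · obtain ⟨hyS, hy1⟩ := hXS y hyX
      rcases h.mem_S_cases F hyS with e | e | e | e | e | e | e | e <;> subst e <;>
        first
        | (simp; done)
        | exact absurd rfl hy1
        | exact absurd hyX hkX
        | exact absurd (hA3 (hA2 hyX)) hkX
        | exact absurd (hA3 hyX) hkX
    · rintro (rfl | rfl | rfl | rfl)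
      exacts [ht, htkX, hB1 htkX, hB2 (hB1 htkX)]

omit F in
/-- One class of involutions. -/
theorem isConj_involution [Finite G] {x : G} (hx : orderOf x = 2) : IsConj t x := by
  obtain ⟨k, r, F⟩ := h.exists_frame
  obtain ⟨g, hg⟩ := h.exists_conj_mem_S F (x := x)
    (IsPGroup.of_card (n := 1) (by rw [Nat.card_zpowers, hx, pow_one]))
  have hne : g * x * g⁻¹ ≠ 1 := fun e => ne_one_of_orderOf ((orderOf_conj' g x).trans hx) e
  obtain ⟨n, -, hn⟩ := h.exists_conj_t F hg hne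
  refine isConj_iff.2 ⟨g⁻¹ * n, ?_⟩
  calc g⁻¹ * n * t * (g⁻¹ * n)⁻¹ = g⁻¹ * (n * t * n⁻¹) * g := by group
    _ = x := by rw [hn]; group

omit F in
/-- An element of `3`-power order of `N(S)` cycling the involutions of a four group through `t`. -/
theorem exists_local [Finite G] : ∃ k r v f, Frame K k r ∧ (v = k ∨ v = t * k) ∧
    f ∈ Subgroup.normalizer (fourS t k r : Set G) ∧ (∃ a, f ^ (3 ^ a) = 1) ∧
    f * t * f⁻¹ = v ∧ f * v * f⁻¹ = t * v := by
  obtain ⟨k₀, r₀, F⟩ := h.exists_frame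
  obtain ⟨m, hmN, -, hmk, hmr, hmkr⟩ := h.exists_cycle F
  obtain ⟨g, hgN, hg⟩ := h.exists_conj_t F (h.k_mem_S F) (ne_one_of_orderOf F.k2)
  set f₀ : G := g⁻¹ * m * g with hf₀
  set v₀ : G := g⁻¹ * r₀ * g with hv₀
  have hgk : g⁻¹ * k₀ * g = t := by rw [← hg]; group
  have hf₀t : f₀ * t * f₀⁻¹ = v₀ := by
    rw [hf₀, hv₀]
    calc g⁻¹ * m * g * t * (g⁻¹ * m * g)⁻¹ = g⁻¹ * (m * (g * t * g⁻¹) * m⁻¹) * g := by group
      _ = g⁻¹ * r₀ * g := by rw [hg, hmk]
  have hf₀v : f₀ * v₀ * f₀⁻¹ = t * v₀ := by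
    rw [hf₀, hv₀]
    calc g⁻¹ * m * g * (g⁻¹ * r₀ * g) * (g⁻¹ * m * g)⁻¹ = g⁻¹ * (m * r₀ * m⁻¹) * g := by group
      _ = g⁻¹ * k₀ * g * (g⁻¹ * r₀ * g) := by rw [hmr]; group
      _ = t * (g⁻¹ * r₀ * g) := by rw [hgk]
  have hf₀N : f₀ ∈ Subgroup.normalizer (fourS t k₀ r₀ : Set G) :=
    mul_mem (mul_mem (inv_mem hgN) hmN) hgN
  have hv₀S : v₀ ∈ fourS t k₀ r₀ := by
    rw [← hf₀t]; exact (Subgroup.mem_normalizer_iff.1 hf₀N t).1 (h.t_mem_S F)
  have hv₀1 : v₀ ≠ 1 := fun e => h.t_ne (by rw [e] at hf₀t; simpa using hf₀t)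
  have hv₀t : v₀ ≠ t := fun e => by
    rw [e] at hf₀v hf₀t
    rw [h.t_mul, hf₀t] at hf₀v
    exact h.t_ne hf₀v
  -- pass to a power of `3`-power order
  obtain ⟨a, c, hc, hac⟩ := Nat.exists_eq_pow_mul_and_not_dvd (orderOf_pos f₀).ne' 3 (by decide)
  have htv : f₀ * (t * v₀) * f₀⁻¹ = t := by
    rw [conj_mul', hf₀t, hf₀v, ← mul_assoc, (h.S_comm F hv₀S (h.t_mem_S F)).eq, mul_assoc,
      h.S_sq F hv₀S, mul_one]
  have h3 : ∀ (j : ℕ) (y : G), (y = t ∨ y = v₀) →
      f₀ ^ (3 * j) * y * (f₀ ^ (3 * j))⁻¹ = y := by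
    intro j y hy
    induction j with
    | zero => simp
    | succ j ih =>
      rw [Nat.mul_succ, pow_add]
      calc f₀ ^ (3 * j) * f₀ ^ 3 * y * (f₀ ^ (3 * j) * f₀ ^ 3)⁻¹
          = f₀ ^ (3 * j) * (f₀ * (f₀ * (f₀ * y * f₀⁻¹) * f₀⁻¹) * f₀⁻¹) * (f₀ ^ (3 * j))⁻¹ := by
            group
        _ = y := by
          rcases hy with rfl | rfl
          · rw [hf₀t, hf₀v, htv, ih]
          · rw [hf₀v, htv, hf₀t, ih]
  obtain ⟨v, f, hfN, hfa, hft, hfv, hvS, hv1, hvt⟩ : ∃ v f,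
      f ∈ Subgroup.normalizer (fourS t k₀ r₀ : Set G) ∧ (∃ a, f ^ (3 ^ a) = 1) ∧
      f * t * f⁻¹ = v ∧ f * v * f⁻¹ = t * v ∧ v ∈ fourS t k₀ r₀ ∧ v ≠ 1 ∧ v ≠ t := by
    have hpw : (f₀ ^ c) ^ (3 ^ a) = 1 := by
      rw [← pow_mul, mul_comm, ← hac, pow_orderOf_eq_one]
    obtain ⟨j, rfl | rfl⟩ : ∃ j, c = 3 * j + 1 ∨ c = 3 * j + 2 :=
      ⟨c / 3, by omega⟩
    · refine ⟨v₀, f₀ ^ (3 * j + 1), pow_mem hf₀N _, ⟨a, hpw⟩, ?_, ?_, hv₀S, hv₀1, hv₀t⟩
      · rw [add_comm, pow_add, pow_one]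
        calc f₀ * f₀ ^ (3 * j) * t * (f₀ * f₀ ^ (3 * j))⁻¹
            = f₀ * (f₀ ^ (3 * j) * t * (f₀ ^ (3 * j))⁻¹) * f₀⁻¹ := by group
          _ = v₀ := by rw [h3 j t (Or.inl rfl), hf₀t]
      · rw [add_comm, pow_add, pow_one]
        calc f₀ * f₀ ^ (3 * j) * v₀ * (f₀ * f₀ ^ (3 * j))⁻¹
            = f₀ * (f₀ ^ (3 * j) * v₀ * (f₀ ^ (3 * j))⁻¹) * f₀⁻¹ := by group
          _ = t * v₀ := by rw [h3 j v₀ (Or.inr rfl), hf₀v]
    · refine ⟨t * v₀, f₀ ^ (3 * j + 2), pow_mem hf₀N _, ⟨a, hpw⟩, ?_, ?_,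
        mul_mem (h.t_mem_S F) hv₀S, fun e => hv₀t ?_, fun e => hv₀1 ?_⟩
      · rw [add_comm, pow_add, pow_two]
        calc f₀ * f₀ * f₀ ^ (3 * j) * t * (f₀ * f₀ * f₀ ^ (3 * j))⁻¹
            = f₀ * (f₀ * (f₀ ^ (3 * j) * t * (f₀ ^ (3 * j))⁻¹) * f₀⁻¹) * f₀⁻¹ := by group
          _ = t * v₀ := by rw [h3 j t (Or.inl rfl), hf₀t, hf₀v]
      · rw [add_comm, pow_add, pow_two, conj_mul', ]
        have e1 : f₀ * f₀ * f₀ ^ (3 * j) * t * (f₀ * f₀ * f₀ ^ (3 * j))⁻¹ = t * v₀ := by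
          calc f₀ * f₀ * f₀ ^ (3 * j) * t * (f₀ * f₀ * f₀ ^ (3 * j))⁻¹
              = f₀ * (f₀ * (f₀ ^ (3 * j) * t * (f₀ ^ (3 * j))⁻¹) * f₀⁻¹) * f₀⁻¹ := by group
            _ = t * v₀ := by rw [h3 j t (Or.inl rfl), hf₀t, hf₀v]
        have e2 : f₀ * f₀ * f₀ ^ (3 * j) * v₀ * (f₀ * f₀ * f₀ ^ (3 * j))⁻¹ = t := by
          calc f₀ * f₀ * f₀ ^ (3 * j) * v₀ * (f₀ * f₀ * f₀ ^ (3 * j))⁻¹
              = f₀ * (f₀ * (f₀ ^ (3 * j) * v₀ * (f₀ ^ (3 * j))⁻¹) * f₀⁻¹) * f₀⁻¹ := by group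
            _ = t := by rw [h3 j v₀ (Or.inr rfl), hf₀v, htv]
        rw [e1, e2, (h.S_comm F (mul_mem (h.t_mem_S F) hv₀S) (h.t_mem_S F)).eq]
      · rw [← h.t_inv]; exact (inv_eq_of_mul_eq_one_right e).symm
      · exact mul_left_cancel (a := t) (by rw [e, mul_one])
  -- the frame through the `K`-component of `v`
  obtain ⟨k, hkS, hkK, hk1, hvk⟩ : ∃ k ∈ fourS t k₀ r₀, k ∈ K ∧ k ≠ 1 ∧ (v = k ∨ v = t * k) := by
    rcases h.decomp v (mem_fourS.1 hvS).1 with hK | hK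
    · exact ⟨v, hvS, hK, hv1, Or.inl rfl⟩
    · refine ⟨t * v, mul_mem (h.t_mem_S F) hvS, hK, fun e => hvt ?_,
        Or.inr (by rw [← mul_assoc, h.t_mul, one_mul])⟩
      rw [← h.t_inv]; exact (inv_eq_of_mul_eq_one_right e).symm
  obtain ⟨r, hrS, hrK, hr1, hrk⟩ : ∃ r ∈ fourS t k₀ r₀, r ∈ K ∧ r ≠ 1 ∧ r ≠ k := by
    by_cases e : k = k₀
    · exact ⟨r₀, h.r_mem_S F, F.rK, ne_one_of_orderOf F.r2, fun e' => F.ne (e'.trans e)⟩
    · exact ⟨k₀, h.k_mem_S F, F.kK, ne_one_of_orderOf F.k2, fun e' => e e'.symm⟩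
  have F' : Frame K k r := ⟨hkK, orderOf_eq_prime (by rw [pow_two, h.S_sq F hkS]) hk1, hrK,
    orderOf_eq_prime (by rw [pow_two, h.S_sq F hrS]) hr1, h.S_comm F hkS hrS, hrk⟩
  have hS : fourS t k r = fourS t k₀ r₀ := by
    refine (Subgroup.eq_of_le_of_card_ge (fun x hx => ?_) ?_).symm
    · exact mem_fourS.2 ⟨h.S_comm F hx (h.t_mem_S F), h.S_comm F hx hkS, h.S_comm F hx hrS⟩
    · rw [h.card_S F, h.card_S F']
  exact ⟨k, r, v, f, F', hvk, hS ▸ hfN, hfa, hft, hfv⟩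

end Setup

end CfsgLib.ReeSThree
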