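import Cfsg.Agent.ReeSThree.Fusion

/-!
# Groups of Ree type: the centraliser and normaliser of a four group
-/

set_option autoImplicit false

namespace CfsgLib.ReeSThree

universe u

variable {G : Type u} [Group G]

/-- The local structure: `V = {1, t, v, tv}`, `C(V) = A ∪ zA`, `A = V × R`, `f` of order `3`. -/
structure Loc (t : G) (K : Subgroup G) (q : ℕ) (R A : Subgroup G) (v z f : G) : Prop where
  setup : Setup G t K q
  v2 : v * v = 1
  v1 : v ≠ 1
  vt : v ≠ t
  tv : Commute t v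
  z2 : z * z = 1
  zt : Commute z t
  zv : Commute z v
  zA : z ∉ A
  zR : ∀ b ∈ R, z * b * z⁻¹ = b⁻¹
  f3 : f ^ 3 = 1
  ft : f * t * f⁻¹ = v
  fv : f * v * f⁻¹ = t * v
  fz : f * z * f⁻¹ = z
  fR : ∀ b ∈ R, f * b * f⁻¹ ∈ R
  card_R : 4 * Nat.card R = q + 1
  R_comm : ∀ a ∈ R, ∀ b ∈ R, Commute a b
  R_cent : ∀ b ∈ R, Commute b t ∧ Commute b v
  mem_A : ∀ x, x ∈ A ↔ ∃ b ∈ R, x = b ∨ x = t * b ∨ x = v * b ∨ x = t * v * b
  centV : ∀ x, Commute x t → Commute x v → x ∈ A ∨ z * x ∈ A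
  cent : ∀ x b, b ∈ R → b ≠ 1 → ∀ e, (e = t ∨ e = v ∨ e = t * v) →
    Commute x e → Commute x b → x ∈ A

theorem Setup.exists_loc [Finite G] {t : G} {K : Subgroup G} {q : ℕ} (h : Setup G t K q) :
    ∃ R A v z f, Loc t K q R A v z f := by
  obtain ⟨k, r, v, f, F, hvk, hfN, ⟨a, hfa⟩, hft, hfv⟩ := h.exists_local
  obtain ⟨m, hq, hmodd, h3m⟩ : ∃ m, q + 1 = 4 * m ∧ Odd m ∧ ¬ 3 ∣ m := by
    obtain ⟨i, hi⟩ : ∃ i, q = 8 * i + 3 := ⟨q / 8, by have := h.facts.mod_eight; omega⟩
    refine ⟨2 * i + 1, by omega, ⟨i, rfl⟩, ?_⟩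
    have := h.three_dvd_q
    omega
  have hm7 : 7 ≤ m := by have := h.facts.big; omega
  have hS : ∀ {x}, x ∈ fourS t k r ↔ Commute x t ∧ Commute x k ∧ Commute x r := mem_fourS
  have hfS : ∀ {x}, x ∈ fourS t k r → f * x * f⁻¹ ∈ fourS t k r := fun {x} hx =>
    (Subgroup.mem_normalizer_iff.1 hfN x).1 hx
  have hvS : v ∈ fourS t k r := hft ▸ hfS (h.t_mem_S F)
  have hk2 := mul_self_of_orderOf F.k2
  have hr2 := mul_self_of_orderOf F.r2
  have hv1 : v ≠ 1 := fun e => h.t_ne (by rw [e] at hft; simpa using hft)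
  have hvt : v ≠ t := fun e => by
    rw [e] at hfv hft
    rw [h.t_mul, hft] at hfv
    exact h.t_ne hfv
  have hv2 : v * v = 1 := h.S_sq F hvS
  have htv : Commute t v := h.S_comm F (h.t_mem_S F) hvS
  obtain ⟨hC, T, hTK, hkT, hT, hTc, hTab, hout⟩ := h.dihK F.kK F.k2
  rw [hq] at hT
  have hTcard : Nat.card T = 2 * m := by omega
  have hTpow : ∀ y ∈ T, y ^ (2 * m) = 1 := fun y hy => by
    have := congrArg Subtype.val (pow_card_eq_one' (x := (⟨y, hy⟩ : T)))
    rwa [hTcard, SubmonoidClass.coe_pow, OneMemClass.coe_one] at this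
  have huniq : ∀ y ∈ T, y * y = 1 → y = 1 ∨ y = k := by
    intro y hy hy2
    by_contra hc
    push Not at hc
    have hy' : orderOf y = 2 := orderOf_eq_prime (by rw [pow_two, hy2]) hc.1
    let W := SL2.vFour k y hk2 hy2 (hTc y hy).symm
    have hW := SL2.isKleinFour_vFour F.k2 hy' (hTc y hy).symm (Ne.symm hc.2)
    have hle : W ≤ T := by
      rintro x (rfl | rfl | rfl | rfl)
      · exact T.one_mem
      · exact hkT
      · exact hy
      · exact T.mul_mem hkT hy
    have hd := Subgroup.card_dvd_of_le hle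
    rw [show Nat.card W = 4 from hW.card_four, hTcard] at hd
    obtain ⟨j, hj⟩ := hmodd
    omega
  let R : Subgroup G :=
    { carrier := {y | y ∈ T ∧ y ^ m = 1}
      one_mem' := ⟨T.one_mem, one_pow _⟩
      mul_mem' := fun {a b} ha hb => ⟨T.mul_mem ha.1 hb.1, by
        rw [(hTab a ha.1 b hb.1).mul_pow, ha.2, hb.2, one_mul]⟩
      inv_mem' := fun {a} ha => ⟨T.inv_mem ha.1, by rw [inv_pow, ha.2, inv_one]⟩ }
  have hkm : k ^ m = k := by
    obtain ⟨j, hj⟩ := hmodd
    rw [hj, pow_succ, pow_mul, pow_two, hk2, one_pow, one_mul]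
  have htm : t ^ m = t := by
    obtain ⟨j, hj⟩ := hmodd
    rw [hj, pow_succ, pow_mul, pow_two, h.t_mul, one_pow, one_mul]
  have hTsplit : ∀ y ∈ T, y ∈ R ∨ k * y ∈ R := by
    intro y hy
    rcases huniq (y ^ m) (T.pow_mem hy m) (by rw [← pow_add, ← two_mul, hTpow y hy]) with e | e
    · exact Or.inl ⟨hy, e⟩
    · exact Or.inr ⟨T.mul_mem hkT hy, by rw [(hTc y hy).symm.mul_pow, e, hkm, hk2]⟩
  have hRT : ∀ {b}, b ∈ R → b ∈ T := fun hb => hb.1
  have hRt : ∀ {b}, b ∈ R → Commute b t := fun hb => h.comm _ (hTK hb.1)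
  have hRk : ∀ {b}, b ∈ R → Commute b k := fun hb => hTc _ hb.1
  have hRv : ∀ {b}, b ∈ R → Commute b v := fun {b} hb => by
    rcases hvk with e | e <;> rw [e]
    · exact hRk hb
    · exact (hRt hb).mul_right (hRk hb)
  have hcardR : 2 * Nat.card R = Nat.card T := by
    rw [show 2 * Nat.card R = Nat.card (Bool × R) by
      rw [Nat.card_prod, Nat.card_eq_fintype_card (α := Bool), Fintype.card_bool]]
    refine Nat.card_eq_of_bijective
      (fun p => (⟨(if p.1 then k else 1) * (p.2 : G), T.mul_mem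
        (by cases p.1 <;> simp [hkT]) (hRT p.2.2)⟩ : T)) ⟨?_, ?_⟩
    · rintro ⟨b, x, hx⟩ ⟨b', y, hy⟩ e
      have e' : (if b then k else 1) * x = (if b' then k else 1) * y := congrArg Subtype.val e
      have hkR : k ∉ R := fun hh => ne_one_of_orderOf F.k2 (hkm ▸ hh.2)
      cases b <;> cases b' <;> simp at e'
      · subst e'; rfl
      · exfalso
        have := R.mul_mem hx (R.inv_mem hy)
        rw [e', mul_inv_cancel_right] at this
        exact hkR this
      · exfalso
        have := R.mul_mem hy (R.inv_mem hx)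
        rw [← e', mul_inv_cancel_right] at this
        exact hkR this
      · subst e'; rfl
    · rintro ⟨y, hy⟩
      rcases hTsplit y hy with hh | hh
      · exact ⟨(false, ⟨y, hh⟩), Subtype.ext (by simp)⟩
      · exact ⟨(true, ⟨k * y, hh⟩), Subtype.ext (by simp [← mul_assoc, hk2])⟩
  let A : Subgroup G :=
    { carrier := {x | x ∈ T ∨ t * x ∈ T}
      one_mem' := Or.inl T.one_mem
      mul_mem' := by
        rintro x y (hx | hx) (hy | hy)
        · exact Or.inl (T.mul_mem hx hy)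
        · exact Or.inr (by rw [← mul_assoc, ← (h.comm x (hTK hx)).eq, mul_assoc]; exact T.mul_mem hx hy)
        · exact Or.inr (by rw [← mul_assoc]; exact T.mul_mem hx hy)
        · refine Or.inl ?_
          have hc : Commute x t := h.comm_mul (hTK hx)
          have e : x * y = t * x * (t * y) := by
            rw [← hc.eq, mul_assoc, ← mul_assoc t t y, h.t_mul, one_mul]
          rw [e]
          exact T.mul_mem hx hy
      inv_mem' := by
        rintro x (hx | hx)
        · exact Or.inl (T.inv_mem hx)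
        · refine Or.inr ?_
          have hc : Commute x t := h.comm_mul (hTK hx)
          have e : t * x⁻¹ = (t * x)⁻¹ := by
            rw [mul_inv_rev, h.t_inv, hc.inv_left.eq]
          rw [e]
          exact T.inv_mem hx }
  have hA : ∀ x, x ∈ A ↔ ∃ b ∈ R, x = b ∨ x = t * b ∨ x = v * b ∨ x = t * v * b := by
    intro x
    constructor
    · rintro (hx | hx)
      · rcases hTsplit x hx with hh | hh
        · exact ⟨x, hh, Or.inl rfl⟩
        · refine ⟨k * x, hh, ?_⟩
          rcases hvk with e | e <;> rw [e]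
          · exact Or.inr (Or.inr (Or.inl (by rw [← mul_assoc, hk2, one_mul])))
          · exact Or.inr (Or.inr (Or.inr (by
              simp [← mul_assoc, h.t_mul, hk2])))
      · have e0 : x = t * (t * x) := by rw [← mul_assoc, h.t_mul, one_mul]
        rcases hTsplit _ hx with hh | hh
        · exact ⟨t * x, hh, Or.inr (Or.inl e0)⟩
        · refine ⟨k * (t * x), hh, ?_⟩
          rcases hvk with e | e <;> rw [e]
          · refine Or.inr (Or.inr (Or.inr ?_))
            rw [mul_assoc t k, ← mul_assoc k k, hk2, one_mul, ← mul_assoc, h.t_mul, one_mul]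
          · refine Or.inr (Or.inr (Or.inl ?_))
            rw [mul_assoc t k, ← mul_assoc k k, hk2, one_mul, ← mul_assoc, h.t_mul, one_mul]
    · rintro ⟨b, hb, rfl | rfl | rfl | rfl⟩
      · exact Or.inl (hRT hb)
      · exact Or.inr (by rw [← mul_assoc, h.t_mul, one_mul]; exact hRT hb)
      · rcases hvk with e | e <;> rw [e]
        · exact Or.inl (T.mul_mem hkT (hRT hb))
        · exact Or.inr (by rw [← mul_assoc, ← mul_assoc, h.t_mul, one_mul]; exact T.mul_mem hkT (hRT hb))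
      · rcases hvk with e | e <;> rw [e]
        · exact Or.inr (by rw [← mul_assoc, ← mul_assoc, h.t_mul, one_mul]; exact T.mul_mem hkT (hRT hb))
        · exact Or.inl (by rw [← mul_assoc, h.t_mul, one_mul]; exact T.mul_mem hkT (hRT hb))
  have hcomk : ∀ {x}, Commute x t → Commute x v → Commute x k := by
    intro x hxt hxv
    rcases hvk with e | e <;> rw [e] at hxv
    · exact hxv
    · have := hxt.mul_right hxv
      rwa [← mul_assoc, h.t_mul, one_mul] at this
  have hRmem : ∀ b, b ∈ R ↔ Commute b t ∧ Commute b v ∧ b ^ m = 1 := by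
    refine fun b => ⟨fun hb => ⟨hRt hb, hRv hb, hb.2⟩, ?_⟩
    rintro ⟨hbt, hbv, hbm⟩
    have hbk := hcomk hbt hbv
    have hbK : b ∈ K := by
      refine (h.decomp b hbt).resolve_right fun hh => h.tK ?_
      have := K.pow_mem hh m
      rwa [hbt.symm.mul_pow, hbm, htm, mul_one] at this
    refine ⟨?_, hbm⟩
    by_contra hbT
    obtain ⟨hb2, -⟩ := hout b hbK hbk hbT
    obtain ⟨j, hj⟩ := hmodd
    rw [hj, pow_succ, pow_mul, pow_two, hb2, one_pow, one_mul] at hbm
    exact hbT (hbm ▸ T.one_mem)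
  -- the fixed point `z` of `f` outside `V`
  have hrT : r ∉ T := fun e => by
    rcases huniq r e hr2 with e' | e'
    · exact ne_one_of_orderOf F.r2 e'
    · exact F.ne e'
  have hrA : r ∉ A := by
    rintro (e | e)
    · exact hrT e
    · exact h.not_both F.rK (hTK e)
  have htA : t ∈ A := Or.inr (by rw [h.t_mul]; exact T.one_mem)
  have hvA : v ∈ A := (hA v).2 ⟨1, R.one_mem, Or.inr (Or.inr (Or.inl (mul_one v).symm))⟩
  have hftv : f * (t * v) * f⁻¹ = t := by
    rw [conj_mul', hft, hfv, ← mul_assoc, ← htv.eq, mul_assoc, hv2, mul_one]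
  obtain ⟨z, hzS, hzA, hfz⟩ : ∃ z ∈ fourS t k r, z ∉ A ∧ f * z * f⁻¹ = z := by
    have hcases : ∀ x ∈ fourS t k r, x ∈ A → x = 1 ∨ x = t ∨ x = v ∨ x = t * v := by
      intro x hx hxA
      obtain ⟨b, hb, e⟩ := (hA x).1 hxA
      have hbS : b ∈ fourS t k r := by
        rcases e with e | e | e | e
        · exact e ▸ hx
        · rw [show b = t * x by rw [e, ← mul_assoc, h.t_mul, one_mul]]
          exact mul_mem (h.t_mem_S F) hx
        · rw [show b = v * x by rw [e, ← mul_assoc, hv2, one_mul]]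
          exact mul_mem hvS hx
        · rw [show b = (t * v)⁻¹ * x by rw [e, inv_mul_cancel_left]]
          exact mul_mem (inv_mem (mul_mem (h.t_mem_S F) hvS)) hx
      have hb1 : b = 1 := by
        have h2 : b * b = 1 := h.S_sq F hbS
        obtain ⟨j, hj⟩ := hmodd
        have := hb.2
        rwa [hj, pow_succ, pow_mul, pow_two, h2, one_pow, one_mul] at this
      simpa [hb1] using e
    have hS2 := fun x (hx : x ∈ fourS t k r) => h.S_sq F hx
    -- the image of `r` differs from `r` by an element of `V`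
    have hrS := h.r_mem_S F
    set w : G := r * (f * r * f⁻¹) with hw
    have hwS : w ∈ fourS t k r := mul_mem hrS (hfS hrS)
    have hfr : f * r * f⁻¹ = r * w := by rw [hw, ← mul_assoc, hr2, one_mul]
    have hwA : w ∈ A := by
      -- otherwise `f r f⁻¹ ∈ V`, hence `r ∈ V`
      by_contra hc
      have hex : ∀ x ∈ fourS t k r, x ∈ A ∨ r * x ∈ A := by
        intro x hx
        obtain ⟨hxt, hxk, hxr⟩ := hS.1 hx
        rcases h.mem_S_cases F hx with e | e | e | e | e | e | e | e <;> subst e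
        · exact Or.inl A.one_mem
        · exact Or.inl (Or.inl hkT)
        · exact Or.inr (by rw [hr2]; exact A.one_mem)
        · exact Or.inr (Or.inl (by rw [F.kr.eq, ← mul_assoc, hr2, one_mul]; exact hkT))
        · exact Or.inl htA
        · exact Or.inl (A.mul_mem htA (Or.inl hkT))
        · exact Or.inr (by rw [(h.tr' F).eq, ← mul_assoc, hr2, one_mul]; exact htA)
        · refine Or.inr ?_
          rw [← mul_assoc, ← (h.tr' F).eq, mul_assoc, F.kr.eq, ← mul_assoc r r, hr2, one_mul]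
          exact A.mul_mem htA (Or.inl hkT)
      have hfrA : f * r * f⁻¹ ∈ A := by
        rw [hfr]
        exact (hex w hwS).resolve_left hc
      refine hrA ?_
      have hinj : ∀ y, f * r * f⁻¹ = f * y * f⁻¹ → r = y := fun y e =>
        mul_left_cancel (mul_right_cancel e)
      rcases hcases _ (hfS hrS) hfrA with e | e | e | e
      · rw [show r = 1 from hinj 1 (by simpa using e)]; exact A.one_mem
      · rw [hinj (t * v) (e.trans hftv.symm)]; exact A.mul_mem htA hvA
      · rw [hinj t (e.trans hft.symm)]; exact htA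
      · rw [hinj v (e.trans hfv.symm)]; exact hvA
    have hsol : ∃ u, (u = 1 ∨ u = t ∨ u = v ∨ u = t * v) ∧ w * (f * u * f⁻¹) = u := by
      rcases hcases w hwS hwA with e | e | e | e <;> rw [e]
      · exact ⟨1, Or.inl rfl, by simp⟩
      · exact ⟨v, Or.inr (Or.inr (Or.inl rfl)), by rw [hfv, ← mul_assoc, h.t_mul, one_mul]⟩
      · exact ⟨t * v, Or.inr (Or.inr (Or.inr rfl)), by rw [hftv, htv.eq]⟩
      · exact ⟨t, Or.inr (Or.inl rfl), by rw [hft, mul_assoc, hv2, mul_one]⟩
    obtain ⟨u, hu, hwu⟩ := hsol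
    have huA : u ∈ A ∧ u ∈ fourS t k r := by
      rcases hu with rfl | rfl | rfl | rfl
      · exact ⟨A.one_mem, one_mem _⟩
      · exact ⟨htA, h.t_mem_S F⟩
      · exact ⟨hvA, hvS⟩
      · exact ⟨A.mul_mem htA hvA, mul_mem (h.t_mem_S F) hvS⟩
    refine ⟨r * u, mul_mem hrS huA.2, fun hc => hrA ?_, ?_⟩
    · simpa using A.mul_mem hc (A.inv_mem huA.1)
    · rw [conj_mul', hfr, mul_assoc, hwu]
  obtain ⟨hzt, hzk, hzr⟩ := hS.1 hzS
  have hz2 := h.S_sq F hzS
  have hzv : Commute z v := h.S_comm F hzS hvS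
  -- the component of an element of `C(V)` in `K`
  have hcomp : ∀ x, Commute x t → Commute x k → x ∈ A ∨ ∀ y ∈ T, x * y * x⁻¹ = y⁻¹ := by
    intro x hxt hxk
    rcases h.decomp x hxt with hK | hK
    · by_cases hT' : x ∈ T
      · exact Or.inl (Or.inl hT')
      · exact Or.inr (hout x hK hxk hT').2
    · by_cases hT' : t * x ∈ T
      · exact Or.inl (Or.inr hT')
      · refine Or.inr fun y hy => ?_
        have := (hout _ hK ((h.tk F).mul_left hxk) hT').2 y hy
        have hc : Commute (x * y * x⁻¹) t :=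
          (hxt.mul_left (h.comm y (hTK hy))).mul_left hxt.inv_left
        calc x * y * x⁻¹ = t * (x * y * x⁻¹) * t⁻¹ := by rw [← hc.eq, mul_inv_cancel_right]
          _ = t * x * y * (t * x)⁻¹ := by group
          _ = y⁻¹ := this
  have hzT : ∀ y ∈ T, z * y * z⁻¹ = y⁻¹ := (hcomp z hzt hzk).resolve_left hzA
  have hTne : ∃ y ∈ T, y * y ≠ 1 := by
    by_contra hc
    push Not at hc
    have hle : T ≤ Subgroup.zpowers k := fun y hy => by
      rcases huniq y hy (hc y hy) with rfl | rfl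
      · exact one_mem _
      · exact Subgroup.mem_zpowers _
    have := Subgroup.card_le_of_le hle
    rw [Nat.card_zpowers, F.k2] at this
    omega
  have hcentV : ∀ x, Commute x t → Commute x v → x ∈ A ∨ z * x ∈ A := by
    intro x hxt hxv
    rcases hcomp x hxt (hcomk hxt hxv) with hx | hx
    · exact Or.inl hx
    · refine Or.inr ?_
      rcases hcomp (z * x) (hzt.mul_left hxt) (hzk.mul_left (hcomk hxt hxv)) with hh | hh
      · exact hh
      · exfalso
        obtain ⟨y, hy, hy2⟩ := hTne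
        apply hy2
        have e1 := hh y hy
        have e2 : z * x * y * (z * x)⁻¹ = y := by
          calc z * x * y * (z * x)⁻¹ = z * (x * y * x⁻¹) * z⁻¹ := by group
            _ = (z * y * z⁻¹)⁻¹ := by rw [hx y hy]; group
            _ = y := by rw [hzT y hy, inv_inv]
        rw [e2] at e1
        nth_rw 2 [e1]
        exact mul_inv_cancel y
  -- `f` has order `3`
  have hfC : ∀ {x}, Commute x t → Commute x v →
      Commute (f * x * f⁻¹) t ∧ Commute (f * x * f⁻¹) v := by
    intro x hxt hxv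
    have a := commute_conj' hxt f
    have b := commute_conj' (hxt.mul_right hxv) f
    rw [hft] at a
    rw [hftv] at b
    exact ⟨b, a⟩
  have hfR : ∀ b ∈ R, f * b * f⁻¹ ∈ R := by
    intro b hb
    rw [hRmem] at hb ⊢
    obtain ⟨h1, h2⟩ := hfC hb.1 hb.2.1
    exact ⟨h1, h2, by rw [conj_pow, hb.2.2, mul_one, mul_inv_cancel]⟩
  have hApow : ∀ y ∈ A, y ^ (2 * m) = 1 := by
    intro y hy
    rcases hy with hy | hy
    · exact hTpow y hy
    · have h1 := hTpow _ hy
      have hc : Commute t y := (h.comm_mul (hTK hy)).symm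
      rwa [hc.mul_pow, pow_mul, pow_two, h.t_mul, one_pow, one_mul] at h1
  have hzinv : ∀ y ∈ A, z * y * z⁻¹ = y⁻¹ := by
    rintro y (hy | hy)
    · exact hzT y hy
    · have hc : Commute y t := h.comm_mul (hTK hy)
      have e0 : y = t * (t * y) := by rw [← mul_assoc, h.t_mul, one_mul]
      calc z * y * z⁻¹ = z * t * z⁻¹ * (z * (t * y) * z⁻¹) := by rw [← conj_mul', ← e0]
        _ = t * (y⁻¹ * t⁻¹) := by rw [hzt.eq, mul_inv_cancel_right, hzT _ hy, mul_inv_rev]
        _ = y⁻¹ := by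
          rw [← mul_assoc, ← hc.inv_left.eq, mul_assoc, mul_inv_cancel, mul_one]
  have hf3 : f ^ 3 = 1 := by
    have h1 : f ^ 3 * t * (f ^ 3)⁻¹ = t := by
      rw [pow_three]
      calc f * (f * f) * t * (f * (f * f))⁻¹ = f * (f * (f * t * f⁻¹) * f⁻¹) * f⁻¹ := by group
        _ = t := by rw [hft, hfv, hftv]
    have h2 : f ^ 3 * v * (f ^ 3)⁻¹ = v := by
      rw [pow_three]
      calc f * (f * f) * v * (f * (f * f))⁻¹ = f * (f * (f * v * f⁻¹) * f⁻¹) * f⁻¹ := by group
        _ = v := by rw [hfv, hftv, hft]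
    have hp : (f ^ 3) ^ (2 * m) = 1 := by
      rcases hcentV (f ^ 3) (mul_inv_eq_iff_eq_mul.1 h1) (mul_inv_eq_iff_eq_mul.1 h2) with hh | hh
      · exact hApow _ hh
      · have e := hzinv _ hh
        have : f ^ 3 * f ^ 3 = 1 := by
          calc f ^ 3 * f ^ 3 = z * (z * f ^ 3) * (z * (z * f ^ 3)) := by
                simp [← mul_assoc, hz2]
            _ = (z * (z * f ^ 3) * z⁻¹) * (z * z) * (z * f ^ 3) := by group
            _ = 1 := by rw [e, hz2, mul_one, inv_mul_cancel]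
        rw [pow_mul, pow_two, this, one_pow]
    have hd1 : orderOf (f ^ 3) ∣ 2 * m := orderOf_dvd_of_pow_eq_one hp
    have hd2 : orderOf (f ^ 3) ∣ 3 ^ a := orderOf_dvd_of_pow_eq_one
      (by rw [← pow_mul, mul_comm, pow_mul, hfa, one_pow])
    refine orderOf_eq_one_iff.1 (Nat.eq_one_of_dvd_coprimes ?_ hd2 hd1)
    exact Nat.Coprime.pow_left a ((Nat.prime_three.coprime_iff_not_dvd).2
      (fun e => (Nat.prime_three.dvd_mul.1 e).elim (by norm_num) h3m))
  have hfA : ∀ x ∈ A, f * x * f⁻¹ ∈ A := by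
    intro x hx
    obtain ⟨b, hb, e⟩ := (hA x).1 hx
    have hb' := hfR b hb
    have hbA : f * b * f⁻¹ ∈ A := Or.inl (hRT hb')
    rcases e with rfl | rfl | rfl | rfl
    · exact hbA
    · rw [conj_mul', hft]; exact A.mul_mem hvA hbA
    · rw [conj_mul', hfv]; exact A.mul_mem (A.mul_mem htA hvA) hbA
    · rw [conj_mul', hftv]; exact A.mul_mem htA hbA
  have hcent_t : ∀ x b, b ∈ R → b ≠ 1 → Commute x t → Commute x b → x ∈ A := by
    intro x b hb hb1 hxt hxb
    have hb2 : b * b ≠ 1 := fun e => by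
      obtain ⟨j, hj⟩ := hmodd
      have := hb.2
      rw [hj, pow_succ, pow_mul, pow_two, e, one_pow, one_mul] at this
      exact hb1 this
    have hxk : Commute x k := by
      rcases h.decomp x hxt with hK | hK
      · exact (h.caK (hTK hb.1) hK F.kK hb2 hxb.symm (hRk hb))
      · have := h.caK (hTK hb.1) hK F.kK hb2 ((hRt hb).mul_right hxb.symm) (hRk hb)
        have h' := (h.tk F).mul_left this
        rwa [← mul_assoc, h.t_mul, one_mul] at h'
    refine (hcomp x hxt hxk).resolve_right fun hinv => hb2 ?_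
    have e := hinv b hb.1
    rw [hxb.eq, mul_inv_cancel_right] at e
    nth_rw 2 [e]
    exact mul_inv_cancel b
  have hRpre : ∀ b ∈ R, f⁻¹ * b * f ∈ R := by
    intro b hb
    have := hfR _ (hfR b hb)
    have e : f * (f * b * f⁻¹) * f⁻¹ = f⁻¹ * b * f := by
      have h2 : f * f = f⁻¹ := eq_inv_of_mul_eq_one_left (by rw [← hf3, pow_three, mul_assoc])
      calc f * (f * b * f⁻¹) * f⁻¹ = (f * f) * b * (f * f)⁻¹ := by group
        _ = f⁻¹ * b * f := by rw [h2, inv_inv]
    rwa [e] at this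
  have hcent_v : ∀ x b, b ∈ R → b ≠ 1 → Commute x v → Commute x b → x ∈ A := by
    intro x b hb hb1 hxv hxb
    have h1 : Commute (f⁻¹ * x * f) t := by
      have := commute_conj' hxv f⁻¹
      rw [inv_inv] at this
      rwa [show f⁻¹ * v * f = t by rw [← hft]; group] at this
    have h2 : Commute (f⁻¹ * x * f) (f⁻¹ * b * f) := by
      simpa using commute_conj' hxb f⁻¹
    have := hfA _ (hcent_t _ _ (hRpre b hb) (fun e => hb1 (by
      calc b = f * (f⁻¹ * b * f) * f⁻¹ := by group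
        _ = 1 := by rw [e]; group)) h1 h2)
    rwa [show f * (f⁻¹ * x * f) * f⁻¹ = x by group] at this
  have hcent_tv : ∀ x b, b ∈ R → b ≠ 1 → Commute x (t * v) → Commute x b → x ∈ A := by
    intro x b hb hb1 hxv hxb
    have h1 : Commute (f⁻¹ * x * f) v := by
      have := commute_conj' hxv f⁻¹
      rw [inv_inv] at this
      rwa [show f⁻¹ * (t * v) * f = v by rw [← hfv]; group] at this
    have h2 : Commute (f⁻¹ * x * f) (f⁻¹ * b * f) := by
      simpa using commute_conj' hxb f⁻¹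
    have := hfA _ (hcent_v _ _ (hRpre b hb) (fun e => hb1 (by
      calc b = f * (f⁻¹ * b * f) * f⁻¹ := by group
        _ = 1 := by rw [e]; group)) h1 h2)
    rwa [show f * (f⁻¹ * x * f) * f⁻¹ = x by group] at this
  refine ⟨R, A, v, z, f, h, hv2, hv1, hvt, htv, hz2, hzt, hzv, hzA,
    fun b hb => hzT b (hRT hb), hf3, hft, hfv, hfz, hfR, by omega,
    fun a ha b hb => hTab a (hRT ha) b (hRT hb), fun b hb => ⟨hRt hb, hRv hb⟩, hA, hcentV, ?_⟩
  intro x b hb hb1 e he hxe hxb
  rcases he with rfl | rfl | rfl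
  · exact hcent_t x b hb hb1 hxe hxb
  · exact hcent_v x b hb hb1 hxe hxb
  · exact hcent_tv x b hb hb1 hxe hxb

namespace Loc

variable {t : G} {K : Subgroup G} {q : ℕ} {R A : Subgroup G} {v z f : G}
  (L : Loc t K q R A v z f)
include L

theorem f_tv : f * (t * v) * f⁻¹ = t := by
  rw [conj_mul', L.ft, L.fv, ← mul_assoc, ← L.tv.eq, mul_assoc, L.v2, mul_one]

theorem v_inv : v⁻¹ = v := inv_eq_of_mul_eq_one_right L.v2

theorem tv_ne : t * v ≠ 1 ∧ t * v ≠ t ∧ t * v ≠ v := by
  refine ⟨fun e => L.vt ?_, fun e => L.v1 (mul_left_cancel (a := t) (by rw [e, mul_one])),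
    fun e => L.setup.t_ne (mul_right_cancel (b := v) (by rw [e, one_mul]))⟩
  rw [← L.setup.t_inv]
  exact (inv_eq_of_mul_eq_one_right e).symm

theorem tv_sq : t * v * (t * v) = 1 := by
  rw [← pow_two, L.tv.mul_pow, pow_two, pow_two, L.setup.t_mul, L.v2, one_mul]

theorem odd_R [Finite G] : Odd (Nat.card R) := by
  have h1 := L.card_R
  have h2 := L.setup.facts.mod_eight
  rw [Nat.odd_iff]
  omega

theorem coprime_R [Finite G] : ¬ 3 ∣ Nat.card R := fun e => by
  have h1 := L.card_R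
  have h2 := L.setup.three_dvd_q
  omega

theorem seven_le_R [Finite G] : 7 ≤ Nat.card R := by
  have := L.card_R
  have := L.setup.facts.big
  omega

theorem R_pow [Finite G] {b : G} (hb : b ∈ R) : b ^ Nat.card R = 1 := by
  have := congrArg Subtype.val (pow_card_eq_one' (x := (⟨b, hb⟩ : R)))
  rwa [SubmonoidClass.coe_pow, OneMemClass.coe_one] at this

theorem eq_one_of_sq [Finite G] {b : G} (hb : b ∈ R) (h : b * b = 1) : b = 1 := by
  have := L.R_pow hb
  obtain ⟨j, hj⟩ := L.odd_R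
  rwa [hj, pow_succ, pow_mul, pow_two, h, one_pow, one_mul] at this

theorem t_mem_A : t ∈ A := (L.mem_A t).2 ⟨1, R.one_mem, Or.inr (Or.inl (mul_one t).symm)⟩

theorem v_mem_A : v ∈ A :=
  (L.mem_A v).2 ⟨1, R.one_mem, Or.inr (Or.inr (Or.inl (mul_one v).symm))⟩

theorem R_le_A : R ≤ A := fun b hb => (L.mem_A b).2 ⟨b, hb, Or.inl rfl⟩

theorem A_cent {x : G} (hx : x ∈ A) : Commute x t ∧ Commute x v := by
  obtain ⟨b, hb, e⟩ := (L.mem_A x).1 hx
  obtain ⟨h1, h2⟩ := L.R_cent b hb
  rcases e with rfl | rfl | rfl | rfl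
  · exact ⟨h1, h2⟩
  · exact ⟨(Commute.refl t).mul_left h1, L.tv.mul_left h2⟩
  · exact ⟨L.tv.symm.mul_left h1, (Commute.refl v).mul_left h2⟩
  · exact ⟨((Commute.refl t).mul_left L.tv.symm).mul_left h1,
      (L.tv.mul_left (Commute.refl v)).mul_left h2⟩

theorem A_comm {x y : G} (hx : x ∈ A) (hy : y ∈ A) : Commute x y := by
  obtain ⟨h1, h2⟩ := L.A_cent hx
  obtain ⟨b, hb, e⟩ := (L.mem_A y).1 hy
  have h3 : Commute x b := by
    obtain ⟨c, hc, e'⟩ := (L.mem_A x).1 hx
    obtain ⟨g1, g2⟩ := L.R_cent b hb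
    have g3 := L.R_comm c hc b hb
    rcases e' with rfl | rfl | rfl | rfl
    · exact g3
    · exact g1.symm.mul_left g3
    · exact g2.symm.mul_left g3
    · exact (g1.symm.mul_left g2.symm).mul_left g3
  rcases e with rfl | rfl | rfl | rfl
  · exact h3
  · exact h1.mul_right h3
  · exact h2.mul_right h3
  · exact (h1.mul_right h2).mul_right h3

theorem eq_of_sq [Finite G] {x : G} (hx : x ∈ A) (h : x * x = 1) :
    x = 1 ∨ x = t ∨ x = v ∨ x = t * v := by
  obtain ⟨b, hb, e⟩ := (L.mem_A x).1 hx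
  have key : ∀ w : G, w * w = 1 → Commute w b → x = w * b → b = 1 := by
    intro w hw hc e'
    refine L.eq_one_of_sq hb ?_
    rwa [e', ← pow_two, hc.mul_pow, pow_two, pow_two, hw, one_mul] at h
  obtain ⟨g1, g2⟩ := L.R_cent b hb
  rcases e with e | e | e | e
  · exact Or.inl (by rw [e, key 1 (one_mul 1) (Commute.one_left b) (by rw [e, one_mul])])
  · exact Or.inr (Or.inl (by rw [e, key t L.setup.t_mul g1.symm e, mul_one]))
  · exact Or.inr (Or.inr (Or.inl (by rw [e, key v L.v2 g2.symm e, mul_one])))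
  · exact Or.inr (Or.inr (Or.inr
      (by rw [e, key _ L.tv_sq (g1.symm.mul_left g2.symm) e, mul_one])))

/-- The involutions inverting `A` are the elements of `z A`. -/
theorem z_inv {x : G} (hx : x ∈ A) : z * x * z⁻¹ = x⁻¹ := by
  obtain ⟨b, hb, e⟩ := (L.mem_A x).1 hx
  obtain ⟨g1, g2⟩ := L.R_cent b hb
  have key : ∀ w, Commute z w → w * w = 1 → Commute w b → z * (w * b) * z⁻¹ = (w * b)⁻¹ := by
    intro w h1 h2 h3
    rw [conj_mul', h1.eq, mul_inv_cancel_right, L.zR b hb, mul_inv_rev,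
      inv_eq_of_mul_eq_one_right h2]
    exact h3.inv_right.eq
  rcases e with rfl | rfl | rfl | rfl
  · exact L.zR x hb
  · exact key t L.zt L.setup.t_mul g1.symm
  · exact key v L.zv L.v2 g2.symm
  · exact key _ (L.zt.mul_right L.zv) L.tv_sq (g1.symm.mul_left g2.symm)

theorem f_inv_sq : f⁻¹ = f ^ 2 :=
  inv_eq_of_mul_eq_one_right (by rw [← pow_succ', L.f3])

theorem fA {x : G} (hx : x ∈ A) : f * x * f⁻¹ ∈ A := by
  obtain ⟨b, hb, e⟩ := (L.mem_A x).1 hx
  have hbA := L.R_le_A (L.fR b hb)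
  rcases e with rfl | rfl | rfl | rfl
  · exact hbA
  · rw [conj_mul', L.ft]; exact A.mul_mem L.v_mem_A hbA
  · rw [conj_mul', L.fv]; exact A.mul_mem (A.mul_mem L.t_mem_A L.v_mem_A) hbA
  · rw [conj_mul', L.f_tv]; exact A.mul_mem L.t_mem_A hbA

/-- The centraliser of `e b` (`e` an involution of `V`, `b ∈ R` non-trivial) is `A`. -/
theorem cent_mul [Finite G] {x e b : G} (he : e = t ∨ e = v ∨ e = t * v) (hb : b ∈ R)
    (hb1 : b ≠ 1) (hx : Commute x (e * b)) : x ∈ A := by
  have he2 : e * e = 1 ∧ Commute e b := by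
    obtain ⟨g1, g2⟩ := L.R_cent b hb
    rcases he with rfl | rfl | rfl
    · exact ⟨L.setup.t_mul, g1.symm⟩
    · exact ⟨L.v2, g2.symm⟩
    · exact ⟨L.tv_sq, g1.symm.mul_left g2.symm⟩
  have hpow : (e * b) ^ Nat.card R = e := by
    obtain ⟨j, hj⟩ := L.odd_R
    rw [he2.2.mul_pow, L.R_pow hb, mul_one, hj, pow_succ, pow_mul, pow_two, he2.1, one_pow, one_mul]
  have h1 : Commute x e := hpow ▸ hx.pow_right _
  have h2 : Commute x b := by
    have := h1.mul_right hx
    rwa [← mul_assoc, he2.1, one_mul] at this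
  exact L.cent x b hb hb1 e he h1 h2

/-- No element fixes `t` and interchanges `v` and `tv`. -/
theorem no_swap [Finite G] {x : G} (hxt : Commute x t) (hx : x * v * x⁻¹ = t * v) : False := by
  obtain ⟨k, r, F⟩ := L.setup.exists_frame
  obtain ⟨n, hn, i, hi⟩ := Cfsg.Agent.S2758.exists_two_part x
  obtain ⟨j, hj⟩ : ∃ j, n = 2 * j + 1 := ⟨n / 2, by omega⟩
  have hsw : ∀ j : ℕ, x ^ (2 * j + 1) * v * (x ^ (2 * j + 1))⁻¹ = t * v := by
    intro j
    have hx2 : x * x * v * (x * x)⁻¹ = v := by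
      calc x * x * v * (x * x)⁻¹ = x * (x * v * x⁻¹) * x⁻¹ := by group
        _ = (x * t * x⁻¹) * (x * v * x⁻¹) := by rw [hx, conj_mul', hx]
        _ = v := by rw [hxt.eq, mul_inv_cancel_right, hx, ← mul_assoc, L.setup.t_mul, one_mul]
    induction j with
    | zero => simpa using hx
    | succ j ih =>
      calc x ^ (2 * (j + 1) + 1) * v * (x ^ (2 * (j + 1) + 1))⁻¹
          = x ^ (2 * j + 1) * (x * x * v * (x * x)⁻¹) * (x ^ (2 * j + 1))⁻¹ := by
            rw [show 2 * (j + 1) + 1 = (2 * j + 1) + 2 by ring, pow_add _ _ 2, pow_two]; group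
        _ = t * v := by rw [hx2, ih]
  set s := x ^ n with hs
  have hsv : s * v * s⁻¹ = t * v := by rw [hs, hj]; exact hsw j
  have hs2 : s * s = 1 := L.setup.sq_of_two_pow F (a := i) (by rw [← hi, pow_orderOf_eq_one])
  have hst : Commute s t := hxt.pow_left n
  have h2 : s * v * (s * v) = t := by
    calc s * v * (s * v) = s * v * s⁻¹ * (s * s) * v := by group
      _ = t := by rw [hsv, hs2, mul_one, mul_assoc, L.v2, mul_one]
  have h4 : (s * v) ^ (2 ^ 2) = 1 := by
    rw [show (2 : ℕ) ^ 2 = 2 + 2 from rfl, pow_add, pow_two, h2, L.setup.t_mul]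
  rw [L.setup.sq_of_two_pow F h4] at h2
  exact L.setup.t_ne h2.symm

/-- An element mapping `V` into itself lies in one of the six cosets of `A`. -/
theorem mem_N [Finite G] {x : G} (hxt : x * t * x⁻¹ = t ∨ x * t * x⁻¹ = v ∨ x * t * x⁻¹ = t * v)
    (hxv : x * v * x⁻¹ = t ∨ x * v * x⁻¹ = v ∨ x * v * x⁻¹ = t * v) :
    ∃ i < 3, ∃ a ∈ A, x = f ^ i * a ∨ x = f ^ i * (z * a) := by
  have hf2t : f ^ 2 * t * (f ^ 2)⁻¹ = t * v := by
    rw [pow_two]
    calc f * f * t * (f * f)⁻¹ = f * (f * t * f⁻¹) * f⁻¹ := by group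
      _ = t * v := by rw [L.ft, L.fv]
  obtain ⟨i, hi, hit⟩ : ∃ i < 3, f ^ i * t * (f ^ i)⁻¹ = x * t * x⁻¹ := by
    rcases hxt with e | e | e
    · exact ⟨0, by norm_num, by simp [e]⟩
    · exact ⟨1, by norm_num, by rw [e, pow_one, L.ft]⟩
    · exact ⟨2, by norm_num, by rw [e, hf2t]⟩
  set y := (f ^ i)⁻¹ * x with hy
  have hyt : y * t * y⁻¹ = t := by
    rw [hy]
    calc (f ^ i)⁻¹ * x * t * ((f ^ i)⁻¹ * x)⁻¹ = (f ^ i)⁻¹ * (x * t * x⁻¹) * f ^ i := by group
      _ = t := by rw [← hit]; group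
  have hperm : ∀ w, (w = t ∨ w = v ∨ w = t * v) → ∀ j < 3,
      (f ^ j)⁻¹ * w * f ^ j = t ∨ (f ^ j)⁻¹ * w * f ^ j = v ∨ (f ^ j)⁻¹ * w * f ^ j = t * v := by
    have h1 : ∀ w, (w = t ∨ w = v ∨ w = t * v) →
        f⁻¹ * w * f = t ∨ f⁻¹ * w * f = v ∨ f⁻¹ * w * f = t * v := by
      intro w hw
      rcases hw with rfl | rfl | rfl
      · exact Or.inr (Or.inr (by nth_rw 1 [← L.f_tv]; group))
      · exact Or.inl (by nth_rw 1 [← L.ft]; group)
      · exact Or.inr (Or.inl (by nth_rw 1 [← L.fv]; group))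
    intro w hw j hj
    interval_cases j
    · simpa using hw
    · simpa using h1 w hw
    · have := h1 _ (h1 w hw)
      simpa [pow_two, mul_assoc] using this
  have hyv : y * v * y⁻¹ = t ∨ y * v * y⁻¹ = v ∨ y * v * y⁻¹ = t * v := by
    have e : y * v * y⁻¹ = (f ^ i)⁻¹ * (x * v * x⁻¹) * f ^ i := by rw [hy]; group
    rw [e]
    exact hperm _ hxv i hi
  have hyt' : Commute y t := mul_inv_eq_iff_eq_mul.1 hyt
  rcases hyv with e | e | e
  · exact absurd (mul_left_cancel (mul_right_cancel (e.trans hyt.symm))) L.vt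
  · obtain hh | hh := L.centV y hyt' (mul_inv_eq_iff_eq_mul.1 e)
    · exact ⟨i, hi, y, hh, Or.inl (by rw [hy, mul_inv_cancel_left])⟩
    · refine ⟨i, hi, z * y, hh, Or.inr ?_⟩
      rw [← mul_assoc z z, L.z2, one_mul, hy, mul_inv_cancel_left]
  · exact (L.no_swap hyt' e).elim

end Loc

end CfsgLib.ReeSThree
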