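import Cfsg.Agent.BinaryPSL.Facts
import Cfsg.Agent.SL2.PSL
import Cfsg.Agent.SL2.Klein

/-!
# The facts on `PSL₂(q)`, `q = 3^(2n+1)`, used for the groups of Ree type
-/

set_option autoImplicit false

namespace CfsgLib.ReeSThree

open CfsgLib CfsgLib.SL2

/-- What is used about the factor `K ≅ PSL₂(q)` of the centraliser of an involution. -/
structure KFacts (K : Type*) [Group K] (q : ℕ) : Prop where
  three_pow : ∃ m, q = 3 ^ m
  mod_eight : q % 8 = 3
  big : 27 ≤ q
  card : 2 * Nat.card K = q * (q ^ 2 - 1)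
  ca : ∀ x y w : K, x * x ≠ 1 → Commute x y → Commute x w → Commute y w
  conj2 : ∀ x y : K, orderOf x = 2 → orderOf y = 2 → IsConj x y
  conj3 : ∀ x y : K, orderOf x = 3 → orderOf y = 3 → IsConj x y ∨ IsConj x⁻¹ y
  cube : ∀ x y : K, orderOf x = 3 → Commute y x → y ^ 3 = 1
  dihedral : ∀ k : K, orderOf k = 2 →
    Nat.card (Subgroup.centralizer ({k} : Set K)) = q + 1 ∧
    ∃ T : Subgroup K, k ∈ T ∧ 2 * Nat.card T = q + 1 ∧ (∀ y ∈ T, Commute y k) ∧
      (∀ x ∈ T, ∀ y ∈ T, Commute x y) ∧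
      ∀ x, Commute x k → x ∉ T → x * x = 1 ∧ ∀ y ∈ T, x * y * x⁻¹ = y⁻¹

theorem KFacts.of_equiv {K L : Type*} [Group K] [Group L] {q : ℕ} (e : K ≃* L)
    (h : KFacts L q) : KFacts K q where
  three_pow := h.three_pow
  mod_eight := h.mod_eight
  big := h.big
  card := by rw [Nat.card_congr e.toEquiv]; exact h.card
  ca x y w hx hy hw := by
    have := h.ca (e x) (e y) (e w) (by rwa [← map_mul, ne_eq, MulEquiv.map_eq_one_iff])
      (hy.map e) (hw.map e)
    simpa using this.map e.symm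
  conj2 x y hx hy := by
    have := h.conj2 (e x) (e y) (by rwa [e.orderOf_eq]) (by rwa [e.orderOf_eq])
    simpa using e.symm.toMonoidHom.map_isConj this
  conj3 x y hx hy := by
    rcases h.conj3 (e x) (e y) (by rwa [e.orderOf_eq]) (by rwa [e.orderOf_eq]) with c | c
    · exact Or.inl (by simpa using e.symm.toMonoidHom.map_isConj c)
    · exact Or.inr (by simpa using e.symm.toMonoidHom.map_isConj c)
  cube x y hx hy := by
    have := h.cube (e x) (e y) (by rwa [e.orderOf_eq]) (hy.map e)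
    rwa [← map_pow, MulEquiv.map_eq_one_iff] at this
  dihedral k hk := by
    obtain ⟨hc, T, hkT, hcard, hcomm, hab, hout⟩ := h.dihedral (e k) (by rwa [e.orderOf_eq])
    refine ⟨?_, T.comap e.toMonoidHom, hkT, ?_, fun y hy => ?_, fun x hx y hy => ?_,
      fun x hx hxT => ?_⟩
    · rw [← hc]
      refine Nat.card_congr (e.toEquiv.subtypeEquiv fun x => ?_)
      rw [Subgroup.mem_centralizer_singleton_iff, Subgroup.mem_centralizer_singleton_iff]
      exact ⟨fun hh => by simpa using congrArg e hh, fun hh => e.injective (by simpa using hh)⟩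
    · rw [← hcard]
      exact congrArg (2 * ·) (Nat.card_congr (e.toEquiv.subtypeEquiv fun x => Iff.rfl))
    · simpa using (hcomm (e y) hy).map e.symm
    · simpa using (hab (e x) hx (e y) hy).map e.symm
    · obtain ⟨h1, h2⟩ := hout (e x) (hx.map e) hxT
      refine ⟨e.injective (by simpa using h1), fun y hy => e.injective ?_⟩
      simpa using h2 (e y) hy

variable {F : Type*} [Field F] [Fintype F]

local notation "SLF" => Matrix.SpecialLinearGroup (Fin 2) F
local notation "PF" => Matrix.ProjectiveSpecialLinearGroup (Fin 2) F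

theorem mul_self_eq_one_of_torus {m : ℕ} (hq : Fintype.card F = 3 ^ m) {W X : SLF}
    (hW : tr W ^ 2 ≠ 4) (hX : X ∈ Subgroup.centralizer ({W} : Set SLF)) (h6 : X ^ 6 = 1) :
    X * X = 1 := by
  have hd : orderOf X ∣ Nat.card (Subgroup.centralizer ({W} : Set SLF)) := by
    rw [← Subgroup.orderOf_mk X hX]
    exact orderOf_dvd_natCard _
  have h1 : orderOf X ∣ 6 := orderOf_dvd_of_pow_eq_one h6
  have hm : m ≠ 0 := by
    rintro rfl
    have := Fintype.one_lt_card (α := F)
    omega
  have h3 : 3 ∣ Fintype.card F := hq ▸ dvd_pow_self 3 hm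
  have hq1 := Fintype.one_lt_card (α := F)
  have hn3 : ¬ 3 ∣ orderOf X := by
    intro h
    have h' := h.trans hd
    by_cases hs : IsSplitTrace (tr W)
    · rw [card_centralizer_split hW hs] at h'; omega
    · rw [card_centralizer_nonsplit hs] at h'; omega
  have h2 : orderOf X ∣ 2 :=
    (((Nat.prime_three.coprime_iff_not_dvd).2 hn3).symm).dvd_of_dvd_mul_left (n := 2) h1
  rw [← pow_two]
  exact orderOf_dvd_iff_pow_eq_one.1 h2

omit [Fintype F] in
theorem pmk_pow_six {X : SLF} (hX : (pmk X : PF) ^ 3 = 1) : X ^ 6 = 1 := by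
  rw [← map_pow, pmk_eq_one_iff] at hX
  rw [show (6 : ℕ) = 3 * 2 from rfl, pow_mul]
  rcases hX with e | e <;> rw [e] <;> simp

theorem tr_sq_of_order_three {m : ℕ} (hq : Fintype.card F = 3 ^ m) {X Y : SLF}
    (hX : orderOf (pmk X : PF) = 3) (hY : Y * X = X * Y) : tr Y ^ 2 = 4 := by
  by_contra hne
  have h := mul_self_eq_one_of_torus hq hne (Subgroup.mem_centralizer_singleton_iff.2 hY.symm)
    (pmk_pow_six (by rw [← hX, pow_orderOf_eq_one]))
  have := orderOf_dvd_of_pow_eq_one (x := (pmk X : PF)) (n := 2)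
    (by rw [pow_two, ← map_mul, h, map_one])
  rw [hX] at this
  omega

theorem exists_lift_tr_two {m : ℕ} (hq : Fintype.card F = 3 ^ m) {x : PF} (hx : orderOf x = 3) :
    ∃ X : SLF, pmk X = x ∧ ∃ s : F, s ≠ 0 ∧ IsConj X (u s) := by
  obtain ⟨X, rfl⟩ := pmk_surjective x
  have ht := tr_sq_of_order_three hq hx (Y := X) rfl
  have h' : (tr X - 2) * (tr X + 2) = 0 := by linear_combination ht
  have hne : ∀ Z : SLF, pmk Z = pmk X → Z ≠ 1 := by
    intro Z e h
    rw [← e, h, map_one, orderOf_one] at hx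
    omega
  rcases mul_eq_zero.1 h' with h | h
  · exact ⟨X, rfl, exists_isConj_u (hne X rfl) (sub_eq_zero.1 h)⟩
  · refine ⟨-X, pmk_neg X, exists_isConj_u (hne _ (pmk_neg X)) ?_⟩
    rw [tr_neg]
    linear_combination -h

/-- `PSL₂(3^(2n+1))`, `n ≥ 1`, satisfies the facts. -/
theorem kFacts_psl {n : ℕ} (hn : 1 ≤ n) (hq : Fintype.card F = 3 ^ (2 * n + 1)) :
    KFacts PF (Fintype.card F) := by
  classical
  have hm8 : Fintype.card F % 8 = 3 := by
    rw [hq, pow_succ, pow_mul, Nat.mul_mod, Nat.pow_mod]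
    norm_num
  have hodd : Odd (Fintype.card F) := Nat.odd_iff.2 (by omega)
  have h2 : (2 : F) ≠ 0 := two_ne_zero_iff_odd.2 hodd
  have hch : CharP F 3 := by
    obtain ⟨p, hp⟩ := CharP.exists F
    obtain ⟨f, hpp, hF⟩ := FiniteField.card F p
    have : p ∣ 3 ^ (2 * n + 1) := by rw [← hq, hF]; exact dvd_pow_self p f.pos.ne'
    rwa [(Nat.prime_dvd_prime_iff_eq hpp Nat.prime_three).1 (hpp.dvd_of_dvd_pow this)] at hp
  haveI : Fact (Nat.Prime 3) := ⟨Nat.prime_three⟩
  refine ⟨⟨_, hq⟩, hm8, ?_, card_PSL_odd hodd, BinaryPSL.psl_ca,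
    fun x y => isConj_of_orderOf_two, ?_, ?_, ?_⟩
  · rw [hq]
    calc 27 = 3 ^ 3 := by norm_num
      _ ≤ _ := Nat.pow_le_pow_right (by norm_num) (by omega)
  · intro x y hx hy
    obtain ⟨X, rfl, s, hs, hXs⟩ := exists_lift_tr_two hq hx
    obtain ⟨Y, rfl, t, ht, hYt⟩ := exists_lift_tr_two hq hy
    rcases em (IsSquare (s * t)) with h | h
    · refine Or.inl (MonoidHom.map_isConj pmk ((hXs.trans ?_).trans hYt.symm))
      rw [u_eq_upperU, u_eq_upperU, CfsgLib.Psl2Unipotent.isConj_upperU_iff hs ht]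
      exact h
    · refine Or.inr ?_
      rw [← map_inv]
      have hinv : IsConj X⁻¹ (u (-s)) := by
        obtain ⟨c, hc⟩ := isConj_iff.1 hXs
        exact isConj_iff.2 ⟨c, by rw [u_neg, ← hc]; group⟩
      refine MonoidHom.map_isConj pmk ((hinv.trans ?_).trans hYt.symm)
      rw [u_eq_upperU, u_eq_upperU, CfsgLib.Psl2Unipotent.isConj_upperU_iff (neg_ne_zero.2 hs) ht]
      have hring : ringChar F ≠ 2 := by
        intro e
        exact h2 (by
          have : ((2 : ℕ) : F) = 0 := by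
            haveI := ringChar.of_eq e
            exact CharP.cast_eq_zero F 2
          simpa using this)
      have h0 : -s * t ≠ 0 := mul_ne_zero (neg_ne_zero.2 hs) ht
      rw [← quadraticChar_one_iff_isSquare h0, neg_mul, ← neg_one_mul, map_mul,
        quadraticChar_neg_one_iff_not_isSquare.2 (fun h1 =>
          (FiniteField.isSquare_neg_one_iff.1 h1) (by omega)),
        quadraticChar_neg_one_iff_not_isSquare.2 h]
      norm_num
  · intro x y hx hy
    obtain ⟨X, rfl⟩ := pmk_surjective x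
    obtain ⟨Y, rfl⟩ := pmk_surjective y
    have hne : pmk X * pmk X ≠ 1 := fun e => by
      have := orderOf_dvd_of_pow_eq_one (x := (pmk X : PF)) (n := 2) (by rw [pow_two, e])
      rw [hx] at this
      omega
    have ht := tr_sq_of_order_three hq hx (BinaryPSL.commute_lift hy.symm hne).symm
    have h := congrArg (fun z : SLF => (pmk z : PF)) (pow_two_mul_char_eq_one (p := 3) ht)
    have h' : tr Y = 2 ∨ tr Y = -2 := by
      rcases mul_eq_zero.1 (show (tr Y - 2) * (tr Y + 2) = 0 by linear_combination ht) with e | e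
      · exact Or.inl (sub_eq_zero.1 e)
      · exact Or.inr (eq_neg_of_add_eq_zero_left e)
    have key : ∀ Z : SLF, tr Z = 2 → (pmk Z : PF) ^ 3 = 1 := by
      intro Z hZ
      by_cases hZ1 : Z = 1
      · rw [hZ1, map_one, one_pow]
      · rw [← map_pow, ← orderOf_eq_of_tr_eq_two (p := 3) hZ1 hZ, pow_orderOf_eq_one, map_one]
    rcases h' with e | e
    · exact key Y e
    · rw [← pmk_neg Y]
      exact key _ (by rw [tr_neg, e, neg_neg])
  · intro k hk
    obtain ⟨g, rfl⟩ := pmk_surjective k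
    have hg := (orderOf_pmk_eq_two_iff h2).1 hk
    have hgt := tr_zero_sq_ne_four h2 hg
    have hC : Nat.card (Subgroup.centralizer ({g} : Set SLF)) = Fintype.card F + 1 :=
      (card_centralizer_tr_zero h2 hg).2 (by omega)
    refine ⟨by rw [card_centralizer_pmk h2 hg, hC],
      (Subgroup.centralizer ({g} : Set SLF)).map pmk,
      ⟨g, Subgroup.mem_centralizer_singleton_iff.2 rfl, rfl⟩, ?_, ?_, ?_, ?_⟩
    · rw [card_map_pmk h2 _ (Subgroup.center_le_centralizer _ neg_one_mem_center), hC]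
    · rintro _ ⟨Y, hY, rfl⟩
      exact (show Commute Y g from Subgroup.mem_centralizer_singleton_iff.1 hY).map pmk
    · rintro _ ⟨Y, hY, rfl⟩ _ ⟨Z, hZ, rfl⟩
      exact (show Commute Y Z from
        centralizer_commute (not_mem_center_of_tr_sq_ne hgt) hY hZ).map pmk
    · intro x hx hxT
      obtain ⟨X, rfl⟩ := pmk_surjective x
      have hn := (mem_normalizer_torus_iff hgt).1 ((commute_pmk_iff h2 hg).1 hx)
      have he : X * g * X⁻¹ = g⁻¹ := by
        refine hn.resolve_left fun e => hxT ⟨X, ?_, rfl⟩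
        exact Subgroup.mem_centralizer_singleton_iff.2 (mul_inv_eq_iff_eq_mul.1 e)
      refine ⟨by rw [← map_mul, sq_of_inverting hgt h2 he]; exact pmk_eq_one_iff.2 (Or.inr rfl),
        ?_⟩
      rintro _ ⟨Y, hY, rfl⟩
      rw [← map_inv, ← map_inv, ← map_mul, ← map_mul, inverts_torus hgt he hY]

end CfsgLib.ReeSThree
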