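import Cfsg.Agent.ReeSThree.Setup
import Cfsg.Agent.Offender.S4Section

/-!
# Sections `S₃` and `S₄`: criteria
-/

set_option autoImplicit false

namespace CfsgLib.ReeSThree

/-- All `2`-subgroups are commutative. -/
def TwoSubgroupsComm (G : Type*) [Group G] : Prop :=
  ∀ Q : Subgroup G, IsPGroup 2 Q → ∀ u ∈ Q, ∀ v ∈ Q, Commute u v

theorem TwoSubgroupsComm.of_equiv {G M : Type*} [Group G] [Group M] (e : G ≃* M)
    (h : TwoSubgroupsComm M) : TwoSubgroupsComm G := fun Q hQ u hu v hv => by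
  simpa using (h (Q.map e.toMonoidHom) (hQ.map _) (e u) ⟨u, hu, rfl⟩ (e v) ⟨v, hv, rfl⟩).map e.symm

theorem involves_of_equiv {A : Type*} [Group A] {G M : Type*} [Group G] [Group M] (e : G ≃* M)
    (h : Cfsg.Involves A G) : Cfsg.Involves A M := by
  obtain ⟨K, R, hR, ⟨f⟩⟩ := h
  let i : ↥(K.map e.toMonoidHom) ≃* ↥K := (e.subgroupMap K).symm
  exact Offender.involves_of_surjective (K.map e.toMonoidHom)
    ((f.toMonoidHom.comp (QuotientGroup.mk' (R.subgroupOf K))).comp i.toMonoidHom)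
    ((f.surjective.comp (QuotientGroup.mk'_surjective _)).comp i.surjective)

theorem card_dvd_of_involves {A G : Type*} [Group A] [Group G] [Finite G]
    (h : Cfsg.Involves A G) : Nat.card A ∣ Nat.card G := by
  obtain ⟨K, R, hR, ⟨f⟩⟩ := h
  rw [← Nat.card_congr f.toEquiv]
  exact (Subgroup.card_quotient_dvd_card _).trans (Subgroup.card_subgroup_dvd_card K)

theorem not_involves_four_of_not_three_dvd {G : Type*} [Group G] [Finite G]
    (h : ¬ 3 ∣ Nat.card G) : ¬ Cfsg.Involves (Equiv.Perm (Fin 4)) G := fun hi => by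
  refine h (dvd_trans ?_ (card_dvd_of_involves hi))
  rw [Nat.card_eq_fintype_card, Fintype.card_perm, Fintype.card_fin]
  decide

theorem not_involves_three_of_not_three_dvd {G : Type*} [Group G] [Finite G]
    (h : ¬ 3 ∣ Nat.card G) : ¬ Cfsg.Involves (Equiv.Perm (Fin 3)) G := fun hi => by
  refine h (dvd_trans ?_ (card_dvd_of_involves hi))
  rw [Nat.card_eq_fintype_card, Fintype.card_perm, Fintype.card_fin]
  decide

/-- An involution inverting an element of order `3` gives a section `S₃`. -/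
theorem involves_three_of_inverted {G : Type*} [Group G] [Finite G] {x y : G} (hx : x * x = 1)
    (hy : y ^ 3 = 1) (hy1 : y ≠ 1) (h : x * y * x⁻¹ = y⁻¹) :
    Cfsg.Involves (Equiv.Perm (Fin 3)) G := by
  refine involves_three_iff.2 ⟨x, y, ?_, ⟨1, ?_⟩, hy1, h⟩
  · rcases (Nat.dvd_prime Nat.prime_two).1 (orderOf_dvd_of_pow_eq_one (x := x) (n := 2)
      (by rw [pow_two, hx])) with h | h
    · exact ⟨0, by rw [h, pow_zero]⟩
    · exact ⟨1, by rw [h, pow_one]⟩
  · have : Fact (Nat.Prime 3) := ⟨Nat.prime_three⟩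
    rw [orderOf_eq_prime hy hy1, pow_one]

/-- A group with commutative `2`-subgroups has no section `S₄`. -/
theorem not_involves_four_of_comm {G : Type*} [Group G] [Finite G] (hab : TwoSubgroupsComm G) :
    ¬ Cfsg.Involves (Equiv.Perm (Fin 4)) G := by
  rintro ⟨K, R, hR, ⟨e⟩⟩
  have : Fact (Nat.Prime 2) := ⟨Nat.prime_two⟩
  let π : ↥K →* Equiv.Perm (Fin 4) := e.toMonoidHom.comp (QuotientGroup.mk' (R.subgroupOf K))
  have hπ : Function.Surjective π := e.surjective.comp (QuotientGroup.mk'_surjective _)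
  obtain ⟨P⟩ : Nonempty (Sylow 2 ↥K) := inferInstance
  set a : Equiv.Perm (Fin 4) := finRotate 4 with ha
  set b : Equiv.Perm (Fin 4) := Equiv.swap (0 : Fin 4) 2 with hb
  have hab4 : b * a * b⁻¹ = a⁻¹ := by rw [ha, hb]; decide +kernel
  have hne : a * b ≠ b * a := by rw [ha, hb]; decide +kernel
  have hp : ∀ (z : Equiv.Perm (Fin 4)) (k : ℕ), z ^ (2 ^ k) = 1 →
      IsPGroup 2 (Subgroup.zpowers z) := fun z k hz => by
    rintro ⟨y, hy⟩
    obtain ⟨i, rfl⟩ := Subgroup.mem_zpowers_iff.1 hy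
    refine ⟨k, Subtype.ext ?_⟩
    change (z ^ i) ^ (2 ^ k) = 1
    rw [← zpow_natCast, ← zpow_mul, mul_comm, zpow_mul, zpow_natCast, hz, one_zpow]
  have hbn : Subgroup.zpowers b ≤ Subgroup.normalizer (Subgroup.zpowers a : Set _) := by
    refine Subgroup.zpowers_le.2 (Subgroup.mem_normalizer_iff_map_conj_eq.2 ?_)
    rw [MonoidHom.map_zpowers]
    change Subgroup.zpowers (b * a * b⁻¹) = _
    rw [hab4, Subgroup.zpowers_inv]
  have hD : IsPGroup 2 (Subgroup.zpowers b ⊔ Subgroup.zpowers a : Subgroup _) :=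
    (hp b 1 (by rw [hb]; decide +kernel)).to_sup_of_normal_right'
      (hp a 2 (by rw [ha]; decide +kernel)) hbn
  obtain ⟨S, hS⟩ := hD.exists_le_sylow
  obtain ⟨g, rfl⟩ := MulAction.exists_smul_eq (Equiv.Perm (Fin 4)) (P.mapSurjective hπ) S
  rw [Sylow.coe_subgroup_smul] at hS
  obtain ⟨a', ⟨a'', ha'', rfl⟩, ea⟩ := hS (Subgroup.mem_sup_right (Subgroup.mem_zpowers a))
  obtain ⟨b', ⟨b'', hb'', rfl⟩, eb⟩ := hS (Subgroup.mem_sup_left (Subgroup.mem_zpowers b))
  have hc : Commute ((a'' : ↥K) : G) ((b'' : ↥K) : G) :=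
    hab ((P : Subgroup ↥K).map K.subtype) (P.isPGroup'.map _) _ ⟨a'', ha'', rfl⟩ _
      ⟨b'', hb'', rfl⟩
  have hc' : Commute a'' b'' := Subtype.ext hc
  apply hne
  rw [← ea, ← eb]
  exact ((hc'.map π).map (MulDistribMulAction.toMonoidEnd _ _ (MulAut.conj g) : _ →* _)).eq

end CfsgLib.ReeSThree
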