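import Cfsg.Prelude.Def_LocalEven
import Cfsg.Agent.Eq.Def_LocalEven
import Cfsg.Agent.ReeSThree.Psl
import Cfsg.Agent.S2758

/-!
# Groups of Ree type without a section `S₃`: the setup
-/

set_option autoImplicit false

namespace CfsgLib.ReeSThree

universe u

theorem nonempty_dihedral_three : Nonempty (DihedralGroup 3 ≃* Equiv.Perm (Fin 3)) := by
  let f : DihedralGroup 3 → Equiv.Perm (Fin 3) := fun
    | DihedralGroup.r i => finRotate 3 ^ i.val
    | DihedralGroup.sr i => Equiv.swap (0 : Fin 3) 1 * finRotate 3 ^ i.val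
  have h1 : ∀ a b, f (a * b) = f a * f b := by decide
  have h2 : Function.Bijective f := by decide
  exact ⟨MulEquiv.ofBijective (MonoidHom.mk' f h1) h2⟩

theorem involves_congr {A B : Type*} [Group A] [Group B] {G : Type*} [Group G] (e : A ≃* B)
    (h : Cfsg.Involves A G) : Cfsg.Involves B G := by
  obtain ⟨K, R, hR, ⟨f⟩⟩ := h
  exact ⟨K, R, hR, ⟨f.trans e⟩⟩

/-- An inverted `3`-element gives a section `S₃`, and conversely. -/
theorem involves_three_iff {G : Type*} [Group G] [Finite G] :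
    Cfsg.Involves (Equiv.Perm (Fin 3)) G ↔ ∃ x y : G, (∃ k : ℕ, orderOf x = 2 ^ k) ∧
      (∃ k : ℕ, orderOf y = 3 ^ k) ∧ y ≠ 1 ∧ x * y * x⁻¹ = y⁻¹ := by
  obtain ⟨e⟩ := nonempty_dihedral_three
  have : Fact (Nat.Prime 3) := ⟨Nat.prime_three⟩
  rw [← (Cfsg.Agent.S2758.result (G := G) (p := 3) (by decide)).2]
  exact ⟨involves_congr e.symm, involves_congr e⟩

/-- A group of Ree type (involution `t`, factor `K` of `C(t)`) in which no involution inverts an
element of order `3`. -/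
structure Setup (G : Type u) [Group G] (t : G) (K : Subgroup G) (q : ℕ) : Prop where
  simple : IsSimpleGroup G
  nonab : ¬ IsMulCommutative G
  ht : orderOf t = 2
  odd_index : Odd (Subgroup.centralizer ({t} : Set G)).index
  tK : t ∉ K
  comm : ∀ y ∈ K, Commute y t
  decomp : ∀ x, Commute x t → x ∈ K ∨ t * x ∈ K
  facts : KFacts K q
  noInv : ∀ s x : G, s * s = 1 → x ^ 3 = 1 → s * x * s⁻¹ = x⁻¹ → x = 1

theorem exists_setup {G : Type u} [Group G] [Finite G] (hR : Cfsg.IsReeType G)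
    (h3 : ¬ Cfsg.Involves (Equiv.Perm (Fin 3)) G) : ∃ t K q, Setup G t K q := by
  obtain ⟨hs, hna, t, K, n, hn, ht, hodd, ⟨-, hKle, hcomm, hinf, hsup⟩, F, _, _, hF, ⟨e⟩⟩ := hR
  have hKt : ∀ y ∈ K, Commute y t := fun y hy => (hcomm t (Subgroup.mem_zpowers t) y hy).symm
  refine ⟨t, K, _, hs, hna, ht, hodd, fun htK => ?_, hKt, fun x hx => ?_,
    (kFacts_psl hn hF).of_equiv e, fun s x hs2 hx3 hinv => ?_⟩
  · have : t ∈ Subgroup.zpowers t ⊓ K := ⟨Subgroup.mem_zpowers t, htK⟩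
    rw [hinf, Subgroup.mem_bot] at this
    rw [this, orderOf_one] at ht
    omega
  · have hmem : x ∈ Subgroup.zpowers t ⊔ K := hsup ▸ Subgroup.mem_centralizer_singleton_iff.2 hx.eq
    have hn : Subgroup.zpowers t ≤ Subgroup.normalizer (K : Set G) :=
      Subgroup.zpowers_le.2 (Subgroup.mem_normalizer_iff.2 fun y => by
        constructor
        · intro hy
          rwa [← (hKt y hy).eq, mul_inv_cancel_right]
        · intro hy
          have h := (hKt _ hy).eq
          have h' : t * y * t⁻¹ = y := by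
            calc t * y * t⁻¹ = t⁻¹ * (t * (t * y * t⁻¹)) := by group
              _ = t⁻¹ * (t * y * t⁻¹ * t) := by rw [← h]
              _ = y := by group
          rwa [h'] at hy)
    rw [← SetLike.mem_coe, Subgroup.coe_mul_of_left_le_normalizer_right _ _ hn] at hmem
    obtain ⟨_, ⟨i, rfl⟩, y, hy, rfl⟩ := hmem
    rcases Int.even_or_odd' i with ⟨j, rfl | rfl⟩
    · left
      have : t ^ (2 * j) = 1 := by
        rw [← orderOf_dvd_iff_zpow_eq_one, ht]; exact Int.dvd_mul_right _ _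
      simpa [this] using hy
    · right
      have : t * t ^ (2 * j + 1) = 1 := by
        rw [← zpow_one_add, ← orderOf_dvd_iff_zpow_eq_one, ht]
        exact ⟨j + 1, by push_cast; ring⟩
      simpa [← mul_assoc, this] using hy
  · by_contra hx1
    refine h3 (involves_three_iff.2 ⟨s, x, ?_, ⟨1, ?_⟩, hx1, hinv⟩)
    · rcases (Nat.dvd_prime Nat.prime_two).1 (orderOf_dvd_of_pow_eq_one (x := s) (n := 2)
        (by rw [pow_two, hs2])) with h | h
      · exact ⟨0, by rw [h, pow_zero]⟩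
      · exact ⟨1, by rw [h, pow_one]⟩
    · have : Fact (Nat.Prime 3) := ⟨Nat.prime_three⟩
      rw [orderOf_eq_prime hx3 hx1, pow_one]

variable {G : Type u} [Group G] {t : G} {K : Subgroup G} {q : ℕ}

namespace Setup

variable (h : Setup G t K q)
include h

theorem t_mul : t * t = 1 := by rw [← pow_two, ← h.ht, pow_orderOf_eq_one]

theorem t_ne : t ≠ 1 := fun e => by
  have := h.ht
  rw [e, orderOf_one] at this
  omega

theorem t_inv : t⁻¹ = t := inv_eq_of_mul_eq_one_right h.t_mul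

theorem not_both {x : G} (hx : x ∈ K) : t * x ∉ K := fun htx =>
  h.tK (by simpa using K.mul_mem htx (K.inv_mem hx))

theorem comm_mul {x : G} (hx : t * x ∈ K) : Commute x t := by
  have h1 := h.comm _ hx
  have h2 : x = t * (t * x) := by rw [← mul_assoc, h.t_mul, one_mul]
  rw [h2]
  exact (Commute.refl t).mul_left h1

theorem conj_mem {x y : G} (hx : Commute x t) (hy : y ∈ K) : x * y * x⁻¹ ∈ K := by
  rcases h.decomp x hx with hx' | hx'
  · exact K.mul_mem (K.mul_mem hx' hy) (K.inv_mem hx')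
  · have hm := K.mul_mem (K.mul_mem hx' hy) (K.inv_mem hx')
    have hc : Commute (x * y * x⁻¹) t :=
      ((hx.mul_left (h.comm y hy)).mul_left hx.inv_left)
    have he : t * x * y * (t * x)⁻¹ = x * y * x⁻¹ := by
      calc t * x * y * (t * x)⁻¹ = t * (x * y * x⁻¹) * t⁻¹ := by group
        _ = x * y * x⁻¹ := by rw [← hc.eq, mul_inv_cancel_right]
    rwa [he] at hm

theorem q_odd : Odd q := Nat.odd_iff.2 (by have := h.facts.mod_eight; omega)

theorem three_dvd_q : 3 ∣ q := by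
  obtain ⟨m, hm⟩ := h.facts.three_pow
  rw [hm]
  refine dvd_pow_self 3 fun e => ?_
  have := h.facts.big
  rw [hm, e] at this
  norm_num at this

theorem one_le_q : 1 ≤ q := le_trans (by norm_num) h.facts.big

theorem card_C [Finite G] :
    Nat.card (Subgroup.centralizer ({t} : Set G)) = q * (q ^ 2 - 1) := by
  have hmem : ∀ p : Bool × K, (if p.1 then t else 1) * (p.2 : G) ∈
      Subgroup.centralizer ({t} : Set G) := by
    rintro ⟨b, y⟩
    rw [Subgroup.mem_centralizer_singleton_iff]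
    cases b
    · simpa using (h.comm _ y.2).eq
    · simpa using ((Commute.refl t).mul_left (h.comm _ y.2)).eq
  rw [← h.facts.card, show 2 * Nat.card K = Nat.card (Bool × K) by
    rw [Nat.card_prod, Nat.card_eq_fintype_card (α := Bool), Fintype.card_bool]]
  refine (Nat.card_eq_of_bijective (fun p => (⟨_, hmem p⟩ :
    Subgroup.centralizer ({t} : Set G))) ⟨?_, ?_⟩).symm
  · rintro ⟨b, y⟩ ⟨b', y'⟩ e
    have e' : (if b then t else 1) * (y : G) = (if b' then t else 1) * (y' : G) :=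
      congrArg Subtype.val e
    cases b <;> cases b' <;> simp at e'
    · exact Prod.ext rfl e'
    · exact absurd (show t * (y' : G) ∈ K from e' ▸ y.2) (h.not_both y'.2)
    · exact absurd (show t * (y : G) ∈ K by rw [e']; exact y'.2) (h.not_both y.2)
    · exact Prod.ext rfl e'
  · rintro ⟨x, hx⟩
    rcases h.decomp x (Subgroup.mem_centralizer_singleton_iff.1 hx) with hx' | hx'
    · exact ⟨(false, ⟨x, hx'⟩), Subtype.ext (by simp)⟩
    · exact ⟨(true, ⟨t * x, hx'⟩), Subtype.ext (by simp [← mul_assoc, h.t_mul])⟩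

theorem conjK2 {x y : G} (hx : x ∈ K) (hy : y ∈ K) (hx2 : orderOf x = 2) (hy2 : orderOf y = 2) :
    ∃ g ∈ K, g * x * g⁻¹ = y := by
  obtain ⟨⟨g, hg⟩, hgx⟩ := isConj_iff.1 (h.facts.conj2 ⟨x, hx⟩ ⟨y, hy⟩
    (by rwa [Subgroup.orderOf_mk]) (by rwa [Subgroup.orderOf_mk]))
  exact ⟨g, hg, congrArg Subtype.val hgx⟩

theorem conjK3 {x y : G} (hx : x ∈ K) (hy : y ∈ K) (hx3 : orderOf x = 3) (hy3 : orderOf y = 3) :
    ∃ g ∈ K, g * x * g⁻¹ = y ∨ g * x⁻¹ * g⁻¹ = y := by
  rcases h.facts.conj3 ⟨x, hx⟩ ⟨y, hy⟩ (by rwa [Subgroup.orderOf_mk])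
    (by rwa [Subgroup.orderOf_mk]) with c | c
  all_goals
    obtain ⟨⟨g, hg⟩, hgx⟩ := isConj_iff.1 c
  · exact ⟨g, hg, Or.inl (congrArg Subtype.val hgx)⟩
  · exact ⟨g, hg, Or.inr (congrArg Subtype.val hgx)⟩

theorem caK {x y w : G} (hx : x ∈ K) (hy : y ∈ K) (hw : w ∈ K) (hx2 : x * x ≠ 1)
    (hxy : Commute x y) (hxw : Commute x w) : Commute y w :=
  congrArg Subtype.val (h.facts.ca ⟨x, hx⟩ ⟨y, hy⟩ ⟨w, hw⟩
    (fun e => hx2 (congrArg Subtype.val e)) (Subtype.ext hxy.eq) (Subtype.ext hxw.eq)).eq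

theorem cubeK {x y : G} (hx : x ∈ K) (hy : y ∈ K) (hx3 : orderOf x = 3) (hxy : Commute y x) :
    y ^ 3 = 1 :=
  congrArg Subtype.val (h.facts.cube ⟨x, hx⟩ ⟨y, hy⟩ (by rwa [Subgroup.orderOf_mk])
    (Subtype.ext hxy.eq))

theorem dihK {k : G} (hk : k ∈ K) (hk2 : orderOf k = 2) :
    Nat.card (K ⊓ Subgroup.centralizer ({k} : Set G) : Subgroup G) = q + 1 ∧
    ∃ T : Subgroup G, T ≤ K ∧ k ∈ T ∧ 2 * Nat.card T = q + 1 ∧ (∀ y ∈ T, Commute y k) ∧
      (∀ x ∈ T, ∀ y ∈ T, Commute x y) ∧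
      ∀ x ∈ K, Commute x k → x ∉ T → x * x = 1 ∧ ∀ y ∈ T, x * y * x⁻¹ = y⁻¹ := by
  obtain ⟨hc, T, hkT, hcard, hcomm, hab, hout⟩ :=
    h.facts.dihedral ⟨k, hk⟩ (by rwa [Subgroup.orderOf_mk])
  refine ⟨?_, T.map K.subtype, Subgroup.map_subtype_le T, ⟨_, hkT, rfl⟩, ?_, ?_, ?_, ?_⟩
  · rw [← hc]
    refine Nat.card_congr
      { toFun := fun x => ⟨⟨x.1, x.2.1⟩, ?_⟩
        invFun := fun x => ⟨x.1.1, x.1.2, ?_⟩
        left_inv := fun x => rfl
        right_inv := fun x => rfl }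
    · exact Subgroup.mem_centralizer_singleton_iff.2
        (Subtype.ext (Subgroup.mem_centralizer_singleton_iff.1 x.2.2))
    · exact Subgroup.mem_centralizer_singleton_iff.2
        (congrArg Subtype.val (Subgroup.mem_centralizer_singleton_iff.1 x.2))
  · rw [← hcard]
    exact congrArg (2 * ·)
      (Nat.card_congr (T.equivMapOfInjective K.subtype K.subtype_injective).toEquiv).symm
  · rintro _ ⟨y, hy, rfl⟩
    exact congrArg Subtype.val (hcomm y hy).eq
  · rintro _ ⟨x, hx, rfl⟩ _ ⟨y, hy, rfl⟩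
    exact congrArg Subtype.val (hab x hx y hy).eq
  · intro x hxK hxk hxT
    obtain ⟨h1, h2⟩ := hout ⟨x, hxK⟩ (Subtype.ext hxk.eq) (fun e => hxT ⟨_, e, rfl⟩)
    refine ⟨congrArg Subtype.val h1, ?_⟩
    rintro _ ⟨y, hy, rfl⟩
    exact congrArg Subtype.val (h2 y hy)

end Setup

end CfsgLib.ReeSThree
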